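import Cfsg.Agent.Helper16.S4Defs2
import Cfsg.Agent.Helper3.IndFun

/-!
# CALL S3702 (helper16), PIECE SYM (helper53): the induced function of `1 - ζ^κ` from a subgroup
`A` inverted by `b`.
-/

set_option autoImplicit false

namespace Cfsg.Agent.Helper53

open Cfsg DihedralGroup Cfsg.Agent.Helper16

/-- values of `1 - ζ^k + 1 - ζ^(-k)`. -/
theorem s4_sym_val (ζ : ℂˣ) (hζ : ζ ^ 3 = 1) (hζ1 : ζ ≠ 1) (c : Multiplicative (ZMod 3)) :
    (1 - ((ζ ^ (Multiplicative.toAdd c).val : ℂˣ) : ℂ)) +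
      (1 - ((ζ ^ (Multiplicative.toAdd c⁻¹).val : ℂˣ) : ℂ)) = if c = 1 then 0 else 3 := by
  have hz : (ζ : ℂ) ^ 3 = 1 := by
    have := congrArg (fun u : ℂˣ => (u : ℂ)) hζ
    simpa using this
  have hz1 : (ζ : ℂ) ≠ 1 := fun h => hζ1 (Units.ext h)
  have hsum : 1 + (ζ : ℂ) + (ζ : ℂ) ^ 2 = 0 := by
    have h0 : ((ζ : ℂ) - 1) * (1 + (ζ : ℂ) + (ζ : ℂ) ^ 2) = 0 := by linear_combination hz
    rcases mul_eq_zero.1 h0 with h | h
    · exact absurd (sub_eq_zero.1 h) hz1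
    · exact h
  have key : ∀ k : ZMod 3,
      (1 - ((ζ ^ (Multiplicative.toAdd (Multiplicative.ofAdd k)).val : ℂˣ) : ℂ)) +
        (1 - ((ζ ^ (Multiplicative.toAdd (Multiplicative.ofAdd k)⁻¹).val : ℂˣ) : ℂ)) =
          if Multiplicative.ofAdd k = 1 then 0 else 3 := by
    intro k
    fin_cases k
    · have h1 : (Multiplicative.ofAdd (0 : ZMod 3)) = 1 := by decide
      have h2 : (Multiplicative.toAdd (Multiplicative.ofAdd (0 : ZMod 3))).val = 0 := by decide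
      have h3 : (Multiplicative.toAdd (Multiplicative.ofAdd (0 : ZMod 3))⁻¹).val = 0 := by decide
      show (1 - ((ζ ^ (Multiplicative.toAdd (Multiplicative.ofAdd (0 : ZMod 3))).val : ℂˣ) : ℂ)) +
        (1 - ((ζ ^ (Multiplicative.toAdd (Multiplicative.ofAdd (0 : ZMod 3))⁻¹).val : ℂˣ) : ℂ)) =
          if Multiplicative.ofAdd (0 : ZMod 3) = 1 then 0 else 3
      rw [if_pos h1, h2, h3]
      simp
    · have h1 : (Multiplicative.ofAdd (1 : ZMod 3)) ≠ 1 := by decide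
      have h2 : (Multiplicative.toAdd (Multiplicative.ofAdd (1 : ZMod 3))).val = 1 := by decide
      have h3 : (Multiplicative.toAdd (Multiplicative.ofAdd (1 : ZMod 3))⁻¹).val = 2 := by decide
      show (1 - ((ζ ^ (Multiplicative.toAdd (Multiplicative.ofAdd (1 : ZMod 3))).val : ℂˣ) : ℂ)) +
        (1 - ((ζ ^ (Multiplicative.toAdd (Multiplicative.ofAdd (1 : ZMod 3))⁻¹).val : ℂˣ) : ℂ)) =
          if Multiplicative.ofAdd (1 : ZMod 3) = 1 then 0 else 3
      rw [if_neg h1, h2, h3]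
      push_cast
      linear_combination (-1 : ℂ) * hsum
    · have h1 : (Multiplicative.ofAdd (2 : ZMod 3)) ≠ 1 := by decide
      have h2 : (Multiplicative.toAdd (Multiplicative.ofAdd (2 : ZMod 3))).val = 2 := by decide
      have h3 : (Multiplicative.toAdd (Multiplicative.ofAdd (2 : ZMod 3))⁻¹).val = 1 := by decide
      show (1 - ((ζ ^ (Multiplicative.toAdd (Multiplicative.ofAdd (2 : ZMod 3))).val : ℂˣ) : ℂ)) +
        (1 - ((ζ ^ (Multiplicative.toAdd (Multiplicative.ofAdd (2 : ZMod 3))⁻¹).val : ℂˣ) : ℂ)) =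
          if Multiplicative.ofAdd (2 : ZMod 3) = 1 then 0 else 3
      rw [if_neg h1, h2, h3]
      push_cast
      linear_combination (-1 : ℂ) * hsum
  exact key (Multiplicative.toAdd c)

-- SYM (general)
theorem s4_sym {G : Type*} [Group G] [Fintype G] (A : Subgroup G)
    (κ : ↥A →* Multiplicative (ZMod 3)) (ζ : ℂˣ) (hζ : ζ ^ 3 = 1) (hζ1 : ζ ≠ 1) (b : G)
    (hb : ∀ a : ↥A, ∃ a' : ↥A, (a' : G) = b⁻¹ * (a : G) * b ∧ κ a' = (κ a)⁻¹) (g : G) :
    Cfsg.indFun A (fun a : ↥A => 1 - s4Lin κ ζ a) g =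
      3 / (2 * (Nat.card A : ℂ)) *
        (Nat.card {t : G // ∃ a : ↥A, (a : G) = t⁻¹ * g * t ∧ κ a ≠ 1} : ℂ) := by
  classical
  -- conjugation by `b` maps `A` onto `A`
  have hconjA : ∀ u : G, b⁻¹ * u * b ∈ A → u ∈ A := by
    intro u hu
    obtain ⟨c, hc⟩ : ∃ c : A → A, ∀ a : A, ((c a : A) : G) = b⁻¹ * (a : G) * b :=
      ⟨fun a => Classical.choose (hb a), fun a => (Classical.choose_spec (hb a)).1⟩
    have hinj : Function.Injective c := by
      intro a₁ a₂ h12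
      have h := congrArg (fun x : A => (x : G)) h12
      simp only [hc] at h
      apply Subtype.ext
      have h' : b * (b⁻¹ * (a₁ : G) * b) * b⁻¹ = b * (b⁻¹ * (a₂ : G) * b) * b⁻¹ := by rw [h]
      simpa [mul_assoc] using h'
    have hsurj : Function.Surjective c := Finite.surjective_of_injective hinj
    obtain ⟨a, ha⟩ := hsurj ⟨b⁻¹ * u * b, hu⟩
    have h := congrArg (fun x : A => (x : G)) ha
    simp only [hc] at h
    have h' : b * (b⁻¹ * (a : G) * b) * b⁻¹ = b * (b⁻¹ * u * b) * b⁻¹ := by rw [h]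
    have h'' : (a : G) = u := by simpa [mul_assoc] using h'
    rw [← h'']; exact a.2
  obtain ⟨θ, hθ⟩ : ∃ θ : A → ℂ, ∀ a, θ a = 1 - s4Lin κ ζ a := ⟨_, fun _ => rfl⟩
  have hθ' : (fun a : ↥A => 1 - s4Lin κ ζ a) = θ := by funext a; rw [hθ]
  rw [hθ']
  obtain ⟨f, hf⟩ : ∃ f : G → ℂ, ∀ t, f t = Cfsg.extendByZero A θ (t⁻¹ * g * t) :=
    ⟨_, fun _ => rfl⟩
  -- pointwise
  have hpt : ∀ t : G, f t + f (t * b) =
      if (∃ a : ↥A, (a : G) = t⁻¹ * g * t ∧ κ a ≠ 1) then 3 else 0 := by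
    intro t
    have hconj : (t * b)⁻¹ * g * (t * b) = b⁻¹ * (t⁻¹ * g * t) * b := by group
    rw [hf, hf, hconj]
    by_cases hu : t⁻¹ * g * t ∈ A
    · obtain ⟨a', ha', hκ⟩ := hb ⟨t⁻¹ * g * t, hu⟩
      have ha'' : b⁻¹ * (t⁻¹ * g * t) * b = (a' : G) := ha'.symm
      rw [Cfsg.Agent.Helper3.extendByZero_of_mem A θ hu, ha'',
        Cfsg.Agent.Helper3.extendByZero_coe, hθ, hθ]
      unfold s4Lin
      rw [hκ, s4_sym_val ζ hζ hζ1]
      by_cases hk : κ ⟨t⁻¹ * g * t, hu⟩ = 1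
      · rw [if_pos hk, if_neg]
        rintro ⟨a, ha, hane⟩
        apply hane
        have : a = ⟨t⁻¹ * g * t, hu⟩ := Subtype.ext ha
        rw [this]; exact hk
      · rw [if_neg hk, if_pos]
        exact ⟨⟨t⁻¹ * g * t, hu⟩, rfl, hk⟩
    · have hu' : b⁻¹ * (t⁻¹ * g * t) * b ∉ A := fun h => hu (hconjA _ h)
      rw [Cfsg.Agent.Helper3.extendByZero_of_not_mem A θ hu,
        Cfsg.Agent.Helper3.extendByZero_of_not_mem A θ hu', if_neg, add_zero]
      rintro ⟨a, ha, -⟩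
      apply hu
      rw [← ha]; exact a.2
  have hre : ∑ t : G, f (t * b) = ∑ t : G, f t := Equiv.sum_comp (Equiv.mulRight b) f
  have h2S : 2 * ∑ t : G, f t =
      3 * (Nat.card {t : G // ∃ a : ↥A, (a : G) = t⁻¹ * g * t ∧ κ a ≠ 1} : ℂ) := by
    have h1 : 2 * ∑ t : G, f t = ∑ t : G, (f t + f (t * b)) := by
      rw [Finset.sum_add_distrib, hre]; ring
    rw [h1, Finset.sum_congr rfl (fun t _ => hpt t), Finset.sum_ite, Finset.sum_const,
      Finset.sum_const_zero, add_zero, Nat.card_eq_fintype_card, Fintype.card_subtype]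
    simp [mul_comm]
  unfold Cfsg.indFun
  have hS : ∑ x : G, Cfsg.extendByZero A θ (x⁻¹ * g * x) = ∑ t : G, f t := by
    apply Finset.sum_congr rfl
    intro t _
    rw [hf]
  rw [hS]
  have h3 : ∑ t : G, f t =
      3 / 2 * (Nat.card {t : G // ∃ a : ↥A, (a : G) = t⁻¹ * g * t ∧ κ a ≠ 1} : ℂ) := by
    linear_combination (1 / 2 : ℂ) * h2S
  rw [h3]
  ring

end Cfsg.Agent.Helper53
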