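import Cfsg.Agent.Helper16.S4Defs2
import Cfsg.Agent.Helper53.S4SYM

/-!
# CALL S3702 (helper16), PIECE REPC, core (helper53): the model facts are hypotheses.
-/

set_option autoImplicit false

namespace Cfsg.Agent.Helper53

open Cfsg DihedralGroup Cfsg.Agent.Helper16

section

variable {G : Type*} [Group G] {φ : SM →* G} {W : Subgroup G}

theorem s4_repC_core [Fintype G] (hW : XData φ W) (hX : XFacts φ W)
    (hPmul : ∀ p q : SM, sP p → sP q → sP (p * q))
    (hPA4 : ∀ p : SM, sP p → dRefl p.d = false)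
    (hkap : ∀ a b : SM, dRefl a.d = false → dRefl b.d = false → kap (a * b) = kap a + kap b)
    (hkx : kap sx = 1)
    (hb2 : sb ^ 2 = 1)
    (hbP : ∀ p : SM, sP p → sP (sb⁻¹ * p * sb) ∧ kap (sb⁻¹ * p * sb) = - kap p)
    (ζ : ℂˣ) (hζ : ζ ^ 3 = 1) (hζ1 : ζ ≠ 1) :
    ∃ (A : Subgroup G) (κ : ↥A →* Multiplicative (ZMod 3)), (∃ a, κ a ≠ 1) ∧
      ∀ g : G, Cfsg.indFun A (fun a : ↥A => 1 - s4Lin κ ζ a) g =
        3 / 2 * ((Nat.card (s4NC φ W g) : ℂ) / (9 * (Nat.card W : ℂ))) := by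
  classical
  have hPc : ∀ p : SM, sP p → φ p * φ sx = φ sx * φ p := by
    intro p hp
    rw [← map_mul, ← map_mul]; exact congrArg φ hp
  have hmemA : ∀ w ∈ W, ∀ p : SM, sP p →
      w * φ p ∈ Subgroup.centralizer ({φ sx} : Set G) := by
    intro w hw p hp
    rw [Subgroup.mem_centralizer_singleton_iff, mul_assoc, hPc p hp, ← mul_assoc, hW.le w hw,
      mul_assoc]
  have hdec : ∀ c : Subgroup.centralizer ({φ sx} : Set G),
      ∃ p : SM, sP p ∧ ∃ w ∈ W, (c : G) = w * φ p := by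
    intro c
    have hc := Subgroup.mem_centralizer_singleton_iff.1 c.2
    obtain ⟨w, hw, p, hp, hcp⟩ := hW.dec c hc
    exact ⟨p, hp, w, hw, hcp⟩
  obtain ⟨pOf, hpOf⟩ : ∃ pOf : Subgroup.centralizer ({φ sx} : Set G) → SM,
      ∀ c, sP (pOf c) ∧ ∃ w ∈ W, (c : G) = w * φ (pOf c) :=
    ⟨fun c => Classical.choose (hdec c), fun c => Classical.choose_spec (hdec c)⟩
  have hpOf_eq : ∀ (c : Subgroup.centralizer ({φ sx} : Set G)) (w : G) (p : SM), w ∈ W → sP p →
      (c : G) = w * φ p → pOf c = p := by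
    intro c w p hw hp hc
    obtain ⟨hp', w', hw', hc'⟩ := hpOf c
    rw [hc] at hc'
    exact ((hX.uniq w hw w' hw' p (pOf c) hp hp' hc').2).symm
  have hmul : ∀ c c' : Subgroup.centralizer ({φ sx} : Set G),
      Multiplicative.ofAdd (kap (pOf (c * c'))) =
        Multiplicative.ofAdd (kap (pOf c)) * Multiplicative.ofAdd (kap (pOf c')) := by
    intro c c'
    obtain ⟨hp, w, hw, hc⟩ := hpOf c
    obtain ⟨hp', w', hw', hc'⟩ := hpOf c'
    have hprod : ((c * c' : Subgroup.centralizer ({φ sx} : Set G)) : G) =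
        (w * (φ (pOf c) * w' * (φ (pOf c))⁻¹)) * φ (pOf c * pOf c') := by
      rw [Subgroup.coe_mul, hc, hc', map_mul]; group
    have hw'' : w * (φ (pOf c) * w' * (φ (pOf c))⁻¹) ∈ W :=
      W.mul_mem hw (hW.norm _ (hPc _ hp) w' hw')
    rw [hpOf_eq (c * c') _ _ hw'' (hPmul _ _ hp hp') hprod, hkap _ _ (hPA4 _ hp) (hPA4 _ hp'),
      ofAdd_add]
  obtain ⟨κ, hκdef⟩ : ∃ κ : Subgroup.centralizer ({φ sx} : Set G) →* Multiplicative (ZMod 3),
      ∀ c, κ c = Multiplicative.ofAdd (kap (pOf c)) :=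
    ⟨MonoidHom.mk' (fun c => Multiplicative.ofAdd (kap (pOf c))) hmul, fun _ => rfl⟩
  have hκ : ∀ (c : Subgroup.centralizer ({φ sx} : Set G)) (w : G) (p : SM), w ∈ W → sP p →
      (c : G) = w * φ p → κ c = Multiplicative.ofAdd (kap p) := by
    intro c w p hw hp hc
    rw [hκdef, hpOf_eq c w p hw hp hc]
  refine ⟨Subgroup.centralizer ({φ sx} : Set G), κ, ?_, ?_⟩
  · have hxmem : φ sx ∈ Subgroup.centralizer ({φ sx} : Set G) :=
      Subgroup.mem_centralizer_singleton_iff.2 rfl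
    refine ⟨⟨φ sx, hxmem⟩, ?_⟩
    have hsPx : sP sx := rfl
    rw [hκ ⟨φ sx, hxmem⟩ 1 sx W.one_mem hsPx (by simp), hkx]
    decide
  · intro g
    have hbinv : (φ sb)⁻¹ = φ sb := by
      have h1 : φ sb * φ sb = 1 := by rw [← map_mul, ← pow_two, hb2, map_one]
      exact inv_eq_of_mul_eq_one_left h1
    have hb : ∀ a : Subgroup.centralizer ({φ sx} : Set G),
        ∃ a' : Subgroup.centralizer ({φ sx} : Set G),
          (a' : G) = (φ sb)⁻¹ * (a : G) * φ sb ∧ κ a' = (κ a)⁻¹ := by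
      intro a
      obtain ⟨hp, w, hw, hc⟩ := hpOf a
      obtain ⟨hp2, hk2⟩ := hbP _ hp
      have hw2 : (φ sb)⁻¹ * w * φ sb ∈ W := by
        have h1 := hX.b w hw
        rw [hbinv] at h1 ⊢
        exact h1
      have heq : (φ sb)⁻¹ * (a : G) * φ sb =
          ((φ sb)⁻¹ * w * φ sb) * φ (sb⁻¹ * pOf a * sb) := by
        rw [hc, map_mul, map_mul, map_inv]; group
      have hmem : (φ sb)⁻¹ * (a : G) * φ sb ∈ Subgroup.centralizer ({φ sx} : Set G) := by
        rw [heq]; exact hmemA _ hw2 _ hp2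
      refine ⟨⟨_, hmem⟩, rfl, ?_⟩
      rw [hκ ⟨_, hmem⟩ _ _ hw2 hp2 heq, hκ a w (pOf a) hw hp hc, hk2, ofAdd_neg]
    rw [s4_sym (Subgroup.centralizer ({φ sx} : Set G)) κ ζ hζ hζ1 (φ sb) hb g]
    have hcard : Nat.card {t : G // ∃ a : Subgroup.centralizer ({φ sx} : Set G),
        (a : G) = t⁻¹ * g * t ∧ κ a ≠ 1} = Nat.card (s4NC φ W g) := by
      apply Nat.card_congr
      apply Equiv.subtypeEquivRight
      intro t
      constructor
      · rintro ⟨a, ha, hane⟩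
        obtain ⟨hp, w, hw, hc⟩ := hpOf a
        refine ⟨w, hw, pOf a, hp, ?_, ?_⟩
        · intro h0
          apply hane
          rw [hκ a w (pOf a) hw hp hc, h0]; rfl
        · rw [← ha, hc]
      · rintro ⟨w, hw, m, hm, hk, ht⟩
        have hmem := hmemA w hw m hm
        refine ⟨⟨w * φ m, hmem⟩, ht.symm, ?_⟩
        rw [hκ ⟨w * φ m, hmem⟩ w m hw hm rfl]
        intro h1
        exact hk (ofAdd_eq_one.1 h1)
    rw [hcard, hX.card]
    push_cast
    ring

end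

end Cfsg.Agent.Helper53
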