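import Cfsg.Agent.Helper16.S4Defs2
import Cfsg.Agent.Helper53.S4REPCCore

/-!
# CALL S3702 (helper16), PIECE REPC (helper53): `s4_repC`, with the few model facts it needs
proved here directly.
-/

set_option autoImplicit false

namespace Cfsg.Agent.Helper53

open Cfsg DihedralGroup Cfsg.Agent.Helper16

theorem s4c_P_mul : ∀ p q : SM, sP p → sP q → sP (p * q) := by
  intro p q hp hq
  unfold sP at *
  rw [mul_assoc, hq, ← mul_assoc, hp, mul_assoc]

theorem s4c_d_mul (a b : SM) : (a * b).d = a.d * b.d := rfl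

theorem s4c_d_inv (a : SM) : (a⁻¹).d = a.d⁻¹ := rfl

theorem s4c_P_A4 : ∀ p : SM, sP p → dRefl p.d = false := by
  intro p hp
  have h := congrArg SM.d hp
  rw [s4c_d_mul, s4c_d_mul] at h
  have hsx : sx.d = r 1 := rfl
  rw [hsx] at h
  revert h
  generalize p.d = d
  revert d
  decide

theorem s4c_kap_mul : ∀ a b : SM, dRefl a.d = false → dRefl b.d = false →
    kap (a * b) = kap a + kap b := by
  intro a b ha hb
  unfold kap
  rw [s4c_d_mul]
  revert ha hb
  generalize a.d = d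
  generalize b.d = d'
  revert d d'
  decide

theorem s4c_kx : kap sx = 1 := by decide

theorem s4c_b2 : sb ^ 2 = 1 := by decide

theorem s4c_bx : sb * sx * sb⁻¹ = sx⁻¹ := by decide

theorem s4c_b_P : ∀ p : SM, sP p → sP (sb⁻¹ * p * sb) ∧ kap (sb⁻¹ * p * sb) = - kap p := by
  intro p hp
  have hA4 := s4c_P_A4 p hp
  constructor
  · unfold sP at *
    have hp' : p * sx⁻¹ = sx⁻¹ * p := by
      calc p * sx⁻¹ = sx⁻¹ * (sx * p) * sx⁻¹ := by group
        _ = sx⁻¹ * (p * sx) * sx⁻¹ := by rw [hp]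
        _ = sx⁻¹ * p := by group
    calc sb⁻¹ * p * sb * sx = sb⁻¹ * p * (sb * sx * sb⁻¹) * sb := by group
      _ = sb⁻¹ * (p * sx⁻¹) * sb := by rw [s4c_bx]; group
      _ = sb⁻¹ * (sx⁻¹ * p) * sb := by rw [hp']
      _ = sb⁻¹ * (sb * sx * sb⁻¹) * p * sb := by rw [s4c_bx]; group
      _ = sx * (sb⁻¹ * p * sb) := by group
  · unfold kap
    rw [s4c_d_mul, s4c_d_mul, s4c_d_inv]
    have hsb : sb.d = sr 0 := rfl
    rw [hsb]
    revert hA4
    generalize p.d = d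
    revert d
    decide

section

variable {G : Type*} [Group G] {φ : SM →* G} {W : Subgroup G}

-- REPC
theorem s4_repC [Fintype G] (h : S4Cfg φ) (hW : XData φ W) (hX : XFacts φ W) (ζ : ℂˣ)
    (hζ : ζ ^ 3 = 1) (hζ1 : ζ ≠ 1) :
    ∃ (A : Subgroup G) (κ : ↥A →* Multiplicative (ZMod 3)), (∃ a, κ a ≠ 1) ∧
      ∀ g : G, Cfsg.indFun A (fun a : ↥A => 1 - s4Lin κ ζ a) g =
        3 / 2 * ((Nat.card (s4NC φ W g) : ℂ) / (9 * (Nat.card W : ℂ))) := by
  exact s4_repC_core hW hX s4c_P_mul s4c_P_A4 s4c_kap_mul s4c_kx s4c_b2 s4c_b_P ζ hζ hζ1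

end

end Cfsg.Agent.Helper53
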