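import Cfsg.Agent.Helper16.S4Defs2
import Cfsg.Agent.Helper53.S4REPC

/-!
# CALL S3702 (helper16), PIECES REP1 and REPP (helper53, doubling): `s4_rep1`, `s4_repP`,
from a generic lemma for a subgroup of the rotation part of `SM`.
-/

set_option autoImplicit false

namespace Cfsg.Agent.Helper53

open Cfsg DihedralGroup Cfsg.Agent.Helper16

theorem s4c_b_kap : ∀ a : SM, dRefl a.d = false → kap (sb⁻¹ * a * sb) = - kap a := by
  intro a ha
  unfold kap
  rw [s4c_d_mul, s4c_d_mul, s4c_d_inv]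
  have hsb : sb.d = sr 0 := rfl
  rw [hsb]
  revert ha
  generalize a.d = d
  revert d
  decide

theorem s4c_b_rot : ∀ a : SM, dRefl a.d = false → dRefl (sb⁻¹ * a * sb).d = false := by
  intro a ha
  rw [s4c_d_mul, s4c_d_mul, s4c_d_inv]
  have hsb : sb.d = sr 0 := rfl
  rw [hsb]
  revert ha
  generalize a.d = d
  revert d
  decide

theorem s4c_R_iff : ∀ a : SM, sR a ↔ (dRefl a.d = false ∧ kap a ≠ 0) := by
  intro a
  unfold sR kap
  generalize a.d = d
  revert d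
  decide

set_option maxRecDepth 1000000 in
theorem s4c_card_P : (Finset.univ.filter (fun m : SM => m * sx = sx * m)).card = 9 := by
  decide +kernel

set_option maxRecDepth 1000000 in
theorem s4c_card_A4 : (Finset.univ.filter (fun m : SM => dRefl m.d = false)).card = 324 := by
  decide +kernel

/-- the rotation part `J A₄` of `SM` -/
def s4cRot : Subgroup SM where
  carrier := {a | dRefl a.d = false}
  mul_mem' := by
    intro a b ha hb
    show dRefl (a * b).d = false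
    rw [s4c_d_mul]
    have ha' : dRefl a.d = false := ha
    have hb' : dRefl b.d = false := hb
    revert ha' hb'
    generalize a.d = d
    generalize b.d = d'
    revert d d'
    decide
  one_mem' := by
    show dRefl (1 : SM).d = false
    rfl
  inv_mem' := by
    intro a ha
    show dRefl (a⁻¹).d = false
    rw [s4c_d_inv]
    have ha' : dRefl a.d = false := ha
    revert ha'
    generalize a.d = d
    revert d
    decide

theorem s4c_mem_rot (a : SM) : a ∈ s4cRot ↔ dRefl a.d = false := Iff.rfl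

/-- generic version of REP1 / REPP -/
theorem s4_rep_gen {G : Type*} [Group G] [Fintype G] {φ : SM →* G}
    (hinj : Function.Injective φ) (S : Subgroup SM) (hrot : ∀ a ∈ S, dRefl a.d = false)
    (hx : sx ∈ S) (hbS : ∀ a ∈ S, sb⁻¹ * a * sb ∈ S)
    (ζ : ℂˣ) (hζ : ζ ^ 3 = 1) (hζ1 : ζ ≠ 1) :
    ∃ (A : Subgroup G) (κ : ↥A →* Multiplicative (ZMod 3)), (∃ a, κ a ≠ 1) ∧
      ∀ g : G, Cfsg.indFun A (fun a : ↥A => 1 - s4Lin κ ζ a) g =
        3 / (2 * (Nat.card S : ℂ)) *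
          (Nat.card {t : G // ∃ m : SM, m ∈ S ∧ kap m ≠ 0 ∧ t⁻¹ * g * t = φ m} : ℂ) := by
  classical
  have hdec : ∀ c : S.map φ, ∃ a : SM, a ∈ S ∧ φ a = (c : G) := fun c => Subgroup.mem_map.1 c.2
  obtain ⟨aOf, haOf⟩ : ∃ aOf : S.map φ → SM, ∀ c, aOf c ∈ S ∧ φ (aOf c) = (c : G) :=
    ⟨fun c => Classical.choose (hdec c), fun c => Classical.choose_spec (hdec c)⟩
  have haOf_eq : ∀ (c : S.map φ) (a : SM), φ a = (c : G) → aOf c = a := by
    intro c a ha
    apply hinj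
    rw [(haOf c).2, ha]
  have hmul : ∀ c c' : S.map φ,
      Multiplicative.ofAdd (kap (aOf (c * c'))) =
        Multiplicative.ofAdd (kap (aOf c)) * Multiplicative.ofAdd (kap (aOf c')) := by
    intro c c'
    have h1 : aOf (c * c') = aOf c * aOf c' := by
      apply haOf_eq
      rw [map_mul, (haOf c).2, (haOf c').2, Subgroup.coe_mul]
    rw [h1, s4c_kap_mul _ _ (hrot _ (haOf c).1) (hrot _ (haOf c').1), ofAdd_add]
  obtain ⟨κ, hκdef⟩ : ∃ κ : S.map φ →* Multiplicative (ZMod 3),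
      ∀ c, κ c = Multiplicative.ofAdd (kap (aOf c)) :=
    ⟨MonoidHom.mk' (fun c => Multiplicative.ofAdd (kap (aOf c))) hmul, fun _ => rfl⟩
  have hκ : ∀ (c : S.map φ) (a : SM), φ a = (c : G) → κ c = Multiplicative.ofAdd (kap a) := by
    intro c a ha
    rw [hκdef, haOf_eq c a ha]
  refine ⟨S.map φ, κ, ?_, ?_⟩
  · have hxmem : φ sx ∈ S.map φ := Subgroup.mem_map_of_mem φ hx
    refine ⟨⟨φ sx, hxmem⟩, ?_⟩
    rw [hκ ⟨φ sx, hxmem⟩ sx rfl, s4c_kx]
    decide
  · intro g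
    have hb : ∀ a : S.map φ, ∃ a' : S.map φ,
        (a' : G) = (φ sb)⁻¹ * (a : G) * φ sb ∧ κ a' = (κ a)⁻¹ := by
      intro a
      obtain ⟨ha1, ha2⟩ := haOf a
      have heq : φ (sb⁻¹ * aOf a * sb) = (φ sb)⁻¹ * (a : G) * φ sb := by
        rw [map_mul, map_mul, map_inv, ha2]
      have hmem : (φ sb)⁻¹ * (a : G) * φ sb ∈ S.map φ := by
        rw [← heq]; exact Subgroup.mem_map_of_mem φ (hbS _ ha1)
      refine ⟨⟨_, hmem⟩, rfl, ?_⟩
      rw [hκ ⟨_, hmem⟩ _ heq, hκ a (aOf a) ha2, s4c_b_kap _ (hrot _ ha1), ofAdd_neg]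
    rw [s4_sym (S.map φ) κ ζ hζ hζ1 (φ sb) hb g]
    have hcard : Nat.card {t : G // ∃ a : S.map φ, (a : G) = t⁻¹ * g * t ∧ κ a ≠ 1} =
        Nat.card {t : G // ∃ m : SM, m ∈ S ∧ kap m ≠ 0 ∧ t⁻¹ * g * t = φ m} := by
      apply Nat.card_congr
      apply Equiv.subtypeEquivRight
      intro t
      constructor
      · rintro ⟨a, ha, hane⟩
        obtain ⟨ha1, ha2⟩ := haOf a
        refine ⟨aOf a, ha1, ?_, ?_⟩
        · intro h0
          apply hane
          rw [hκ a (aOf a) ha2, h0]; rfl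
        · rw [← ha, ha2]
      · rintro ⟨m, hm, hk, ht⟩
        have hmem : φ m ∈ S.map φ := Subgroup.mem_map_of_mem φ hm
        refine ⟨⟨φ m, hmem⟩, ht.symm, ?_⟩
        rw [hκ ⟨φ m, hmem⟩ m rfl]
        intro h1
        exact hk (ofAdd_eq_one.1 h1)
    have hcardA : Nat.card (S.map φ) = Nat.card S :=
      (Nat.card_congr (S.equivMapOfInjective φ hinj).toEquiv).symm
    rw [hcard, hcardA]

section

variable {G : Type*} [Group G] {φ : SM →* G} {W : Subgroup G}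

-- REP1
theorem s4_rep1 [Fintype G] (h : S4Cfg φ) (ζ : ℂˣ) (hζ : ζ ^ 3 = 1) (hζ1 : ζ ≠ 1) :
    ∃ (A : Subgroup G) (κ : ↥A →* Multiplicative (ZMod 3)), (∃ a, κ a ≠ 1) ∧
      ∀ g : G, Cfsg.indFun A (fun a : ↥A => 1 - s4Lin κ ζ a) g =
        3 / 2 * ((Nat.card (s4N1 φ g) : ℂ) / 324) := by
  classical
  obtain ⟨A, κ, hne, hA⟩ := s4_rep_gen h.inj s4cRot (fun a ha => ha) rfl
    (fun a ha => s4c_b_rot a ha) ζ hζ hζ1
  refine ⟨A, κ, hne, fun g => ?_⟩
  rw [hA g]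
  have hcardS : Nat.card s4cRot = 324 := by
    rw [Nat.card_eq_fintype_card, ← s4c_card_A4, ← Fintype.card_subtype]
    exact Fintype.card_congr (Equiv.subtypeEquivRight (fun a => s4c_mem_rot a))
  have hset : Nat.card {t : G // ∃ m : SM, m ∈ s4cRot ∧ kap m ≠ 0 ∧ t⁻¹ * g * t = φ m} =
      Nat.card (s4N1 φ g) := by
    apply Nat.card_congr
    apply Equiv.subtypeEquivRight
    intro t
    constructor
    · rintro ⟨m, hm, hk, ht⟩
      exact ⟨m, (s4c_R_iff m).2 ⟨hm, hk⟩, ht⟩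
    · rintro ⟨m, hm, ht⟩
      exact ⟨m, ((s4c_R_iff m).1 hm).1, ((s4c_R_iff m).1 hm).2, ht⟩
  rw [hcardS, hset]
  push_cast
  ring

-- REPP
theorem s4_repP [Fintype G] (h : S4Cfg φ) (ζ : ℂˣ) (hζ : ζ ^ 3 = 1) (hζ1 : ζ ≠ 1) :
    ∃ (A : Subgroup G) (κ : ↥A →* Multiplicative (ZMod 3)), (∃ a, κ a ≠ 1) ∧
      ∀ g : G, Cfsg.indFun A (fun a : ↥A => 1 - s4Lin κ ζ a) g =
        3 / 2 * ((Nat.card (s4NP φ g) : ℂ) / 9) := by
  classical
  have hmemP : ∀ a : SM, a ∈ Subgroup.centralizer ({sx} : Set SM) ↔ sP a := fun a =>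
    Subgroup.mem_centralizer_singleton_iff
  obtain ⟨A, κ, hne, hA⟩ := s4_rep_gen h.inj (Subgroup.centralizer ({sx} : Set SM))
    (fun a ha => s4c_P_A4 a ((hmemP a).1 ha)) ((hmemP sx).2 rfl)
    (fun a ha => (hmemP _).2 (s4c_b_P a ((hmemP a).1 ha)).1) ζ hζ hζ1
  refine ⟨A, κ, hne, fun g => ?_⟩
  rw [hA g]
  have hcardS : Nat.card (Subgroup.centralizer ({sx} : Set SM)) = 9 := by
    rw [Nat.card_eq_fintype_card, ← s4c_card_P, ← Fintype.card_subtype]
    exact Fintype.card_congr (Equiv.subtypeEquivRight (fun a => hmemP a))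
  have hset : Nat.card {t : G // ∃ m : SM, m ∈ Subgroup.centralizer ({sx} : Set SM) ∧
      kap m ≠ 0 ∧ t⁻¹ * g * t = φ m} = Nat.card (s4NP φ g) := by
    apply Nat.card_congr
    apply Equiv.subtypeEquivRight
    intro t
    constructor
    · rintro ⟨m, hm, hk, ht⟩
      exact ⟨m, (hmemP m).1 hm, hk, ht⟩
    · rintro ⟨m, hm, hk, ht⟩
      exact ⟨m, (hmemP m).2 hm, hk, ht⟩
  rw [hcardS, hset]
  push_cast
  ring

end

end Cfsg.Agent.Helper53
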