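import Cfsg.Agent.Helper16.S4Defs2
import Cfsg.Agent.Helper16.H3Glue

/-!
# CALL S3702 (helper16), PIECE TI, core (helper53, doubling): the TI property of `E`, with the
model facts as hypotheses.
-/

set_option autoImplicit false

namespace Cfsg.Agent.Helper53

open Cfsg DihedralGroup Cfsg.Agent.Helper16

theorem s4_ti_core {G : Type*} [Group G] {φ : SM →* G}
    (hEconj : ∀ k m : SM, sE m → sE (k⁻¹ * m * k))
    (hEpow : ∀ m : SM, sE m → ∃ k : ℕ, sJ (m ^ k) ∧ m ^ k ≠ 1)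
    (hJcomm : ∀ a b : SM, sJ a → sJ b → a * b = b * a)
    (hj1 : sJ sj1 ∧ sj1 ≠ 1 ∧ sy0 ^ 4 = 1 ∧ sy0 ^ 2 ≠ 1 ∧ sy0 * sj1 = sj1 * sy0)
    (hj1conj : ∀ j' : SM, sJ j' → j' ≠ 1 →
      (∃ y : SM, y ^ 4 = 1 ∧ y ^ 2 ≠ 1 ∧ y * j' = j' * y) → ∃ s : SM, j' = s * sj1 * s⁻¹)
    (h : S4Cfg φ) : TICfg φ sE := by
  refine ⟨h.inj, hEconj, ?_⟩
  intro m hm g hg
  obtain ⟨m₁, hm₁⟩ := hg
  -- conjugation by g as a function
  have hcpow : ∀ (a : G) (n : ℕ), (g * a * g⁻¹) ^ n = g * a ^ n * g⁻¹ := by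
    intro a n
    induction n with
    | zero => simp
    | succ n ih => rw [pow_succ, ih, pow_succ]; group
  have hcne : ∀ a : SM, a ≠ 1 → g * φ a * g⁻¹ ≠ 1 := by
    intro a ha h1
    apply ha
    apply h.inj
    rw [map_one]
    have : φ a = g⁻¹ * (g * φ a * g⁻¹) * g := by group
    rw [this, h1]; group
  -- step 1: j = m ^ k ∈ J#
  obtain ⟨k, hjJ, hj1'⟩ := hEpow m hm
  have hgj : g * φ (m ^ k) * g⁻¹ ∈ φ.range := by
    refine ⟨m₁ ^ k, ?_⟩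
    rw [map_pow, hm₁, hcpow, map_pow]
  obtain ⟨j', hj'J, hj'⟩ := h.sc (m ^ k) hjJ g hgj
  have hj'ne : j' ≠ 1 := by
    intro h1
    apply hcne (m ^ k) hj1'
    rw [hj', h1, map_one]
  -- step 2: g φ n g⁻¹ ∈ φ J for every n ∈ J
  have hJ : ∀ n : SM, sJ n → ∃ n' : SM, sJ n' ∧ g * φ n * g⁻¹ = φ n' := by
    intro n hn
    apply h.sc n hn g
    apply h.cent j' hj'J hj'ne
    rw [← hj']
    have hc : φ n * φ (m ^ k) = φ (m ^ k) * φ n := by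
      rw [← map_mul, ← map_mul, hJcomm n (m ^ k) hn hjJ]
    calc g * φ n * g⁻¹ * (g * φ (m ^ k) * g⁻¹) = g * (φ n * φ (m ^ k)) * g⁻¹ := by group
      _ = g * (φ (m ^ k) * φ n) * g⁻¹ := by rw [hc]
      _ = g * φ (m ^ k) * g⁻¹ * (g * φ n * g⁻¹) := by group
  -- step 3: n = sj1
  obtain ⟨hs1, hs1ne, hy4, hy2, hycomm⟩ := hj1
  obtain ⟨j₁, hj₁J, hj₁⟩ := hJ sj1 hs1
  have hj₁ne : j₁ ≠ 1 := by
    intro h1
    apply hcne sj1 hs1ne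
    rw [hj₁, h1, map_one]
  -- step 4: g φ sy0 g⁻¹ = φ y
  have hyr : g * φ sy0 * g⁻¹ ∈ φ.range := by
    apply h.cent j₁ hj₁J hj₁ne
    rw [← hj₁]
    have hc : φ sy0 * φ sj1 = φ sj1 * φ sy0 := by
      rw [← map_mul, ← map_mul, hycomm]
    calc g * φ sy0 * g⁻¹ * (g * φ sj1 * g⁻¹) = g * (φ sy0 * φ sj1) * g⁻¹ := by group
      _ = g * (φ sj1 * φ sy0) * g⁻¹ := by rw [hc]
      _ = g * φ sj1 * g⁻¹ * (g * φ sy0 * g⁻¹) := by group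
  obtain ⟨y, hy⟩ := hyr
  have hy4' : y ^ 4 = 1 := by
    apply h.inj
    rw [map_pow, hy, hcpow, ← map_pow, hy4, map_one]
    simp
  have hy2' : y ^ 2 ≠ 1 := by
    intro h1
    have h2 := congrArg φ h1
    rw [map_pow, hy, hcpow, ← map_pow, map_one] at h2
    exact hcne (sy0 ^ 2) hy2 h2
  have hyc : y * j₁ = j₁ * y := by
    apply h.inj
    rw [map_mul, map_mul, hy, ← hj₁]
    have hc : φ sy0 * φ sj1 = φ sj1 * φ sy0 := by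
      rw [← map_mul, ← map_mul, hycomm]
    calc g * φ sy0 * g⁻¹ * (g * φ sj1 * g⁻¹) = g * (φ sy0 * φ sj1) * g⁻¹ := by group
      _ = g * (φ sj1 * φ sy0) * g⁻¹ := by rw [hc]
      _ = g * φ sj1 * g⁻¹ * (g * φ sy0 * g⁻¹) := by group
  -- step 5
  obtain ⟨s, hs⟩ := hj1conj j₁ hj₁J hj₁ne ⟨y, hy4', hy2', hyc⟩
  -- step 6
  have hcr : (φ s)⁻¹ * g ∈ φ.range := by
    apply h.cent sj1 hs1 hs1ne
    have h1 : g * φ sj1 * g⁻¹ = φ s * φ sj1 * (φ s)⁻¹ := by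
      rw [hj₁, hs, map_mul, map_mul, map_inv]
    calc (φ s)⁻¹ * g * φ sj1 = (φ s)⁻¹ * (g * φ sj1 * g⁻¹) * g := by group
      _ = (φ s)⁻¹ * (φ s * φ sj1 * (φ s)⁻¹) * g := by rw [h1]
      _ = φ sj1 * ((φ s)⁻¹ * g) := by group
  obtain ⟨c₀, hc₀⟩ := hcr
  refine ⟨s * c₀, ?_⟩
  rw [map_mul, hc₀]
  group

end Cfsg.Agent.Helper53
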