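import Mathlib
import Cfsg.Agent.Helper40.KGLDefs

/-!
# CALL S2478, PIECE P1 (helper53): the number of monic polynomials of degree `k` with
nonzero constant term over a finite field with `q` elements is `phi q k`.
-/

set_option autoImplicit false
namespace Cfsg.Agent.Helper53
open Polynomial Cfsg.Agent.Helper40.KGL
open scoped DirectSum
universe u v

/-- functions `Fin (j+1) → F` vanishing at `0` correspond to functions `Fin j → F` -/
def kglZeroEquiv (F : Type u) [Zero F] (j : ℕ) :
    {c : Fin (j + 1) → F // c 0 = 0} ≃ (Fin j → F) where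
  toFun c := fun i => c.1 i.succ
  invFun d := ⟨Fin.cons 0 d, by simp⟩
  left_inv c := by
    apply Subtype.ext
    funext i
    refine Fin.cases ?_ (fun i => ?_) i
    · simp [c.2]
    · simp
  right_inv d := by
    funext i
    simp

/-- PIECE P1 -/
theorem card_good_natDegree {F : Type u} [Field F] [Fintype F] (k : ℕ) :
    Nat.card {g : F[X] // g.Monic ∧ g.coeff 0 ≠ 0 ∧ g.natDegree = k} = phi (Fintype.card F) k := by
  classical
  rcases Nat.eq_zero_or_pos k with rfl | hk
  · have h1 : Nat.card {g : F[X] // g.Monic ∧ g.coeff 0 ≠ 0 ∧ g.natDegree = 0} = 1 := by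
      rw [Nat.card_eq_one_iff_unique]
      refine ⟨⟨?_⟩, ⟨⟨1, monic_one, by simp, by simp⟩⟩⟩
      rintro ⟨g, hg, -, hd⟩ ⟨g', hg', -, hd'⟩
      have h1 : g = 1 := hg.natDegree_eq_zero.mp hd
      have h2 : g' = 1 := hg'.natDegree_eq_zero.mp hd'
      apply Subtype.ext
      show g = g'
      rw [h1, h2]
    rw [h1]; simp [phi]
  · obtain ⟨j, rfl⟩ : ∃ j, k = j + 1 := ⟨k - 1, by omega⟩
    let e : {p : F[X] // p.Monic ∧ p.natDegree = j + 1} ≃ (Fin (j + 1) → F) :=
      (monicEquivDegreeLT (j + 1)).trans (degreeLTEquiv F (j + 1)).toEquiv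
    have he : ∀ p : {p : F[X] // p.Monic ∧ p.natDegree = j + 1}, e p 0 = p.1.coeff 0 := by
      rintro ⟨p, hp, hd⟩
      show (p.eraseLead).coeff ((0 : Fin (j + 1)) : ℕ) = p.coeff 0
      rw [Fin.val_zero]
      exact eraseLead_coeff_of_ne _ (by omega)
    let e1 : {g : F[X] // g.Monic ∧ g.coeff 0 ≠ 0 ∧ g.natDegree = j + 1} ≃
        {c : Fin (j + 1) → F // ¬ (c 0 = 0)} :=
      { toFun := fun g => ⟨e ⟨g.1, g.2.1, g.2.2.2⟩, by rw [he]; exact g.2.2.1⟩
        invFun := fun c => ⟨(e.symm c.1).1, (e.symm c.1).2.1, by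
            have h := he (e.symm c.1)
            rw [Equiv.apply_symm_apply] at h
            rw [← h]; exact c.2, (e.symm c.1).2.2⟩
        left_inv := fun g => by
          apply Subtype.ext
          simp
        right_inv := fun c => by
          apply Subtype.ext
          simp }
    rw [Nat.card_congr e1, Nat.card_eq_fintype_card, Fintype.card_subtype_compl,
      Fintype.card_congr (kglZeroEquiv F j)]
    simp [phi]

end Cfsg.Agent.Helper53
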