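import Mathlib
import Cfsg.Agent.Helper40.KGLDefs

/-!
# CALL S2478, PIECE P3 (helper53): the key inequality `q^m * cnt q m n + q^n ≤ q^(n+m)`.
-/

set_option autoImplicit false
namespace Cfsg.Agent.Helper53
open Polynomial Cfsg.Agent.Helper40.KGL
open scoped DirectSum
universe u v

theorem kgl_phi_zero (q : ℕ) : phi q 0 = 1 := by simp [phi]

theorem kgl_phi_succ (p k : ℕ) : phi (p + 1) (k + 1) = p * (p + 1) ^ k := by
  unfold phi
  rw [if_neg (Nat.succ_ne_zero k)]
  simp only [Nat.add_sub_cancel]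
  have h : (p + 1) ^ (k + 1) = p * (p + 1) ^ k + (p + 1) ^ k := by ring
  rw [h, Nat.add_sub_cancel]

theorem kgl_cnt_succ (q m n : ℕ) :
    cnt q (m + 1) n =
      ∑ k ∈ Finset.range (n / (m + 1) + 1), phi q k * cnt q m (n - (m + 1) * k) := by
  rw [cnt]

theorem kgl_cnt_zero (q : ℕ) (m : ℕ) : cnt q m 0 = 1 := by
  induction m with
  | zero => simp [cnt]
  | succ m ih =>
    rw [kgl_cnt_succ]
    simp [kgl_phi_zero, ih]

theorem kgl_aux (p : ℕ) (m n : ℕ)
    (ih : ∀ n', 1 ≤ n' → (p + 1) ^ m * cnt (p + 1) m n' + (p + 1) ^ n' ≤ (p + 1) ^ (n' + m)) :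
    ∀ J : ℕ, (m + 1) * J + 1 ≤ n →
      (∑ k ∈ Finset.range J,
          (p + 1) ^ (m + 1) * (phi (p + 1) (k + 1) * cnt (p + 1) m (n - (m + 1) * (k + 1))))
        + p * (p + 1) ^ (n - m * J) ≤ p * (p + 1) ^ n := by
  intro J
  induction J with
  | zero => intro _; simp
  | succ J ihJ =>
    intro hJ
    have hJ' : (m + 1) * J + 1 ≤ n := by nlinarith
    have h1 := ihJ hJ'
    rw [Finset.sum_range_succ]
    obtain ⟨n', hn'⟩ : ∃ n', n = n' + (m + 1) * (J + 1) := ⟨n - (m + 1) * (J + 1), by omega⟩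
    have hn'1 : 1 ≤ n' := by omega
    have e0 : n - (m + 1) * (J + 1) = n' := by omega
    have e1 : n - m * (J + 1) = n' + (J + 1) := by
      have : (m + 1) * (J + 1) = m * (J + 1) + (J + 1) := by ring
      omega
    have e2 : n - m * J = n' + (J + 1) + m := by
      have : (m + 1) * (J + 1) = m * J + (J + 1) + m := by ring
      omega
    rw [e0, e1, kgl_phi_succ p J]
    rw [e2] at h1
    have h2 := ih n' hn'1
    have h3 : (p + 1) ^ (m + 1) * (p * (p + 1) ^ J * cnt (p + 1) m n')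
        + p * (p + 1) ^ (n' + (J + 1)) ≤ p * (p + 1) ^ (n' + (J + 1) + m) := by
      have := Nat.mul_le_mul_left (p * (p + 1) ^ (J + 1)) h2
      calc (p + 1) ^ (m + 1) * (p * (p + 1) ^ J * cnt (p + 1) m n')
            + p * (p + 1) ^ (n' + (J + 1))
          = p * (p + 1) ^ (J + 1) * ((p + 1) ^ m * cnt (p + 1) m n' + (p + 1) ^ n') := by ring
        _ ≤ p * (p + 1) ^ (J + 1) * (p + 1) ^ (n' + m) := this
        _ = p * (p + 1) ^ (n' + (J + 1) + m) := by ring
    linarith

/-- PIECE P3 -/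
theorem cnt_bound (q : ℕ) (hq : 2 ≤ q) (m n : ℕ) (hn : 1 ≤ n) :
    q ^ m * cnt q m n + q ^ n ≤ q ^ (n + m) := by
  obtain ⟨p, rfl⟩ : ∃ p, q = p + 1 := ⟨q - 1, by omega⟩
  induction m generalizing n with
  | zero =>
    have h0 : cnt (p + 1) 0 n = 0 := by
      simp only [cnt]
      rw [if_neg (by omega)]
    rw [h0]; simp
  | succ m ih =>
    rw [kgl_cnt_succ, Finset.sum_range_succ', kgl_phi_zero]
    simp only [Nat.mul_zero, Nat.sub_zero, one_mul]
    have hS : (p + 1) ^ (m + 1) * ∑ k ∈ Finset.range (n / (m + 1)),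
        phi (p + 1) (k + 1) * cnt (p + 1) m (n - (m + 1) * (k + 1)) ≤ p * (p + 1) ^ n := by
      rw [Finset.mul_sum]
      have hKle : (m + 1) * (n / (m + 1)) ≤ n := Nat.mul_div_le n (m + 1)
      generalize n / (m + 1) = K at hKle ⊢
      rcases Nat.lt_or_ge ((m + 1) * K) n with hlt | hge
      · have := kgl_aux p m n (fun n' h => ih n' h) K (by omega)
        linarith [Nat.zero_le (p * (p + 1) ^ (n - m * K))]
      · have heq : (m + 1) * K = n := le_antisymm hKle hge
        obtain ⟨K', rfl⟩ : ∃ K', K = K' + 1 := by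
          rcases Nat.eq_zero_or_pos K with h0 | hpos
          · rw [h0] at heq; omega
          · exact ⟨K - 1, by omega⟩
        rw [Finset.sum_range_succ]
        have h1 := kgl_aux p m n (fun n' h => ih n' h) K' (by nlinarith)
        have e0 : n - (m + 1) * (K' + 1) = 0 := by omega
        have e2 : n - m * K' = K' + m + 1 := by
          have : (m + 1) * (K' + 1) = m * K' + (K' + m + 1) := by ring
          omega
        rw [e0, kgl_cnt_zero, kgl_phi_succ p K']
        rw [e2] at h1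
        have e3 : (p + 1) ^ (m + 1) * (p * (p + 1) ^ K' * 1) = p * (p + 1) ^ (K' + m + 1) := by
          ring
        rw [e3]
        exact h1
    have h2 := ih n hn
    have h3 : (p + 1) ^ (m + 1) * cnt (p + 1) m n + (p + 1) ^ (n + 1)
        ≤ (p + 1) ^ (n + (m + 1)) := by
      have := Nat.mul_le_mul_left (p + 1) h2
      calc (p + 1) ^ (m + 1) * cnt (p + 1) m n + (p + 1) ^ (n + 1)
          = (p + 1) * ((p + 1) ^ m * cnt (p + 1) m n + (p + 1) ^ n) := by ring
        _ ≤ (p + 1) * (p + 1) ^ (n + m) := this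
        _ = (p + 1) ^ (n + (m + 1)) := by ring
    have h4 : (p + 1) ^ (n + 1) = p * (p + 1) ^ n + (p + 1) ^ n := by ring
    rw [mul_add]
    linarith

end Cfsg.Agent.Helper53
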