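import Mathlib
import Cfsg.Agent.Helper40.KGLDefs
import Cfsg.Agent.Helper40.KSLDefs
import Cfsg.Agent.Helper40.KPSLDefs

set_option autoImplicit false

namespace Cfsg.Agent.Helper53

open Polynomial Cfsg.Agent.Helper40.KGL Cfsg.Agent.Helper40.KSL Cfsg.Agent.Helper40.KPSL
open scoped DirectSum
open Classical

universe u v

/-- PIECE W3 (S2480): helper91's `torus_count` (PIECE B11c of S2479) with an arbitrary target
value `d` of the determinant instead of `1`. -/
theorem torus_count_gen {F : Type u} [Field F] [Fintype F] (n : ℕ) (hn : 1 ≤ n)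
    (hact : ∀ (l : Fin n → Fˣ) (G : Fin n → F[X]), IsSeq n n G →
      IsSeq n n (act l G) ∧ gamSeq (Fintype.card F) (act l G) = gamSeq (Fintype.card F) G ∧
      detSeq (act l G) = detSeq G *
        ∏ j : Fin n, (if G j = 1 then 1 else ((l j : Fˣ) : F) ^ (j.val + 1)) ∧
      act l⁻¹ (act l G) = G)
    (hfib : ∀ (S : Finset (Fin n)), S.Nonempty → ∀ δ : Fˣ,
      (Fintype.card F - 1) *
        (Finset.univ.filter fun l : Fin n → Fˣ => ∏ j ∈ S, l j ^ (j.val + 1) = δ).card ≤
      (Fintype.card F - 1) ^ n * Nat.gcd (Fintype.card F - 1) (S.gcd fun j => j.val + 1))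
    (S : Finset (Fin n → F[X])) (hS : ∀ G, G ∈ S ↔ IsSeq n n G) (d : F) :
    (Fintype.card F - 1) * ∑ G ∈ S, (if detSeq G = d then gamSeq (Fintype.card F) G else 0) ≤
      ∑ G ∈ S, gamSeq (Fintype.card F) G ^ 2 := by
  have hq : 2 ≤ Fintype.card F := Fintype.one_lt_card
  have hdetne : ∀ G ∈ S, detSeq G ≠ 0 := by
    intro G hG
    obtain ⟨hG1, -⟩ := (hS G).1 hG
    unfold detSeq
    apply Finset.prod_ne_zero_iff.2
    intro j _
    apply pow_ne_zero
    unfold nu
    exact mul_ne_zero (pow_ne_zero _ (neg_ne_zero.2 one_ne_zero)) (hG1 j).2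
  by_cases hd : d = 0
  · have h0 : ∑ G ∈ S, (if detSeq G = d then gamSeq (Fintype.card F) G else 0) = 0 := by
      apply Finset.sum_eq_zero
      intro G hG
      rw [if_neg (by rw [hd]; exact hdetne G hG)]
    rw [h0, Nat.mul_zero]
    exact Nat.zero_le _
  have hT : Fintype.card (Fin n → Fˣ) = (Fintype.card F - 1) ^ n := by
    rw [Fintype.card_fun, Fintype.card_units, Fintype.card_fin]
  have hpos : 0 < (Fintype.card F - 1) ^ n := pow_pos (by omega) n
  -- Step 1: invariance under the torus
  have h1 : ∀ l : Fin n → Fˣ,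
      ∑ G ∈ S, (if detSeq G = d then gamSeq (Fintype.card F) G else 0) =
        ∑ G ∈ S, (if detSeq (act l G) = d then gamSeq (Fintype.card F) G else 0) := by
    intro l
    symm
    apply Finset.sum_nbij' (fun G => act l G) (fun G => act l⁻¹ G)
    · intro G hG
      exact (hS _).2 (hact l G ((hS G).1 hG)).1
    · intro G hG
      exact (hS _).2 (hact l⁻¹ G ((hS G).1 hG)).1
    · intro G hG
      exact (hact l G ((hS G).1 hG)).2.2.2
    · intro G hG
      have h := (hact l⁻¹ G ((hS G).1 hG)).2.2.2
      rw [inv_inv] at h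
      exact h
    · intro G hG
      rw [(hact l G ((hS G).1 hG)).2.1]
  -- Step 2: double counting
  have h2 : (Fintype.card F - 1) ^ n *
      ∑ G ∈ S, (if detSeq G = d then gamSeq (Fintype.card F) G else 0) =
      ∑ G ∈ S, (Finset.univ.filter fun l : Fin n → Fˣ => detSeq (act l G) = d).card *
        gamSeq (Fintype.card F) G := by
    calc (Fintype.card F - 1) ^ n *
          ∑ G ∈ S, (if detSeq G = d then gamSeq (Fintype.card F) G else 0)
        = ∑ l : Fin n → Fˣ, ∑ G ∈ S, (if detSeq G = d then gamSeq (Fintype.card F) G else 0) := by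
          rw [Finset.sum_const, Finset.card_univ, hT, smul_eq_mul]
      _ = ∑ l : Fin n → Fˣ,
            ∑ G ∈ S, (if detSeq (act l G) = d then gamSeq (Fintype.card F) G else 0) :=
          Finset.sum_congr rfl (fun l _ => h1 l)
      _ = ∑ G ∈ S, ∑ l : Fin n → Fˣ,
            (if detSeq (act l G) = d then gamSeq (Fintype.card F) G else 0) := Finset.sum_comm
      _ = _ := by
          apply Finset.sum_congr rfl
          intro G _
          rw [← Finset.sum_filter, Finset.sum_const, smul_eq_mul]
  -- Step 3: the fibres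
  have h3 : ∀ G ∈ S, (Fintype.card F - 1) *
      (Finset.univ.filter fun l : Fin n → Fˣ => detSeq (act l G) = d).card ≤
      (Fintype.card F - 1) ^ n * gamSeq (Fintype.card F) G := by
    intro G hG
    have hGs := (hS G).1 hG
    obtain ⟨hG1, hG2⟩ := hGs
    have hne : (Finset.univ.filter fun j : Fin n => G j ≠ 1).Nonempty := by
      by_contra hcon
      rw [Finset.not_nonempty_iff_eq_empty] at hcon
      have hall : ∀ j : Fin n, G j = 1 := by
        intro j
        by_contra hj
        have : j ∈ (Finset.univ.filter fun j : Fin n => G j ≠ 1) :=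
          Finset.mem_filter.2 ⟨Finset.mem_univ _, hj⟩
        rw [hcon] at this
        exact absurd this (Finset.notMem_empty _)
      have : ∑ j : Fin n, (j.val + 1) * (G j).natDegree = 0 := by
        apply Finset.sum_eq_zero
        intro j _
        rw [hall j, natDegree_one, mul_zero]
      omega
    have hdet0 : detSeq G ≠ 0 := by
      unfold detSeq
      apply Finset.prod_ne_zero_iff.2
      intro j _
      apply pow_ne_zero
      unfold nu
      exact mul_ne_zero (pow_ne_zero _ (neg_ne_zero.2 one_ne_zero)) (hG1 j).2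
    have hset : (Finset.univ.filter fun l : Fin n → Fˣ => detSeq (act l G) = d) =
        (Finset.univ.filter fun l : Fin n → Fˣ =>
          ∏ j ∈ (Finset.univ.filter fun j : Fin n => G j ≠ 1), l j ^ (j.val + 1) =
            (Units.mk0 (detSeq G) hdet0)⁻¹ * Units.mk0 d hd) := by
      apply Finset.filter_congr
      intro l _
      have e1 : detSeq (act l G) = detSeq G *
          ((∏ j ∈ (Finset.univ.filter fun j : Fin n => G j ≠ 1), l j ^ (j.val + 1) : Fˣ) : F) := by
        rw [(hact l G ⟨hG1, hG2⟩).2.2.1, Units.coe_prod, Finset.prod_filter]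
        congr 1
        apply Finset.prod_congr rfl
        intro j _
        by_cases hj : G j = 1
        · rw [if_pos hj, if_neg (not_not.2 hj)]
        · rw [if_neg hj, if_pos hj, Units.val_pow_eq_pow_val]
      rw [e1]
      constructor
      · intro h
        apply Units.ext
        rw [Units.val_mul, Units.val_inv_eq_inv_val, Units.val_mk0, Units.val_mk0, ← h,
          ← mul_assoc, inv_mul_cancel₀ hdet0, one_mul]
      · intro h
        rw [h, Units.val_mul, Units.val_inv_eq_inv_val, Units.val_mk0, Units.val_mk0,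
          ← mul_assoc, mul_inv_cancel₀ hdet0, one_mul]
    rw [hset]
    have hγ : gamSeq (Fintype.card F) G = Nat.gcd (Fintype.card F - 1)
        ((Finset.univ.filter fun j : Fin n => G j ≠ 1).gcd fun j => j.val + 1) := by
      unfold gamSeq
      congr
    rw [hγ]
    exact hfib _ hne _
  -- Step 4
  have h4 : (Fintype.card F - 1) ^ n *
      ((Fintype.card F - 1) * ∑ G ∈ S, (if detSeq G = d then gamSeq (Fintype.card F) G else 0)) ≤
      (Fintype.card F - 1) ^ n * ∑ G ∈ S, gamSeq (Fintype.card F) G ^ 2 := by
    calc (Fintype.card F - 1) ^ n *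
          ((Fintype.card F - 1) *
            ∑ G ∈ S, (if detSeq G = d then gamSeq (Fintype.card F) G else 0))
        = (Fintype.card F - 1) * ((Fintype.card F - 1) ^ n *
            ∑ G ∈ S, (if detSeq G = d then gamSeq (Fintype.card F) G else 0)) := by ring
      _ = ∑ G ∈ S, ((Fintype.card F - 1) *
            (Finset.univ.filter fun l : Fin n → Fˣ => detSeq (act l G) = d).card) *
              gamSeq (Fintype.card F) G := by
          rw [h2, Finset.mul_sum]
          apply Finset.sum_congr rfl
          intro G _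
          rw [mul_assoc]
      _ ≤ ∑ G ∈ S, ((Fintype.card F - 1) ^ n * gamSeq (Fintype.card F) G) *
              gamSeq (Fintype.card F) G := by
          apply Finset.sum_le_sum
          intro G hG
          exact Nat.mul_le_mul_right _ (h3 G hG)
      _ = (Fintype.card F - 1) ^ n * ∑ G ∈ S, gamSeq (Fintype.card F) G ^ 2 := by
          rw [Finset.mul_sum]
          apply Finset.sum_congr rfl
          intro G _
          ring
  exact Nat.le_of_mul_le_mul_left h4 hpos

end Cfsg.Agent.Helper53
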