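import Mathlib
import Cfsg.Agent.Helper9.BRDefs
import Cfsg.Agent.Helper82.A7Defs
import Cfsg.Agent.Helper55.ThompsonTransfer

/-!
# CALL S0984, PIECE TT (helper53): in a simple group of order 2520 every involution has a
centralizer of order divisible by 8 (Thompson transfer).
-/

set_option autoImplicit false
open Cfsg

universe u

namespace Cfsg.Agent.Helper53

/-- A simple group of order 2520 has no nontrivial homomorphism to `C₂`. -/
theorem a7tt_no_hom {G : Type u} [Group G] [Finite G] [IsSimpleGroup G]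
    (hG : Nat.card G = 2520) (f : G →* Multiplicative (ZMod 2)) (g : G) : f g = 1 := by
  rcases (f.normal_ker).eq_bot_or_eq_top with h | h
  · exfalso
    have hinj : Function.Injective f := (MonoidHom.ker_eq_bot_iff f).1 h
    have h1 : Nat.card G ≤ Nat.card (Multiplicative (ZMod 2)) :=
      Nat.card_le_card_of_injective f hinj
    have h2 : Nat.card (Multiplicative (ZMod 2)) = 2 := by
      rw [Nat.card_eq_fintype_card]; rfl
    omega
  · have : g ∈ f.ker := by rw [h]; exact Subgroup.mem_top g
    exact MonoidHom.mem_ker.1 this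

/-- conjugate elements have centralizers of the same order -/
theorem a7tt_card_centralizer_conj {G : Type u} [Group G] (g t : G) :
    Nat.card (Subgroup.centralizer ({g⁻¹ * t * g} : Set G)) =
      Nat.card (Subgroup.centralizer ({t} : Set G)) := by
  refine Nat.card_congr
    { toFun := fun x => ⟨g * x.1 * g⁻¹, ?_⟩
      invFun := fun y => ⟨g⁻¹ * y.1 * g, ?_⟩
      left_inv := ?_
      right_inv := ?_ }
  · have hx := Subgroup.mem_centralizer_singleton_iff.1 x.2
    rw [Subgroup.mem_centralizer_singleton_iff]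
    have : g * x.1 * g⁻¹ * t = g * (x.1 * (g⁻¹ * t * g)) * g⁻¹ := by group
    rw [this, hx]; group
  · have hy := Subgroup.mem_centralizer_singleton_iff.1 y.2
    rw [Subgroup.mem_centralizer_singleton_iff]
    have : g⁻¹ * y.1 * g * (g⁻¹ * t * g) = g⁻¹ * (y.1 * t) * g := by group
    rw [this, hy]; group
  · intro x
    apply Subtype.ext
    show g⁻¹ * (g * x.1 * g⁻¹) * g = x.1
    group
  · intro y
    apply Subtype.ext
    show g * (g⁻¹ * y.1 * g) * g⁻¹ = y.1
    group

/-- PIECE TT -/
theorem a7_invol_cent {G : Type u} [Group G] [Finite G] [IsSimpleGroup G]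
    (hG : Nat.card G = 2520) (t : G) (ht : orderOf t = 2) :
    8 ∣ Nat.card (Subgroup.centralizer ({t} : Set G)) := by
  classical
  have : Fact (Nat.Prime 2) := ⟨Nat.prime_two⟩
  have htt : t * t = 1 := by
    rw [← pow_two, ← ht]; exact pow_orderOf_eq_one t
  -- a Sylow 2-subgroup containing t
  have hZ : IsPGroup 2 (Subgroup.zpowers t) :=
    IsPGroup.of_card_dvd_pow (n := 1) (by rw [Nat.card_zpowers, pow_one, ht])
  obtain ⟨S, hS⟩ := hZ.exists_le_sylow
  have htS : t ∈ (S : Subgroup G) := hS (Subgroup.mem_zpowers t)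
  -- |S| = 8
  have hS8 : Nat.card (S : Subgroup G) = 8 := by
    obtain ⟨k, hk⟩ := (IsPGroup.iff_card.1 S.2)
    have hdvd : Nat.card (S : Subgroup G) ∣ 2520 := hG ▸ Subgroup.card_subgroup_dvd_card _
    have hidx : ¬ 2 ∣ (S : Subgroup G).index := S.not_dvd_index
    have hmul : Nat.card (S : Subgroup G) * (S : Subgroup G).index = 2520 :=
      hG ▸ Subgroup.card_mul_index _
    rw [hk] at hdvd hmul ⊢
    have hk4 : k < 4 := by
      by_contra hk4
      push Not at hk4
      have : 2 ^ 4 ∣ 2520 := (pow_dvd_pow 2 hk4).trans hdvd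
      omega
    interval_cases k
    · exfalso; apply hidx; omega
    · exfalso; apply hidx; omega
    · exfalso; apply hidx; omega
    · rfl
  by_cases hcent : (S : Subgroup G) ≤ Subgroup.centralizer ({t} : Set G)
  · rw [← hS8]; exact Subgroup.card_dvd_of_le hcent
  -- S is not abelian: there is an element of order 4
  have hr : ∃ r ∈ (S : Subgroup G), orderOf r = 4 := by
    by_contra hno
    push Not at hno
    -- every element of S squares to 1
    have hsq : ∀ x ∈ (S : Subgroup G), x * x = 1 := by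
      intro x hx
      by_contra hx2
      have hord : orderOf x ∣ 8 := by
        have h1 : orderOf (⟨x, hx⟩ : (S : Subgroup G)) ∣ Nat.card (S : Subgroup G) :=
          orderOf_dvd_natCard _
        rw [hS8] at h1
        have h2 : orderOf (⟨x, hx⟩ : (S : Subgroup G)) = orderOf x :=
          Subgroup.orderOf_mk x hx
        rw [← h2]; exact h1
      have hle : orderOf x ≤ 8 := Nat.le_of_dvd (by norm_num) hord
      have hpos : 0 < orderOf x := orderOf_pos x
      have hne2 : ¬ orderOf x ∣ 2 := by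
        intro h
        apply hx2
        rw [← pow_two]; exact orderOf_dvd_iff_pow_eq_one.1 h
      have hne4 : orderOf x ≠ 4 := hno x hx
      have h8 : orderOf x = 8 := by
        interval_cases h : orderOf x <;> omega
      -- then x ^ 2 has order 4
      have h4 : orderOf (x ^ 2) = 4 := by
        rw [orderOf_pow' x (by norm_num), h8]
        norm_num
      exact hno (x ^ 2) (Subgroup.pow_mem _ hx 2) h4
    apply hcent
    intro s hs
    rw [Subgroup.mem_centralizer_singleton_iff]
    have h1 := hsq s hs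
    have h2 := hsq t htS
    have h3 := hsq (s * t) (Subgroup.mul_mem _ hs htS)
    have hs' : s⁻¹ = s := inv_eq_of_mul_eq_one_left h1
    have ht' : t⁻¹ = t := inv_eq_of_mul_eq_one_left h2
    have : s * t = (s * t)⁻¹ := (inv_eq_of_mul_eq_one_left h3).symm
    rw [this, mul_inv_rev, hs', ht']
  obtain ⟨r, hrS, hr4⟩ := hr
  have hr2ne : r ^ 2 ≠ 1 := by
    intro h
    have := orderOf_dvd_of_pow_eq_one h
    rw [hr4] at this
    omega
  have hr4' : r ^ 4 = 1 := by rw [← hr4]; exact pow_orderOf_eq_one r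
  -- M = ⟨r⟩ inside S
  set r' : (S : Subgroup G) := ⟨r, hrS⟩ with hr'
  have hr'4 : orderOf r' = 4 := by rw [hr', Subgroup.orderOf_mk, hr4]
  set M : Subgroup (S : Subgroup G) := Subgroup.zpowers r' with hM
  have hMcard : Nat.card M = 4 := by rw [hM, Nat.card_zpowers, hr'4]
  have hMidx : M.index = 2 := by
    have := M.card_mul_index
    rw [hMcard, hS8] at this
    omega
  have hMn : M.Normal := Subgroup.normal_of_index_eq_two hMidx
  have hQcard : Nat.card ((S : Subgroup G) ⧸ M) = 2 := hMidx
  have hCcard : Nat.card (Multiplicative (ZMod 2)) = 2 := by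
    rw [Nat.card_eq_fintype_card]; rfl
  let e : ((S : Subgroup G) ⧸ M) ≃* Multiplicative (ZMod 2) := mulEquivOfPrimeCardEq hQcard hCcard
  let ϕ : (S : Subgroup G) →* Multiplicative (ZMod 2) := e.toMonoidHom.comp (QuotientGroup.mk' M)
  have hϕ : ∀ s : (S : Subgroup G), ϕ s = 1 → s ∈ M := by
    intro s hs
    have h1 : e (QuotientGroup.mk' M s) = 1 := hs
    have h2 : QuotientGroup.mk' M s = 1 := by
      rw [← e.map_one] at h1
      exact e.injective h1
    exact (QuotientGroup.eq_one_iff s).1 h2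
  obtain ⟨g, hgS, hg1⟩ := Cfsg.Agent.Helper55.thompson_transfer_conj (a7tt_no_hom hG) S ϕ t htt
  have hmem : (⟨g⁻¹ * t * g, hgS⟩ : (S : Subgroup G)) ∈ M := hϕ _ hg1
  -- elements of M are powers of r
  have hMpow : ∀ s : (S : Subgroup G), s ∈ M → ∃ k : ℕ, r ^ k = (s : G) := by
    intro s hs
    rw [hM, ← mem_powers_iff_mem_zpowers] at hs
    obtain ⟨k, hk⟩ := hs
    refine ⟨k, ?_⟩
    have := congrArg (fun x : (S : Subgroup G) => (x : G)) hk
    simpa [hr'] using this
  obtain ⟨k, hk⟩ := hMpow _ hmem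
  have hk0 : r ^ k = g⁻¹ * t * g := hk
  have hk' : r ^ (k % 4) = g⁻¹ * t * g := by
    rw [← hk0, ← hr4, pow_mod_orderOf]
  -- the conjugate is an involution
  have hconj_sq : (g⁻¹ * t * g) * (g⁻¹ * t * g) = 1 := by
    have : (g⁻¹ * t * g) * (g⁻¹ * t * g) = g⁻¹ * (t * t) * g := by group
    rw [this, htt]; group
  have hconj_ne : g⁻¹ * t * g ≠ 1 := by
    intro h
    have : t = 1 := by
      have h2 : t = g * (g⁻¹ * t * g) * g⁻¹ := by group
      rw [h2, h]; group
    rw [this, orderOf_one] at ht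
    omega
  have hz : g⁻¹ * t * g = r ^ 2 := by
    have hlt : k % 4 < 4 := Nat.mod_lt _ (by norm_num)
    interval_cases hkm : k % 4
    · exfalso; apply hconj_ne; rw [← hk']; simp
    · exfalso
      rw [pow_one] at hk'
      rw [← hk', ← pow_two] at hconj_sq
      exact hr2ne hconj_sq
    · exact hk'.symm
    · exfalso
      rw [← hk'] at hconj_sq
      have : r ^ 3 * r ^ 3 = r ^ 4 * r ^ 2 := by rw [← pow_add, ← pow_add]
      rw [this, hr4', one_mul] at hconj_sq
      exact hr2ne hconj_sq
  -- S centralizes r ^ 2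
  have hScent : (S : Subgroup G) ≤ Subgroup.centralizer ({g⁻¹ * t * g} : Set G) := by
    intro s hs
    rw [Subgroup.mem_centralizer_singleton_iff, hz]
    -- s r s⁻¹ ∈ M
    have hn : (⟨s, hs⟩ : (S : Subgroup G)) * r' * (⟨s, hs⟩ : (S : Subgroup G))⁻¹ ∈ M :=
      hMn.conj_mem r' (Subgroup.mem_zpowers r') _
    obtain ⟨j, hj⟩ := hMpow _ hn
    have hj' : r ^ j = s * r * s⁻¹ := by
      rw [hj]; rfl
    -- j is odd
    have hjodd : j % 2 = 1 := by
      by_contra hjev
      have hjev' : j % 2 = 0 := by omega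
      obtain ⟨i, hi⟩ : ∃ i, j = 2 * i := ⟨j / 2, by omega⟩
      have h1 : (s * r * s⁻¹) ^ 2 = 1 := by
        rw [← hj', hi, ← pow_mul]
        have : 2 * i * 2 = 4 * i := by ring
        rw [this, pow_mul, hr4', one_pow]
      apply hr2ne
      have h2 : (s * r * s⁻¹) ^ 2 = s * r ^ 2 * s⁻¹ := by
        rw [pow_two, pow_two]; group
      rw [h2] at h1
      have h3 : r ^ 2 = s⁻¹ * (s * r ^ 2 * s⁻¹) * s := by group
      rw [h3, h1]; group
    obtain ⟨i, hi⟩ : ∃ i, j = 2 * i + 1 := ⟨j / 2, by omega⟩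
    have h1 : s * r ^ 2 * s⁻¹ = r ^ 2 := by
      have h2 : s * r ^ 2 * s⁻¹ = (s * r * s⁻¹) ^ 2 := by
        rw [pow_two, pow_two]; group
      rw [h2, ← hj', hi, ← pow_mul]
      have : (2 * i + 1) * 2 = 4 * i + 2 := by ring
      rw [this, pow_add, pow_mul, hr4', one_pow, one_mul]
    calc s * r ^ 2 = (s * r ^ 2 * s⁻¹) * s := by group
      _ = r ^ 2 * s := by rw [h1]
  rw [← a7tt_card_centralizer_conj g t, ← hS8]
  exact Subgroup.card_dvd_of_le hScent

end Cfsg.Agent.Helper53
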