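import Cfsg.Agent.Helper17.GoodSyl
import Cfsg.Agent.Helper99.SuSylow
import Cfsg.Agent.Helper99.Su3I

/-!
# CALL S4625 (helper17), PIECE SU (helper53): the unitriangular subgroup of `SU_n(q)`, `q` even,
has all squares in its derived subgroup.

In helper99's antidiagonal model `suG hK n` the unitriangular subgroup `suU` is a Sylow
2-subgroup generated by the Eichler elements `E(w, c) = suEl e_a w c`; in characteristic 2,
`E(w, c)² = E(0, h(w, w))`, and if `d = h(w, w) ≠ 0` then with `μ = c / d` (so `μ + μ^q = 1`)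
`E(w, c)² = [E(w, c), E(μ w, μ^(q+1) c)]`.
-/

set_option autoImplicit false

open scoped commutatorElement

namespace Cfsg.Agent.Helper53

open Matrix Cfsg
open Cfsg.Agent.Helper5 (frobQ frobQ_apply frobQ_frobQ)
open Cfsg.Agent.Helper99
open Cfsg.Agent.Helper17

section

variable {K : Type*} [Field K] [Fintype K] {q n : ℕ}
variable (hK : Fintype.card K = q ^ 2)

theorem gssu_smul_suHE {u w : Fin n → K} {c : K} (hE : SuHE hK u w c) (μ : K) :
    SuHE hK u (μ • w) (μ * frobQ hK μ * c) := by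
  refine ⟨hE.1, ?_, ?_⟩
  · rw [suH_smul_left, hE.2.1, mul_zero]
  · rw [suH_smul_left, suH_smul_right, map_mul, map_mul, frobQ_frobQ]
    linear_combination (μ * frobQ hK μ) * hE.2.2

theorem gssu_sq_eq_comm [CharP K 2] {u w : Fin n → K} {c : K} (hE : SuHE hK u w c) (μ : K)
    (hμ : μ + frobQ hK μ = 1) :
    suEl hK u w c * suEl hK u w c =
      ⁅suEl hK u w c, suEl hK u (μ • w) (μ * frobQ hK μ * c)⁆ := by
  have h2 : (2 : K) = 0 := CharTwo.two_eq_zero
  have hE' := gssu_smul_suHE hK hE μ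
  have hww : w + w = 0 := by
    funext i
    exact CharTwo.add_self_eq_zero (w i)
  have hZ := suEl_mul hK 2 hE hE
  have hB := suEl_mul hK 2 hE' hE
  have hZB := suEl_mul hK 2 hZ.2 hB.2
  have hA := suEl_mul hK 2 hE hE'
  have hV : w + w + (μ • w + w) = w + μ • w := by
    rw [hww, zero_add, add_comm]
  have hC : c + c - suH hK n w w + (μ * frobQ hK μ * c + c - suH hK n w (μ • w)) -
      suH hK n (μ • w + w) (w + w) = c + μ * frobQ hK μ * c - suH hK n (μ • w) w := by
    rw [hww, suH_zero_right, suH_smul_right, suH_smul_left]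
    linear_combination (c - suH hK n w w + μ * suH hK n w w) * h2 - suH hK n w w * hμ
  have key : suEl hK u w c * suEl hK u w c *
      (suEl hK u (μ • w) (μ * frobQ hK μ * c) * suEl hK u w c) =
      suEl hK u w c * suEl hK u (μ • w) (μ * frobQ hK μ * c) := by
    rw [hZ.1, hB.1, hZB.1, hA.1, hV, hC]
  rw [commutatorElement_def, ← key]
  group

theorem gssu_gen_sq_mem [CharP K 2] :
    ∀ s ∈ suGenSet hK n, s ^ 2 ∈ ⁅suU hK n, suU hK n⁆ := by
  rintro s ⟨a, w, c, ha, hw, hE, rfl⟩
  have h2 : (2 : K) = 0 := CharTwo.two_eq_zero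
  rw [pow_two]
  by_cases hd : suH hK n w w = 0
  · have hww : w + w = 0 := by
      funext i
      exact CharTwo.add_self_eq_zero (w i)
    have hZ := suEl_mul hK 2 hE hE
    rw [hZ.1, hww, hd, sub_zero, CharTwo.add_self_eq_zero, suEl_zero]
    exact Subgroup.one_mem _
  · have hfd : frobQ hK (suH hK n w w) = suH hK n w w := suH_conj hK w w
    have hcd : c + frobQ hK c = suH hK n w w := by
      linear_combination hE.2.2 - suH hK n w w * h2
    have hμ : c * (suH hK n w w)⁻¹ + frobQ hK (c * (suH hK n w w)⁻¹) = 1 := by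
      rw [map_mul, map_inv₀, hfd, ← add_mul, hcd, mul_inv_cancel₀ hd]
    rw [gssu_sq_eq_comm hK hE _ hμ]
    apply Subgroup.commutator_mem_commutator
    · exact suEl_mem_suU hK 2 ha hw hE
    · refine suEl_mem_suU hK 2 ha ?_ (gssu_smul_suHE hK hE _)
      intro i hi
      rw [Pi.smul_apply, hw i hi, smul_zero]

theorem goodSyl2_suG [CharP K 2] : GoodSyl2 ↥(suG hK n) := by
  refine ⟨suU hK n, su_isPGroup hK 2, ?_, ?_⟩
  · have hnd : ¬ 2 ∣ ((suSyl hK n 2 : Sylow 2 ↥(suG hK n)) : Subgroup ↥(suG hK n)).index :=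
      (suSyl hK n 2).not_dvd_index
    rw [suSyl_coe] at hnd
    exact Nat.not_even_iff_odd.mp (fun h => hnd (even_iff_two_dvd.mp h))
  · apply sq_mem_commutator_of_closure (suU hK n) (suGenSet hK n)
    · exact le_antisymm (suU_le_closure hK 2)
        ((Subgroup.closure_le _).mpr (suGenSet_subset hK 2))
    · exact gssu_gen_sq_mem hK

end

/-- PIECE SU -/
theorem goodSyl2_PSU (F : Type) [Field F] [Fintype F] [CharP F 2] (n q : ℕ)
    (hF : Fintype.card F = q ^ 2) (hn : 3 ≤ n) :
    GoodSyl2 (PSU n F q) := by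
  obtain ⟨Φ, ψ, hψ, -⟩ := su_exists_iso hF n
  exact ((goodSyl2_suG hF (n := n)).of_surjective ψ hψ).of_surjective
    (QuotientGroup.mk' _) (QuotientGroup.mk'_surjective _)

end Cfsg.Agent.Helper53
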