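import Mathlib
import Cfsg.Agent.Helper35.CoprimeSylow
import Cfsg.Agent.Helper53.Isolated

/-!
# Involutions whose conjugates have products of `p`-power order (helper53)

`d` an involution of the finite group `G`, `p` an odd prime, and every product of two conjugates of
`d` has order a power of `p`.  Then `d` is isolated; and, given the conclusion of the `Z*`-theorem
for `d`, all products of two conjugates of `d` lie in one normal `p`-subgroup
(`pgroup_of_prod_ppow`).
-/

set_option autoImplicit false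

namespace Cfsg.Agent.Helper53

open Subgroup

variable {G : Type*} [Group G]

/-- The orbit of `d` under conjugation by the subgroup `H`. -/
def conjOrbit (H : Subgroup G) (d : G) : Set G := {x | ∃ h ∈ H, x = h * d * h⁻¹}

/-- Orbit-stabilizer for conjugation by a subgroup. -/
theorem conjOrbit_ncard (H : Subgroup G) (d : G) :
    (conjOrbit H d).ncard * Nat.card (H ⊓ Subgroup.centralizer {d} : Subgroup G) = Nat.card H := by
  let _inst : MulAction H G := MulAction.compHom G ((MulAut.conj : G →* MulAut G).comp H.subtype)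
  have hsmul : ∀ (h : H) (x : G), h • x = (h : G) * x * (h : G)⁻¹ := fun h x => rfl
  have h1 := MulAction.index_stabilizer H d
  have h2 := (MulAction.stabilizer H d).card_mul_index
  have h3 : MulAction.orbit H d = conjOrbit H d := by
    ext x
    rw [MulAction.mem_orbit_iff]
    constructor
    · rintro ⟨h, rfl⟩; exact ⟨h, h.2, hsmul h d⟩
    · rintro ⟨h, hh, rfl⟩; exact ⟨⟨h, hh⟩, hsmul _ _⟩
  have h4 : Nat.card (MulAction.stabilizer H d) =
      Nat.card (H ⊓ Subgroup.centralizer {d} : Subgroup G) := by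
    apply Nat.card_congr
    exact
      { toFun := fun s => ⟨((s : H) : G), Subgroup.mem_inf.mpr ⟨(s : H).2, by
          rw [Subgroup.mem_centralizer_singleton_iff]
          have h5 := MulAction.mem_stabilizer_iff.mp s.2
          rw [hsmul] at h5
          calc ((s : H) : G) * d = ((s : H) : G) * d * ((s : H) : G)⁻¹ * ((s : H) : G) := by group
            _ = d * ((s : H) : G) := by rw [h5]⟩⟩
        invFun := fun c => ⟨⟨(c : G), (Subgroup.mem_inf.mp c.2).1⟩, by
          rw [MulAction.mem_stabilizer_iff, hsmul]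
          have h5 := Subgroup.mem_centralizer_singleton_iff.mp (Subgroup.mem_inf.mp c.2).2
          show (c : G) * d * (c : G)⁻¹ = d
          rw [h5]; group⟩
        left_inv := fun s => rfl
        right_inv := fun c => rfl }
  rw [← h3, ← h1, ← h4, mul_comm]; exact h2

/-- If `g d g⁻¹ d⁻¹` lies in a subgroup `N` of odd order (`d` an involution), then `g d g⁻¹` is
an `N`-conjugate of `d`. -/
theorem exists_conj_of_comm_mem [Finite G] (N : Subgroup G) (hodd : Odd (Nat.card N)) (d g : G)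
    (hdd : d * d = 1) (h : g * d * g⁻¹ * d⁻¹ ∈ N) : ∃ k ∈ N, k * d * k⁻¹ = g * d * g⁻¹ := by
  have hdinv : d⁻¹ = d := inv_eq_of_mul_eq_one_left hdd
  obtain ⟨m, hm⟩ : ∃ m, m = g * d * g⁻¹ * d⁻¹ := ⟨_, rfl⟩
  rw [← hm] at h
  have hinv : d * m * d⁻¹ = m⁻¹ := by
    rw [hm, hdinv]
    have e1 : (g * d * g⁻¹ * d)⁻¹ = d⁻¹ * g * d⁻¹ * g⁻¹ := by group
    rw [e1, hdinv]
    have e2 : d * (g * d * g⁻¹ * d) * d = d * g * d * g⁻¹ * (d * d) := by group
    rw [e2, hdd, mul_one]
  have hord : Odd (orderOf m) := by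
    have h1 : orderOf m ∣ Nat.card N := by
      have h2 := orderOf_dvd_natCard (⟨m, h⟩ : N)
      rwa [Subgroup.orderOf_mk] at h2
    exact Odd.of_dvd_nat hodd h1
  obtain ⟨j, hj⟩ := hord
  have hk2 : m ^ (j + 1) * m ^ (j + 1) = m := by
    rw [← pow_add]
    have e : j + 1 + (j + 1) = orderOf m + 1 := by omega
    rw [e, pow_succ, pow_orderOf_eq_one, one_mul]
  have hkinv : d * m ^ (j + 1) * d⁻¹ = (m ^ (j + 1))⁻¹ := by
    rw [← conj_pow, hinv, inv_pow]
  refine ⟨m ^ (j + 1), Subgroup.pow_mem _ h _, ?_⟩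
  have e3 : m ^ (j + 1) * d * (m ^ (j + 1))⁻¹ = m ^ (j + 1) * (d * m ^ (j + 1) * d⁻¹)⁻¹ * d := by
    rw [hdinv]
    have : (d * m ^ (j + 1) * d)⁻¹ = d⁻¹ * (m ^ (j + 1))⁻¹ * d⁻¹ := by group
    rw [this, hdinv]
    have e4 : m ^ (j + 1) * (d * (m ^ (j + 1))⁻¹ * d) * d
        = m ^ (j + 1) * d * (m ^ (j + 1))⁻¹ * (d * d) := by group
    rw [e4, hdd, mul_one]
  rw [e3, hkinv, inv_inv, hk2, hm, hdinv]
  have e5 : g * d * g⁻¹ * d * d = g * d * g⁻¹ * (d * d) := by group
  rw [e5, hdd, mul_one]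

/-- If all products of two conjugates of the involution `d` have `p`-power order, `p` odd, then
`d` is isolated. -/
theorem isolated_of_prod_ppow {p : ℕ} (hp : p.Prime) (hp2 : p ≠ 2) (d : G) (hd : orderOf d = 2)
    (hprod : ∀ a ∈ conjugatesOf d, ∀ b ∈ conjugatesOf d, ∃ k : ℕ, orderOf (a * b) = p ^ k) :
    Cfsg.IsIsolatedInvolution d := by
  refine ⟨hd, fun g hcomm => ?_⟩
  have hdd : d * d = 1 := by
    have h0 := pow_orderOf_eq_one d
    rw [hd, pow_two] at h0; exact h0
  have hb : g * d * g⁻¹ ∈ conjugatesOf d := isConj_iff.mpr ⟨g, rfl⟩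
  obtain ⟨k, hk⟩ := hprod d (mem_conjugatesOf_self) _ hb
  have hbb : g * d * g⁻¹ * (g * d * g⁻¹) = 1 := by
    have : g * d * g⁻¹ * (g * d * g⁻¹) = g * (d * d) * g⁻¹ := by group
    rw [this, hdd]; group
  have hsq : (d * (g * d * g⁻¹)) ^ 2 = 1 := by
    rw [pow_two]
    have hc : d * (g * d * g⁻¹) = g * d * g⁻¹ * d := hcomm
    calc d * (g * d * g⁻¹) * (d * (g * d * g⁻¹))
        = d * (g * d * g⁻¹) * (g * d * g⁻¹ * d) := by rw [← hc]
      _ = d * (g * d * g⁻¹ * (g * d * g⁻¹)) * d := by group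
      _ = 1 := by rw [hbb, mul_one, hdd]
  have hdvd : p ^ k ∣ 2 := by rw [← hk]; exact orderOf_dvd_of_pow_eq_one hsq
  have hk0 : k = 0 := by
    by_contra hk0
    have h1 : p ∣ 2 := (dvd_pow_self p hk0).trans hdvd
    exact hp2 ((Nat.prime_dvd_prime_iff_eq hp Nat.prime_two).mp h1)
  rw [hk0, pow_zero, orderOf_eq_one_iff] at hk
  -- d * b = 1, so b = d⁻¹ = d
  have : g * d * g⁻¹ = d⁻¹ := eq_inv_of_mul_eq_one_right hk
  rw [this]; exact inv_eq_of_mul_eq_one_left hdd

/-- **Main lemma.** `d` an involution, all products of two conjugates of `d` of `p`-power order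
(`p` odd), and the `Z*`-conclusion for `d`: then all these products lie in one normal
`p`-subgroup. -/
theorem pgroup_of_prod_ppow [Finite G] {p : ℕ} (hp : p.Prime) (d : G)
    (hd : orderOf d = 2)
    (hprod : ∀ a ∈ conjugatesOf d, ∀ b ∈ conjugatesOf d, ∃ k : ℕ, orderOf (a * b) = p ^ k)
    (hZ : ∃ N : Subgroup G, N.Normal ∧ Odd (Nat.card N) ∧ ∀ g : G, d * g * d⁻¹ * g⁻¹ ∈ N) :
    ∃ Q : Subgroup G, Q.Normal ∧ IsPGroup p Q ∧
      ∀ a ∈ conjugatesOf d, ∀ b ∈ conjugatesOf d, a * b ∈ Q := by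
  classical
  have hpF : Fact p.Prime := ⟨hp⟩
  obtain ⟨N, hN, hodd, hcomm⟩ := hZ
  have hdd : d * d = 1 := by
    have h0 := pow_orderOf_eq_one d
    rw [hd, pow_two] at h0; exact h0
  have hdinv : d⁻¹ = d := inv_eq_of_mul_eq_one_left hdd
  have hconj : ∀ g : G, g * d * g⁻¹ ∈ conjugatesOf d := fun g => isConj_iff.mpr ⟨g, rfl⟩
  -- the acting group
  obtain ⟨A, hAdef⟩ : ∃ A : Subgroup G, A = Subgroup.zpowers d := ⟨_, rfl⟩
  have hdA : d ∈ A := by rw [hAdef]; exact Subgroup.mem_zpowers d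
  have hAN : A ≤ normalizer (N : Set G) := by
    rw [Subgroup.normalizer_eq_top]; exact le_top
  have hcardA : Nat.card A = 2 := by rw [hAdef, Nat.card_zpowers, hd]
  have hcop : (Nat.card A).Coprime (Nat.card N) := by
    rw [hcardA]; exact Nat.coprime_two_left.mpr hodd
  have hsolv : Group.IsSolvable A ∨ Group.IsSolvable N := by
    left
    rw [hAdef]
    exact Group.isSolvable_of_comm (fun a b => by
      obtain ⟨i, hi⟩ := Subgroup.mem_zpowers_iff.mp a.2
      obtain ⟨j, hj⟩ := Subgroup.mem_zpowers_iff.mp b.2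
      apply Subtype.ext
      show (a : G) * (b : G) = (b : G) * (a : G)
      rw [← hi, ← hj, ← zpow_add, ← zpow_add, add_comm])
  have hAle : ∀ U : Subgroup G, d ∈ normalizer (U : Set G) → A ≤ normalizer (U : Set G) := by
    intro U hU
    rw [hAdef]; exact Subgroup.zpowers_le.mpr hU
  -- C = C_N(d)
  obtain ⟨C, hCdef⟩ : ∃ C : Subgroup G, C = N ⊓ Subgroup.centralizer {d} := ⟨_, rfl⟩
  have hCN : C ≤ N := by rw [hCdef]; exact inf_le_left
  have hCmem : ∀ x, x ∈ C ↔ x ∈ N ∧ x * d = d * x := by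
    intro x; rw [hCdef, Subgroup.mem_inf, Subgroup.mem_centralizer_singleton_iff]
  -- d-invariant r-subgroups of N are centralized by d, r ≠ p
  have hcent : ∀ (r : ℕ), r.Prime → r ≠ p → ∀ R : Subgroup G, IsPGroup r R →
      d ∈ normalizer (R : Set G) → ∀ n ∈ R, n * d = d * n := by
    intro r hr hrp R hR hdR n hn
    have hrF : Fact r.Prime := ⟨hr⟩
    have h1 : d * n * d⁻¹ ∈ R := (Subgroup.mem_normalizer_iff.mp hdR n).mp hn
    have h2 : d * n * d⁻¹ * n⁻¹ ∈ R := R.mul_mem h1 (R.inv_mem hn)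
    have h3 : d * n * d⁻¹ * n⁻¹ = d * (n * d * n⁻¹) := by rw [hdinv]; group
    obtain ⟨k, hk⟩ := hprod d mem_conjugatesOf_self _ (hconj n)
    rw [← h3] at hk
    obtain ⟨j, hj⟩ := (IsPGroup.iff_orderOf.mp hR) ⟨_, h2⟩
    rw [Subgroup.orderOf_mk, hk] at hj
    have hk0 : k = 0 := by
      by_contra hk0
      have h4 : p ∣ r ^ j := by rw [← hj]; exact dvd_pow_self p hk0
      have h5 : p ∣ r := hp.dvd_of_dvd_pow h4
      exact hrp ((Nat.prime_dvd_prime_iff_eq hp hr).mp h5).symm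
    rw [hk0, pow_zero, orderOf_eq_one_iff] at hk
    -- d n d⁻¹ n⁻¹ = 1
    have h6 : d * n * d⁻¹ = n := by
      have := mul_eq_one_iff_eq_inv.mp hk
      rw [inv_inv] at this; exact this
    calc n * d = d * n * d⁻¹ * d := by rw [h6]
      _ = d * n := by group
  -- |N : C| is a power of p
  obtain ⟨q, hq⟩ := Subgroup.card_dvd_of_le hCN
  have hN0 : Nat.card N ≠ 0 := Nat.card_pos.ne'
  have hC0 : Nat.card C ≠ 0 := Nat.card_pos.ne'
  have hq0 : q ≠ 0 := by
    intro h; rw [h, mul_zero] at hq; exact hN0 hq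
  have hqp : ∀ {r : ℕ}, r.Prime → r ∣ q → r = p := by
    intro r hr hrq
    by_contra hrp
    have hrF : Fact r.Prime := ⟨hr⟩
    obtain ⟨R, hR, hRA⟩ := Cfsg.Agent.Helper35.exists_invariant_sylow hAN hcop hsolv r
    have hRp : IsPGroup r R := Cfsg.Agent.Helper35.isPGroup_of_mem_sylowSet hR
    have hRC : R ≤ C := by
      intro n hn
      rw [hCmem]
      exact ⟨hR.1 hn, hcent r hr hrp R hRp (hRA hdA) n hn⟩
    have h1 : r ^ (Nat.card N).factorization r ∣ Nat.card C := by
      rw [← hR.2]; exact Subgroup.card_dvd_of_le hRC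
    have h2 : r ^ ((Nat.card N).factorization r + 1) ∣ Nat.card C * q := by
      rw [pow_succ]; exact mul_dvd_mul h1 hrq
    rw [← hq] at h2
    exact Nat.pow_succ_factorization_not_dvd hN0 hr h2
  have hqpow := Nat.eq_prime_pow_of_unique_prime_dvd hq0 hqp
  obtain ⟨m, hm⟩ : ∃ m, q = p ^ m := ⟨_, hqpow⟩
  rw [hm] at hq
  -- a d-invariant Sylow p-subgroup P of N containing a Sylow p-subgroup of C
  obtain ⟨Q₀, hQ₀⟩ := Cfsg.Agent.Helper35.sylowSet_nonempty (p := p) C
  have hQ₀p : IsPGroup p Q₀ := Cfsg.Agent.Helper35.isPGroup_of_mem_sylowSet hQ₀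
  have hQ₀d : d ∈ normalizer (Q₀ : Set G) := by
    rw [Subgroup.mem_normalizer_iff]
    intro h
    constructor
    · intro hh
      have e : d * h * d⁻¹ = h := by
        have := ((hCmem h).mp (hQ₀.1 hh)).2
        calc d * h * d⁻¹ = h * d * d⁻¹ := by rw [this]
          _ = h := by group
      rw [e]; exact hh
    · intro hh
      have e0 := ((hCmem _).mp (hQ₀.1 hh)).2
      have e : d * h * d⁻¹ = h := by
        have e1 : d * h * d⁻¹ * d = d * (d * h * d⁻¹) := e0
        have e2 : d * h * d⁻¹ * d = d * h := by group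
        rw [e2] at e1
        have e3 : h = d * h * d⁻¹ := mul_left_cancel e1
        exact e3.symm
      rw [e] at hh; exact hh
  obtain ⟨P, hP, hQ₀P, hPA⟩ := Cfsg.Agent.Helper35.exists_invariant_sylow_ge hAN hcop hsolv
    (hQ₀.1.trans hCN) hQ₀p (hAle Q₀ hQ₀d)
  have hPp : IsPGroup p P := Cfsg.Agent.Helper35.isPGroup_of_mem_sylowSet hP
  have hPd : d ∈ normalizer (P : Set G) := hPA hdA
  -- C_P(d) = Q₀
  have hCP : P ⊓ Subgroup.centralizer {d} = Q₀ := by
    apply Cfsg.Agent.Helper35.eq_of_mem_sylowSet_of_le hQ₀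
    · intro x hx
      rw [hCmem]
      exact ⟨hP.1 (Subgroup.mem_inf.mp hx).1,
        Subgroup.mem_centralizer_singleton_iff.mp (Subgroup.mem_inf.mp hx).2⟩
    · exact hPp.to_le inf_le_left
    · intro x hx
      exact Subgroup.mem_inf.mpr ⟨hQ₀P hx,
        Subgroup.mem_centralizer_singleton_iff.mpr ((hCmem x).mp (hQ₀.1 hx)).2⟩
  -- counting
  have hfac : (Nat.card N).factorization p = (Nat.card C).factorization p + m := by
    rw [hq, Nat.factorization_mul hC0 (pow_ne_zero _ hp.ne_zero), Finsupp.add_apply,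
      hp.factorization_pow, Finsupp.single_eq_same]
  have hcardP : Nat.card P = Nat.card Q₀ * p ^ m := by
    rw [hP.2, hQ₀.2, hfac, pow_add]
  have horbN : (conjOrbit N d).ncard = p ^ m := by
    have h1 := conjOrbit_ncard N d
    rw [← hCdef, hq, mul_comm] at h1
    exact Nat.eq_of_mul_eq_mul_left (Nat.pos_of_ne_zero hC0) h1
  have horbP : (conjOrbit P d).ncard = p ^ m := by
    have h1 := conjOrbit_ncard P d
    rw [hCP, hcardP, mul_comm] at h1
    exact Nat.eq_of_mul_eq_mul_left (Nat.pos_of_ne_zero (Nat.card_pos.ne')) h1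
  have hsub : conjOrbit P d ⊆ conjOrbit N d := by
    rintro x ⟨u, hu, rfl⟩
    exact ⟨u, hP.1 hu, rfl⟩
  have horbEq : conjOrbit P d = conjOrbit N d :=
    Set.eq_of_subset_of_ncard_le hsub (by rw [horbN, horbP]) (Set.toFinite _)
  -- every conjugate of d is a P-conjugate
  have hall : ∀ a ∈ conjugatesOf d, ∃ u ∈ P, a = u * d * u⁻¹ := by
    intro a ha
    obtain ⟨g, rfl⟩ := isConj_iff.mp (ha : IsConj d a)
    have h1 : g * d * g⁻¹ * d⁻¹ ∈ N := by
      have h2 := N.inv_mem (hcomm g)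
      have e : (d * g * d⁻¹ * g⁻¹)⁻¹ = g * d * g⁻¹ * d⁻¹ := by group
      rwa [e] at h2
    obtain ⟨k, hk, hkeq⟩ := exists_conj_of_comm_mem N hodd d g hdd h1
    have h3 : g * d * g⁻¹ ∈ conjOrbit N d := ⟨k, hk, hkeq.symm⟩
    rw [← horbEq] at h3
    exact h3
  -- products of two conjugates lie in P
  have hprodP : ∀ a ∈ conjugatesOf d, ∀ b ∈ conjugatesOf d, a * b ∈ P := by
    intro a ha b hb
    obtain ⟨u, hu, rfl⟩ := hall a ha
    obtain ⟨v, hv, rfl⟩ := hall b hb
    have h1 : d * (u⁻¹ * v) * d⁻¹ ∈ P :=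
      (Subgroup.mem_normalizer_iff.mp hPd _).mp (P.mul_mem (P.inv_mem hu) hv)
    have e : u * d * u⁻¹ * (v * d * v⁻¹) = u * (d * (u⁻¹ * v) * d⁻¹) * v⁻¹ := by
      rw [hdinv]; group
    rw [e]
    exact P.mul_mem (P.mul_mem hu h1) (P.inv_mem hv)
  -- the normal closure
  refine ⟨Subgroup.normalClosure {x | ∃ a ∈ conjugatesOf d, ∃ b ∈ conjugatesOf d, x = a * b},
    Subgroup.normalClosure_normal, ?_, ?_⟩
  · apply hPp.to_le
    rw [Subgroup.normalClosure]
    rw [Subgroup.closure_le]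
    intro x hx
    obtain ⟨y, ⟨a, ha, b, hb, rfl⟩, hy⟩ := Group.mem_conjugatesOfSet_iff.mp hx
    obtain ⟨g, rfl⟩ := isConj_iff.mp hy
    have e : g * (a * b) * g⁻¹ = g * a * g⁻¹ * (g * b * g⁻¹) := by group
    rw [e]
    apply hprodP
    · exact (ha : IsConj d a).trans (isConj_iff.mpr ⟨g, rfl⟩)
    · exact (hb : IsConj d b).trans (isConj_iff.mpr ⟨g, rfl⟩)
  · intro a ha b hb
    exact Subgroup.subset_normalClosure ⟨a, ha, b, hb, rfl⟩

end Cfsg.Agent.Helper53

namespace Cfsg.Agent.Helper53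

open scoped commutatorElement

variable {G : Type*} [Group G]

/-- If `G` is generated by the conjugates of an involution `d` and all products of two conjugates
lie in a normal subgroup `Q`, then `G' ≤ Q`. -/
theorem commutator_le_of_prod_mem (d : G)
    (hgen : Subgroup.closure (conjugatesOf d) = ⊤) (Q : Subgroup G) (hQn : Q.Normal)
    (hQ : ∀ a ∈ conjugatesOf d, ∀ b ∈ conjugatesOf d, a * b ∈ Q) : commutator G ≤ Q := by
  have hmk : ∀ g : G, (QuotientGroup.mk' Q g) ∈ Subgroup.zpowers (QuotientGroup.mk' Q d) := by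
    have hle : Subgroup.closure (conjugatesOf d) ≤
        (Subgroup.zpowers (QuotientGroup.mk' Q d)).comap (QuotientGroup.mk' Q) := by
      rw [Subgroup.closure_le]
      intro x hx
      show QuotientGroup.mk' Q x ∈ Subgroup.zpowers (QuotientGroup.mk' Q d)
      have h1 : QuotientGroup.mk' Q (x * d) = 1 :=
        (QuotientGroup.eq_one_iff _).mpr (hQ x hx d mem_conjugatesOf_self)
      rw [map_mul] at h1
      have h2 : QuotientGroup.mk' Q x = (QuotientGroup.mk' Q d)⁻¹ := eq_inv_of_mul_eq_one_left h1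
      rw [h2]
      exact Subgroup.inv_mem _ (Subgroup.mem_zpowers _)
    intro g
    have : g ∈ Subgroup.closure (conjugatesOf d) := by rw [hgen]; exact Subgroup.mem_top g
    exact hle this
  rw [commutator_def, Subgroup.commutator_le]
  intro g₁ _ g₂ _
  obtain ⟨i, hi⟩ := Subgroup.mem_zpowers_iff.mp (hmk g₁)
  obtain ⟨j, hj⟩ := Subgroup.mem_zpowers_iff.mp (hmk g₂)
  have h1 : QuotientGroup.mk' Q ⁅g₁, g₂⁆ = 1 := by
    rw [commutatorElement_def, map_mul, map_mul, map_mul, map_inv, map_inv, ← hi, ← hj]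
    rw [← zpow_add, ← zpow_neg, ← zpow_add, ← zpow_neg, ← zpow_add]
    have : i + j + -i + -j = 0 := by ring
    rw [this, zpow_zero]
  exact (QuotientGroup.eq_one_iff _).mp h1

end Cfsg.Agent.Helper53
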