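import Cfsg.Agent.Helper55.N9Defs

/-!
CALL S4409 (helper55), piece C1a (helper53).
-/

set_option autoImplicit false

namespace Cfsg.Agent.Helper53.N9

open Subgroup Cfsg.Agent.Helper55.N9

variable {G : Type*} [Group G] [Finite G]

-- C1a
theorem n9_case1_v4 (T : Tools G) (X K : Subgroup G) (c : Core X K) (hmin : MinCfg K ⁅X, K⁆)
    (mf : MinFacts K ⁅X, K⁆) (hV : IsV4 ⁅X, K⁆) : ∀ a ∈ X, ∀ b ∈ X, a * b = b * a := by
  set X1 : Subgroup G := ⁅X, K⁆ with hX1
  have hX1X : X1 ≤ X := (T.comm_inv X K c.inv).1
  have hXn : X ≤ normalizer (X1 : Set G) := (T.comm_inv X K c.inv).2.1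
  -- `X1` is abelian
  have hab1 : ∀ a ∈ X1, ∀ b ∈ X1, a * b = b * a := by
    intro a ha b hb
    have h1 : a⁻¹ = a := inv_eq_of_mul_eq_one_left (by rw [← sq]; exact hV.2 a ha)
    have h2 : b⁻¹ = b := inv_eq_of_mul_eq_one_left (by rw [← sq]; exact hV.2 b hb)
    have h3 : (a * b)⁻¹ = a * b :=
      inv_eq_of_mul_eq_one_left (by rw [← sq]; exact hV.2 (a * b) (X1.mul_mem ha hb))
    calc a * b = (a * b)⁻¹ := h3.symm
      _ = b⁻¹ * a⁻¹ := mul_inv_rev a b
      _ = b * a := by rw [h1, h2]
  -- `C = C_X(K)` centralizes `X1`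
  have hCcent : X ⊓ centralizer (K : Set G) ≤ centralizer (X1 : Set G) :=
    mf.cent _ (c.pX.to_le inf_le_left) (inf_le_left.trans hXn) inf_le_right
  have hdec := T.decomp X K c.pX c.odd c.inv
  by_cases hC : X ⊓ centralizer (K : Set G) ≤ X1
  · -- then `X = X1`
    have hXX1 : X ≤ X1 := by
      intro y hy
      obtain ⟨a, ha, c', hc', rfl⟩ := hdec y hy
      exact X1.mul_mem ha (hC hc')
    intro a ha b hb
    exact hab1 a (hXX1 ha) b (hXX1 hb)
  · obtain ⟨u, huC, hu⟩ := SetLike.not_le_iff_exists.mp hC
    have huX : u ∈ X := huC.1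
    have huK : u ∈ centralizer (K : Set G) := huC.2
    have hucent : ∀ d ∈ X1, d * u = u * d :=
      fun d hd => Subgroup.mem_centralizer_iff.mp (hCcent huC) d hd
    set Y : Subgroup G := X1 ⊔ zpowers u with hYdef
    have hYX : Y ≤ X := sup_le hX1X ((Subgroup.zpowers_le).mpr huX)
    have hpow : ∃ n : ℕ, u ^ 2 ^ n = 1 := by
      obtain ⟨n, hn⟩ := c.pX ⟨u, huX⟩
      exact ⟨n, by simpa using congrArg Subtype.val hn⟩
    have hA8 : ¬ NoA8 Y := T.cent_a8 X1 (Or.inl hV) u (fun d hd => (hucent d hd).symm) hu hpow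
    -- `Y` is `K`-invariant
    have hconj : ∀ k ∈ K, ∀ y ∈ Y, k * y * k⁻¹ ∈ Y := by
      intro k hk y hy
      have hmap : Y.map (MulAut.conj k).toMonoidHom ≤ Y := by
        rw [hYdef, Subgroup.map_sup]
        apply sup_le_sup
        · rintro _ ⟨x, hx, rfl⟩
          exact (Subgroup.mem_normalizer_iff.mp (hmin.inv hk) x).mp hx
        · rintro _ ⟨x, hx, rfl⟩
          obtain ⟨n, rfl⟩ := Subgroup.mem_zpowers_iff.mp hx
          have hku : Commute k u := (Subgroup.mem_centralizer_iff.mp huK k hk)
          have hkun : Commute k (u ^ n) := hku.zpow_right n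
          have : (MulAut.conj k).toMonoidHom (u ^ n) = u ^ n := by
            show k * u ^ n * k⁻¹ = u ^ n
            rw [hkun.eq, mul_inv_cancel_right]
          rw [this]
          exact Subgroup.zpow_mem_zpowers u n
      exact hmap ⟨y, hy, rfl⟩
    have hKY : K ≤ normalizer (Y : Set G) := by
      intro k hk
      rw [Subgroup.mem_normalizer_iff]
      intro y
      constructor
      · exact hconj k hk y
      · intro hy
        have h2 := hconj k⁻¹ (K.inv_mem hk) _ hy
        have h3 : k⁻¹ * (k * y * k⁻¹) * k⁻¹⁻¹ = y := by group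
        rw [h3] at h2
        exact h2
    have hYeq : Y = X := by
      by_contra hne
      exact hA8 (c.hyp Y hYX hne hKY)
    -- `Y` is abelian
    have hcomm : ∀ a ∈ Y, ∀ b ∈ Y, a * b = b * a := by
      have key : ∀ a : G, (∀ d ∈ X1, d * a = a * d) → u * a = a * u →
          ∀ b ∈ Y, a * b = b * a := by
        intro a ha1 ha2 b hb
        have hle : Y ≤ centralizer ({a} : Set G) := by
          rw [hYdef]
          apply sup_le
          · intro d hd
            rw [Subgroup.mem_centralizer_iff]
            intro x hx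
            rw [Set.mem_singleton_iff] at hx
            rw [hx]
            exact (ha1 d hd).symm
          · rw [Subgroup.zpowers_le, Subgroup.mem_centralizer_iff]
            intro x hx
            rw [Set.mem_singleton_iff] at hx
            rw [hx]
            exact ha2.symm
        have := Subgroup.mem_centralizer_iff.mp (hle hb) a (Set.mem_singleton a)
        exact this
      intro a ha b hb
      -- `a` commutes with `X1` and with `u`
      have ha1 : ∀ d ∈ X1, d * a = a * d := by
        intro d hd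
        have hd1 : ∀ e ∈ X1, e * d = d * e := fun e he => hab1 e he d hd
        have hd2 : u * d = d * u := (hucent d hd).symm
        exact (key d hd1 hd2 a ha)
      have ha2 : u * a = a * u := by
        have hu1 : ∀ e ∈ X1, e * u = u * e := hucent
        exact (key u hu1 rfl a ha)
      exact key a ha1 ha2 b hb
    intro a ha b hb
    rw [← hYeq] at ha hb
    exact hcomm a ha b hb

end Cfsg.Agent.Helper53.N9
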