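import Cfsg.Agent.Helper55.N9Defs

/-!
CALL S4409 (helper55), piece F1b (helper53).
-/

set_option autoImplicit false

namespace Cfsg.Agent.Helper53.N9

open Subgroup Cfsg.Agent.Helper55.N9

variable {G : Type*} [Group G] [Finite G]

-- F1b
theorem n9_norm_le (T : Tools G) (Y K D : Subgroup G) (hY : IsPGroup 2 Y)
    (hK : Odd (Nat.card K)) (hinv : K ≤ normalizer (Y : Set G)) (hN : NoA8 Y) (hDY : D ≤ Y)
    (h : MinCfg K D) (mf : MinFacts K D) (hV : IsV4 D ∨ IsQ8 D) :
    Y ⊓ normalizer (D : Set G) ≤ D := by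
  set N : Subgroup G := Y ⊓ normalizer (D : Set G) with hNdef
  have hNY : N ≤ Y := inf_le_left
  have hNnD : N ≤ normalizer (D : Set G) := inf_le_right
  have hDN : D ≤ N := le_inf hDY Subgroup.le_normalizer
  have hN2 : IsPGroup 2 N := hY.to_le hNY
  -- `N` is `K`-invariant
  have hKN : K ≤ normalizer (N : Set G) := by
    intro k hk
    rw [Subgroup.mem_normalizer_iff]
    intro n
    have hkY := hinv hk
    rw [Subgroup.mem_normalizer_iff] at hkY
    have hkD : k ∈ normalizer (D : Set G) := h.inv hk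
    constructor
    · rintro ⟨hnY, hnD⟩
      exact ⟨(hkY n).mp hnY,
        Subgroup.mul_mem _ (Subgroup.mul_mem _ hkD hnD) (Subgroup.inv_mem _ hkD)⟩
    · rintro ⟨hnY, hnD⟩
      refine ⟨(hkY n).mpr hnY, ?_⟩
      have h2 : n = k⁻¹ * (k * n * k⁻¹) * k := by group
      rw [h2]
      exact Subgroup.mul_mem _ (Subgroup.mul_mem _ (Subgroup.inv_mem _ hkD) hnD) hkD
  -- `C_N(D) ≤ D`
  have hCD : N ⊓ centralizer (D : Set G) ≤ D := by
    intro c hc
    by_contra hcD
    have hcY : c ∈ Y := hNY hc.1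
    have hcc : ∀ d ∈ D, c * d = d * c := fun d hd =>
      ((Subgroup.mem_centralizer_iff.mp hc.2) d hd).symm
    have hpow : ∃ n : ℕ, c ^ 2 ^ n = 1 := by
      obtain ⟨n, hn⟩ := hY ⟨c, hcY⟩
      exact ⟨n, by simpa using congrArg Subtype.val hn⟩
    exact T.cent_a8 D hV c hcc hcD hpow
      (hN.mono (sup_le hDY ((Subgroup.zpowers_le).mpr hcY)))
  -- the index of `D` in `N` is at most 2
  have hidx : D.relIndex N ≤ 2 := by
    rcases hV with hV4 | hQ8
    · have h1 := T.autV4 D N hN2 hV4 hNnD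
      have h2 : D.relIndex N ∣ (N ⊓ centralizer (D : Set G)).relIndex N :=
        Subgroup.relIndex_dvd_of_le_left N hCD
      have h3 : (N ⊓ centralizer (D : Set G)).relIndex N ≠ 0 := by
        show ((N ⊓ centralizer (D : Set G)).subgroupOf N).index ≠ 0
        exact Subgroup.index_ne_zero_of_finite
      exact (Nat.le_of_dvd (Nat.pos_of_ne_zero h3) h2).trans h1
    · exact T.autQ8 D N hN2 hQ8 hDN hNnD hCD
  have hidx0 : D.relIndex N ≠ 0 := by
    show (D.subgroupOf N).index ≠ 0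
    exact Subgroup.index_ne_zero_of_finite
  -- `[N, K] ≤ D`
  have hcomm : ⁅N, K⁆ ≤ D := by
    have hcases : D.relIndex N = 1 ∨ D.relIndex N = 2 := by omega
    rcases hcases with h1 | h2
    · exact ((T.comm_inv N K hKN).1).trans (Subgroup.relIndex_eq_one.mp h1)
    · exact T.idx N K D hKN hDN h2 h.inv
  -- `C_N(K) ≤ D`
  have hfix : N ⊓ centralizer (K : Set G) ≤ D := by
    have h1 : N ⊓ centralizer (K : Set G) ≤ centralizer (D : Set G) :=
      mf.cent _ (hN2.to_le inf_le_left) (inf_le_left.trans hNnD) inf_le_right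
    intro c hc
    exact hCD ⟨hc.1, h1 hc⟩
  intro y hy
  obtain ⟨a, ha, c, hc, rfl⟩ := T.decomp N K hN2 hK hKN y hy
  exact D.mul_mem (hcomm ha) (hfix hc)

end Cfsg.Agent.Helper53.N9
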