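import Mathlib

/-!
# Finite nilpotent groups: splitting off a Sylow subgroup (helper53)

* `le_of_sylow_map_le`: a subgroup all of whose Sylow subgroups lie in `K` lies in `K`.
* `nilpotent_sylow_prod`: in a finite nilpotent group a Sylow `p`-subgroup `P` has a complement `H`
  of order prime to `p` centralizing it, and `(x, h) ↦ x * h` is an isomorphism `P × H ≃* G`.
* `mem_zpowers_of_pow_prime_eq_one`: in a cyclic subgroup, an element of order `p` generates every
  element killed by `p`.
-/

set_option autoImplicit false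

namespace Cfsg.Agent.Helper53

/-- A subgroup all of whose Sylow subgroups lie in `K` lies in `K`. -/
theorem le_of_sylow_map_le {G : Type*} [Group G] [Finite G] (H K : Subgroup G)
    (h : ∀ (q : ℕ) [Fact q.Prime] (Q : Sylow q ↥H), (Q : Subgroup H).map H.subtype ≤ K) :
    H ≤ K := by
  have hdvd : Nat.card H ∣ Nat.card (H ⊓ K : Subgroup G) := by
    rw [← Nat.factorization_prime_le_iff_dvd (Nat.card_pos.ne') (Nat.card_pos.ne')]
    intro q hq
    have : Fact q.Prime := ⟨hq⟩
    obtain ⟨Q⟩ : Nonempty (Sylow q ↥H) := inferInstance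
    have h1 : Nat.card Q = q ^ (Nat.card H).factorization q := Sylow.card_eq_multiplicity Q
    have h2 : (Q : Subgroup H).map H.subtype ≤ H ⊓ K :=
      le_inf (Subgroup.map_subtype_le _) (h q Q)
    have h3 : Nat.card ((Q : Subgroup H).map H.subtype) = Nat.card Q :=
      Subgroup.card_map_of_injective H.subtype_injective
    have h4 : q ^ (Nat.card H).factorization q ∣ Nat.card (H ⊓ K : Subgroup G) := by
      rw [← h1, ← h3]; exact Subgroup.card_dvd_of_le h2
    exact (hq.pow_dvd_iff_le_factorization (Nat.card_pos.ne')).mp h4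
  have h5 : H ⊓ K = H :=
    Subgroup.eq_of_le_of_card_ge inf_le_left (Nat.le_of_dvd Nat.card_pos hdvd)
  rw [← h5]; exact inf_le_right

/-- In a finite nilpotent group a Sylow `p`-subgroup has a centralizing complement. -/
theorem nilpotent_sylow_prod {G : Type*} [Group G] [Finite G] (hG : Group.IsNilpotent G)
    (p : ℕ) [Fact p.Prime] (P : Sylow p G) :
    ∃ H : Subgroup G, Nat.Coprime (Nat.card H) p ∧
      (∀ x ∈ (P : Subgroup G), ∀ h ∈ H, x * h = h * x) ∧
      ∃ e : ↥(P : Subgroup G) × ↥H ≃* G, ∀ x, e x = (x.1 : G) * (x.2 : G) := by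
  have hp : p.Prime := Fact.out
  have hPn : (P : Subgroup G).Normal := inferInstance
  obtain ⟨H, hH⟩ := Subgroup.exists_right_complement'_of_coprime (N := (P : Subgroup G))
    P.card_coprime_index
  have hcardH : Nat.card H = (P : Subgroup G).index := by
    have h1 := hH.card_mul_card
    have h2 := (P : Subgroup G).card_mul_index
    have hpos : 0 < Nat.card (P : Subgroup G) := Nat.card_pos
    exact Nat.eq_of_mul_eq_mul_left hpos (h1.trans h2.symm)
  have hcop : Nat.Coprime (Nat.card H) p := by
    rw [hcardH]
    exact (Nat.Prime.coprime_iff_not_dvd hp).mpr P.not_dvd_index |>.symm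
  have hdisj : Disjoint (P : Subgroup G) H := hH.disjoint
  have hcomm : ∀ x ∈ (P : Subgroup G), ∀ h ∈ H, x * h = h * x := by
    have hle : H ≤ Subgroup.centralizer ((P : Subgroup G) : Set G) := by
      apply le_of_sylow_map_le
      intro q _ Q
      have hQp : IsPGroup q ((Q : Subgroup H).map H.subtype) := Q.2.map H.subtype
      obtain ⟨Q', hQ'⟩ := hQp.exists_le_sylow
      by_cases hqp : q = p
      · subst hqp
        have hQP : Q' = P := by
          obtain ⟨g, hg⟩ := MulAction.exists_smul_eq G Q' P
          rw [← hg]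
          exact (Sylow.smul_eq_of_normal (g := g) (P := Q')).symm
        rw [hQP] at hQ'
        have hbot : (Q : Subgroup H).map H.subtype ≤ ⊥ := by
          intro y hy
          exact hdisj.le_bot ⟨hQ' hy, Subgroup.map_subtype_le _ hy⟩
        intro y hy
        have : y = 1 := by simpa using hbot hy
        rw [this]; exact Subgroup.one_mem _
      · intro y hy
        have hyQ' : y ∈ (Q' : Subgroup G) := hQ' hy
        rw [Subgroup.mem_centralizer_iff]
        intro x hx
        have hd : Disjoint (P : Subgroup G) (Q' : Subgroup G) :=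
          IsPGroup.disjoint_of_ne p q (Ne.symm hqp) _ _ P.2 Q'.2
        exact (Subgroup.commute_of_normal_of_disjoint _ _ inferInstance inferInstance hd x y
          hx hyQ').eq
    intro x hx h hh
    have := (Subgroup.mem_centralizer_iff.mp (hle hh)) x hx
    exact this
  refine ⟨H, hcop, hcomm, ?_⟩
  have hcomm' : ∀ (m : ↥(P : Subgroup G)) (n : ↥H),
      Commute ((P : Subgroup G).subtype m) (H.subtype n) := fun x h => hcomm x x.2 h h.2
  obtain ⟨f, hf'⟩ : ∃ f : ↥(P : Subgroup G) × ↥H →* G,
      f = MonoidHom.noncommCoprod (P : Subgroup G).subtype H.subtype hcomm' := ⟨_, rfl⟩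
  have hf : ∀ x, f x = (x.1 : G) * (x.2 : G) := fun x => by
    rw [hf', MonoidHom.noncommCoprod_apply]; rfl
  have hbij : Function.Bijective f := by
    have hb : Function.Bijective (fun x : ((P : Subgroup G) : Set G) × (H : Set G) => (x.1 : G) * (x.2 : G)) := hH
    constructor
    · intro x y hxy
      rw [hf, hf] at hxy
      have := hb.1 (a₁ := (⟨x.1, x.2⟩ : ((P : Subgroup G) : Set G) × (H : Set G)))
        (a₂ := (⟨y.1, y.2⟩ : ((P : Subgroup G) : Set G) × (H : Set G))) hxy
      have h1 := congrArg Prod.fst this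
      have h2 := congrArg Prod.snd this
      exact Prod.ext h1 h2
    · intro g
      obtain ⟨x, hx⟩ := hb.2 g
      exact ⟨(x.1, x.2), by rw [hf]; exact hx⟩
  exact ⟨MulEquiv.ofBijective f hbij, fun x => by
    rw [MulEquiv.ofBijective_apply]; exact hf x⟩

/-- In a cyclic subgroup, an element `z` of prime order `p` generates every element killed by `p`. -/
theorem mem_zpowers_of_pow_prime_eq_one {G : Type*} [Group G] [Finite G] (K : Subgroup G)
    (hK : IsCyclic K) (p : ℕ) (hp : p.Prime) (z t : G) (hz : z ∈ K) (ht : t ∈ K)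
    (hoz : orderOf z = p) (htp : t ^ p = 1) : t ∈ Subgroup.zpowers z := by
  classical
  have : Fintype K := Fintype.ofFinite K
  have hS : (Finset.univ.filter fun a : K => a ^ p = 1).card ≤ p :=
    IsCyclic.card_pow_eq_one_le hp.pos
  let z' : K := ⟨z, hz⟩
  have hoz' : orderOf z' = p := by rw [← hoz]; exact Subgroup.orderOf_mk z hz
  let T : Finset K := (Finset.range p).image (fun i => z' ^ i)
  have hT : T.card = p := by
    rw [Finset.card_image_of_injOn, Finset.card_range]
    intro i hi j hj hij
    have hi' : i < orderOf z' := by rw [hoz']; exact Finset.mem_range.mp hi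
    have hj' : j < orderOf z' := by rw [hoz']; exact Finset.mem_range.mp hj
    exact pow_injOn_Iio_orderOf hi' hj' hij
  have hTS : T ⊆ (Finset.univ.filter fun a : K => a ^ p = 1) := by
    intro w hw
    obtain ⟨i, _, rfl⟩ := Finset.mem_image.mp hw
    rw [Finset.mem_filter]
    refine ⟨Finset.mem_univ _, ?_⟩
    rw [← pow_mul, mul_comm, pow_mul, ← hoz', pow_orderOf_eq_one, one_pow]
  have hEq : T = (Finset.univ.filter fun a : K => a ^ p = 1) :=
    Finset.eq_of_subset_of_card_le hTS (by rw [hT]; exact hS)
  have htS : (⟨t, ht⟩ : K) ∈ (Finset.univ.filter fun a : K => a ^ p = 1) := by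
    rw [Finset.mem_filter]
    refine ⟨Finset.mem_univ _, ?_⟩
    apply Subtype.ext
    simpa using htp
  rw [← hEq] at htS
  obtain ⟨i, _, hi⟩ := Finset.mem_image.mp htS
  have : z ^ i = t := by
    have := congrArg (Subtype.val) hi
    simpa [z'] using this
  rw [← this]
  exact Subgroup.pow_mem _ (Subgroup.mem_zpowers z) _

end Cfsg.Agent.Helper53
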