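import Mathlib
import Cfsg.Agent.Helper53.PCenter

/-!
Helper53: PIECE NA1 of CALL S0977 (helper52).  Facts on a nonabelian group `Q` of order 27
(as a subgroup of a group `G`): its centre `Z` has order 3, commutators lie in `Z`, subgroups of
order 9 are abelian and contain `Z`, and non-central elements of distinct subgroups of order 9 do
not commute.
-/

set_option autoImplicit false

namespace Cfsg.Agent.Helper53

theorem o27_dvd {n : ℕ} (h : n ∣ 27) : n = 1 ∨ n = 3 ∨ n = 9 ∨ n = 27 := by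
  have h1 : n ≤ 27 := Nat.le_of_dvd (by norm_num) h
  interval_cases n <;> omega

theorem o27_card_lt {G : Type*} [Group G] {H K : Subgroup G} [Finite K] (hle : H ≤ K) {x : G}
    (hxK : x ∈ K) (hxH : x ∉ H) : Nat.card H < Nat.card K := by
  refine lt_of_le_of_ne (Subgroup.card_le_of_le hle) (fun h => hxH ?_)
  have heq : H = K := Subgroup.eq_of_le_of_card_ge hle h.ge
  rw [heq]; exact hxK

/-- PIECE NA1 -/
theorem o27_facts {G : Type*} [Group G] (Q : Subgroup G) (hQ : Nat.card ↥Q = 27)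
    (hna : ¬ ∀ x ∈ Q, ∀ y ∈ Q, x * y = y * x) :
    ∃ Z : Subgroup G, Z ≤ Q ∧ Nat.card ↥Z = 3 ∧
      (∀ z ∈ Z, ∀ x ∈ Q, z * x = x * z) ∧
      (∀ x ∈ Q, (∀ y ∈ Q, x * y = y * x) → x ∈ Z) ∧
      (∀ x ∈ Q, ∀ y ∈ Q, x * y * x⁻¹ * y⁻¹ ∈ Z) ∧
      (∀ D : Subgroup G, D ≤ Q → Nat.card ↥D = 9 →
        Z ≤ D ∧ ∀ x ∈ D, ∀ y ∈ D, x * y = y * x) ∧
      (∀ D₁ D₂ : Subgroup G, D₁ ≤ Q → D₂ ≤ Q → Nat.card ↥D₁ = 9 → Nat.card ↥D₂ = 9 →
        D₁ ≠ D₂ → ∀ x ∈ D₁, ∀ y ∈ D₂, x ∉ Z → y ∉ Z → x * y ≠ y * x) := by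
  have hfin : Finite ↥Q := Nat.finite_of_card_ne_zero (by rw [hQ]; norm_num)
  have hp3 : Fact (Nat.Prime 3) := ⟨Nat.prime_three⟩
  have hnaQ : ¬ ∀ a b : ↥Q, a * b = b * a := by
    intro h
    apply hna
    intro x hx y hy
    exact congrArg Subtype.val (h ⟨x, hx⟩ ⟨y, hy⟩)
  -- the centre of `Q` has order 3
  have hZc3 : Nat.card (Subgroup.center ↥Q) = 3 := by
    have hdvd : Nat.card (Subgroup.center ↥Q) ∣ 27 := hQ ▸ Subgroup.card_subgroup_dvd_card _
    have hquot := Subgroup.card_eq_card_quotient_mul_card_subgroup (Subgroup.center ↥Q)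
    rw [hQ] at hquot
    rcases o27_dvd hdvd with h | h | h | h
    · exfalso
      have hpQ : IsPGroup 3 ↥Q := IsPGroup.of_card (n := 3) (by rw [hQ]; norm_num)
      have hnt : Nontrivial ↥Q := by
        rw [← Finite.one_lt_card_iff_nontrivial, hQ]; norm_num
      have hcnt : Nontrivial ↥(Subgroup.center ↥Q) := hpQ.center_nontrivial
      rw [← Finite.one_lt_card_iff_nontrivial, h] at hcnt
      exact lt_irrefl _ hcnt
    · exact h
    · exfalso
      rw [h] at hquot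
      have hq3 : Nat.card (↥Q ⧸ Subgroup.center ↥Q) = 3 := by omega
      have hcyc : IsCyclic (↥Q ⧸ Subgroup.center ↥Q) := isCyclic_of_prime_card hq3
      exact hnaQ (commutative_of_cyclic_center_quotient
        (QuotientGroup.mk' (Subgroup.center ↥Q)) (by rw [QuotientGroup.ker_mk']))
    · exfalso
      have htop : Subgroup.center ↥Q = ⊤ := Subgroup.eq_top_of_card_eq _ (by rw [h, hQ])
      apply hnaQ
      intro a b
      have hb : b ∈ Subgroup.center ↥Q := by rw [htop]; trivial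
      exact Subgroup.mem_center_iff.mp hb a
  obtain ⟨Z, hZ⟩ : ∃ Z : Subgroup G, Z = (Subgroup.center ↥Q).map Q.subtype := ⟨_, rfl⟩
  have hZmem : ∀ z : G, z ∈ Z ↔ z ∈ Q ∧ ∀ r ∈ Q, r * z = z * r := by
    intro z; rw [hZ]; exact mem_map_center_subtype
  have hZQ : Z ≤ Q := fun z hz => ((hZmem z).mp hz).1
  have hZ3 : Nat.card Z = 3 := by
    rw [hZ, Subgroup.card_map_of_injective Q.subtype_injective]; exact hZc3
  have hZc : ∀ z ∈ Z, ∀ x ∈ Q, z * x = x * z := fun z hz x hx => (((hZmem z).mp hz).2 x hx).symm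
  have hZmem' : ∀ x ∈ Q, (∀ y ∈ Q, x * y = y * x) → x ∈ Z := fun x hx h =>
    (hZmem x).mpr ⟨hx, fun r hr => (h r hr).symm⟩
  -- commutators
  have hcomm : ∀ x ∈ Q, ∀ y ∈ Q, x * y * x⁻¹ * y⁻¹ ∈ Z := by
    intro x hx y hy
    have hquot := Subgroup.card_eq_card_quotient_mul_card_subgroup (Subgroup.center ↥Q)
    rw [hQ, hZc3] at hquot
    have hq9 : Nat.card (↥Q ⧸ Subgroup.center ↥Q) = 3 ^ 2 := by omega
    have hab := IsPGroup.commutative_of_card_eq_prime_sq hq9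
    have h1 : ((⟨x, hx⟩ * ⟨y, hy⟩ * ⟨x, hx⟩⁻¹ * ⟨y, hy⟩⁻¹ : ↥Q) : ↥Q ⧸ Subgroup.center ↥Q) = 1 := by
      rw [QuotientGroup.mk_mul, QuotientGroup.mk_mul, QuotientGroup.mk_mul, QuotientGroup.mk_inv,
        QuotientGroup.mk_inv, hab (⟨x, hx⟩ : ↥Q) (⟨y, hy⟩ : ↥Q)]
      group
    rw [QuotientGroup.eq_one_iff] at h1
    rw [hZ]
    exact ⟨_, h1, rfl⟩
  -- centralizers in `Q` of noncentral elements are proper
  have hCx_lt : ∀ x ∈ Q, x ∉ Z → Nat.card ↥(Q ⊓ Subgroup.centralizer {x}) < 27 := by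
    intro x hx hxZ
    by_contra hcon
    push Not at hcon
    have heq : Q ⊓ Subgroup.centralizer {x} = Q :=
      Subgroup.eq_of_le_of_card_ge inf_le_left (by rw [hQ]; exact hcon)
    apply hxZ
    apply hZmem' x hx
    intro y hy
    have hy' : y ∈ Q ⊓ Subgroup.centralizer {x} := by rw [heq]; exact hy
    exact (Subgroup.mem_centralizer_singleton_iff.mp (Subgroup.mem_inf.mp hy').2).symm
  -- subgroups of order 9 are abelian
  have hD_ab : ∀ D : Subgroup G, Nat.card ↥D = 9 → ∀ x ∈ D, ∀ y ∈ D, x * y = y * x := by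
    intro D hD x hx y hy
    have h9 : Nat.card ↥D = 3 ^ 2 := by rw [hD]; norm_num
    exact congrArg Subtype.val
      (IsPGroup.commutative_of_card_eq_prime_sq h9 (⟨x, hx⟩ : ↥D) (⟨y, hy⟩ : ↥D))
  -- the centralizer of a noncentral element of a subgroup of order 9 is that subgroup
  have hCT : ∀ D : Subgroup G, D ≤ Q → Nat.card ↥D = 9 → ∀ x ∈ D, x ∉ Z →
      D = Q ⊓ Subgroup.centralizer {x} := by
    intro D hDQ hD x hx hxZ
    have hle : D ≤ Q ⊓ Subgroup.centralizer {x} := by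
      intro d hd
      refine Subgroup.mem_inf.mpr ⟨hDQ hd, ?_⟩
      rw [Subgroup.mem_centralizer_singleton_iff]
      exact hD_ab D hD d hd x hx
    have hfinC : Finite ↥(Q ⊓ Subgroup.centralizer {x}) :=
      Finite.of_injective _ (Subgroup.inclusion_injective (inf_le_left : Q ⊓ Subgroup.centralizer {x} ≤ Q))
    have h1 := hCx_lt x (hDQ hx) hxZ
    have h2 : Nat.card ↥(Q ⊓ Subgroup.centralizer {x}) ∣ 27 :=
      hQ ▸ Subgroup.card_dvd_of_le inf_le_left
    have h3 : Nat.card ↥D ∣ Nat.card ↥(Q ⊓ Subgroup.centralizer {x}) := Subgroup.card_dvd_of_le hle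
    rw [hD] at h3
    have h4 : Nat.card ↥(Q ⊓ Subgroup.centralizer {x}) = 9 := by
      rcases o27_dvd h2 with h | h | h | h <;> omega
    exact Subgroup.eq_of_le_of_card_ge hle (by rw [h4, hD])
  refine ⟨Z, hZQ, hZ3, hZc, hZmem', hcomm, ?_, ?_⟩
  · intro D hDQ hD
    refine ⟨?_, hD_ab D hD⟩
    intro z hz
    by_contra hzD
    -- `A := Q ⊓ centralizer D` is all of `Q`
    have hle : D ≤ Q ⊓ Subgroup.centralizer (D : Set G) := by
      intro d hd
      refine Subgroup.mem_inf.mpr ⟨hDQ hd, ?_⟩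
      rw [Subgroup.mem_centralizer_iff]
      intro e he
      exact hD_ab D hD e he d hd
    have hzA : z ∈ Q ⊓ Subgroup.centralizer (D : Set G) := by
      refine Subgroup.mem_inf.mpr ⟨hZQ hz, ?_⟩
      rw [Subgroup.mem_centralizer_iff]
      intro e he
      exact (hZc z hz e (hDQ he)).symm
    have hfinA : Finite ↥(Q ⊓ Subgroup.centralizer (D : Set G)) :=
      Finite.of_injective _ (Subgroup.inclusion_injective
        (inf_le_left : Q ⊓ Subgroup.centralizer (D : Set G) ≤ Q))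
    have h1 := o27_card_lt hle hzA hzD
    rw [hD] at h1
    have h2 : Nat.card ↥(Q ⊓ Subgroup.centralizer (D : Set G)) ∣ 27 :=
      hQ ▸ Subgroup.card_dvd_of_le inf_le_left
    have h3 : Nat.card ↥D ∣ Nat.card ↥(Q ⊓ Subgroup.centralizer (D : Set G)) :=
      Subgroup.card_dvd_of_le hle
    rw [hD] at h3
    have h4 : Nat.card ↥(Q ⊓ Subgroup.centralizer (D : Set G)) = 27 := by
      rcases o27_dvd h2 with h | h | h | h <;> omega
    have heq : Q ⊓ Subgroup.centralizer (D : Set G) = Q :=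
      Subgroup.eq_of_le_of_card_ge inf_le_left (by rw [h4, hQ])
    have hDZ : D ≤ Z := by
      intro d hd
      apply hZmem' d (hDQ hd)
      intro y hy
      have hy' : y ∈ Q ⊓ Subgroup.centralizer (D : Set G) := by rw [heq]; exact hy
      exact Subgroup.mem_centralizer_iff.mp (Subgroup.mem_inf.mp hy').2 d hd
    have hfinZ : Finite ↥Z := Nat.finite_of_card_ne_zero (by rw [hZ3]; norm_num)
    have h5 := Subgroup.card_le_of_le hDZ
    rw [hD, hZ3] at h5
    omega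
  · intro D₁ D₂ hD₁Q hD₂Q hD₁ hD₂ hne x hx y hy hxZ hyZ hxy
    apply hne
    have e1 := hCT D₁ hD₁Q hD₁ x hx hxZ
    have hy1 : y ∈ D₁ := by
      rw [e1]
      refine Subgroup.mem_inf.mpr ⟨hD₂Q hy, ?_⟩
      rw [Subgroup.mem_centralizer_singleton_iff]
      exact hxy.symm
    have e2 := hCT D₁ hD₁Q hD₁ y hy1 hyZ
    have e3 := hCT D₂ hD₂Q hD₂ y hy hyZ
    rw [e2, e3]

end Cfsg.Agent.Helper53
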