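import Mathlib
import Cfsg.Agent.Helper9.OrdTools
import Cfsg.Agent.Helper9.OrdTools2
import Cfsg.Agent.Helper30.ConjFix
import Cfsg.Agent.S0985
import Cfsg.Agent.Helper53.O4320NA1

/-!
Helper53: PIECE NS of CALL S0977 (helper52).  In a simple group of order 4320 without proper
subgroups of index `< 9`, no Sylow 5-subgroup normalises a Sylow 3-subgroup.
-/

set_option autoImplicit false

namespace Cfsg.Agent.Helper53

variable {G : Type*} [Group G] [Finite G]

/-- a subgroup of order 9 of a subgroup of order 27 is normal in it -/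
theorem o4320_le_normalizer_of_card {D Q : Subgroup G} (hDQ : D ≤ Q) (hD : Nat.card D = 9)
    (hQ : Nat.card Q = 27) : Q ≤ Subgroup.normalizer (D : Set G) := by
  have h1 := (D.subgroupOf Q).card_mul_index
  rw [Nat.card_congr (Subgroup.subgroupOfEquivOfLe hDQ).toEquiv, hD, hQ] at h1
  have h3 : (D.subgroupOf Q).index = 3 := by omega
  have hmin : (D.subgroupOf Q).index = (Nat.card ↥Q).minFac := by
    rw [h3, hQ]; norm_num
  exact (Subgroup.normal_subgroupOf_iff_le_normalizer hDQ).mp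
    (Subgroup.normal_of_index_eq_minFac_card hmin)

/-- PIECE NS -/
theorem o4320_no_five_three [IsSimpleGroup G] (hG : Nat.card G = 4320)
    (hidx : ∀ H : Subgroup G, H ≠ ⊤ → 9 ≤ H.index)
    (P : Sylow 5 G) (Q : Sylow 3 G) :
    ¬ (P : Subgroup G) ≤ Subgroup.normalizer ((Q : Subgroup G) : Set G) := by
  intro hPN
  have hp3 : Fact (Nat.Prime 3) := ⟨Nat.prime_three⟩
  have hp5 : Fact (Nat.Prime 5) := ⟨Nat.prime_five⟩
  have hS3 : ∀ S : Sylow 3 G, Nat.card (S : Subgroup G) = 27 := fun S => by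
    have h := Cfsg.Agent.Helper9.OrdTools.sylow_card (p := 3) 3 160 (by rw [hG]; norm_num) (by norm_num) S
    rw [h]; norm_num
  have hP5 : Nat.card (P : Subgroup G) = 5 := by
    have h := Cfsg.Agent.Helper9.OrdTools.sylow_card (p := 5) 1 864 (by rw [hG]; norm_num) (by norm_num) P
    rw [h]; norm_num
  -- a generator `g` of `P`
  obtain ⟨g, hgP, hg1⟩ : ∃ g ∈ (P : Subgroup G), g ≠ 1 := by
    by_contra hcon
    push Not at hcon
    have hbot : (P : Subgroup G) = ⊥ := (Subgroup.eq_bot_iff_forall _).mpr hcon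
    rw [hbot, Subgroup.card_bot] at hP5
    omega
  have hg5 : g ^ 5 = 1 := by
    have h := pow_card_eq_one' (G := ↥(P : Subgroup G)) (x := ⟨g, hgP⟩)
    rw [hP5] at h
    simpa using congrArg Subtype.val h
  -- `g` centralises `Q`
  have hgQ : ∀ x ∈ (Q : Subgroup G), g * x = x * g := by
    have hK : ∀ k ∈ (Q : Subgroup G), g * k * g⁻¹ ∈ (Q : Subgroup G) := fun k hk =>
      (Subgroup.mem_normalizer_iff.mp (hPN hgP) k).mp hk
    have hmod := Cfsg.Agent.Helper30.card_modEq_card_inf_centralizer 5 (Q : Subgroup G) g hg5 hK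
    rw [hS3 Q] at hmod
    have hdvd : Nat.card ↥((Q : Subgroup G) ⊓ Subgroup.centralizer ({g} : Set G)) ∣ 27 :=
      hS3 Q ▸ Subgroup.card_dvd_of_le inf_le_left
    have h27 : Nat.card ↥((Q : Subgroup G) ⊓ Subgroup.centralizer ({g} : Set G)) = 27 := by
      unfold Nat.ModEq at hmod
      rcases o27_dvd hdvd with h | h | h | h <;> omega
    have heq : (Q : Subgroup G) ⊓ Subgroup.centralizer ({g} : Set G) = (Q : Subgroup G) :=
      Subgroup.eq_of_le_of_card_ge inf_le_left (by rw [h27, hS3 Q])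
    intro x hx
    have hx' : x ∈ (Q : Subgroup G) ⊓ Subgroup.centralizer ({g} : Set G) := by rw [heq]; exact hx
    exact (Subgroup.mem_centralizer_singleton_iff.mp (Subgroup.mem_inf.mp hx').2).symm
  -- the number of Sylow 3-subgroups is 16
  obtain ⟨-, hn3mod, hn3ne, hn3N⟩ := Cfsg.Agent.Helper9.OrdTools.sylow_num Q
    (by rw [hS3 Q]; norm_num) (by rw [hS3 Q, hG]; norm_num)
  rw [hG] at hn3N
  have h135 : 135 ∣ Nat.card ↥(Subgroup.normalizer ((Q : Subgroup G) : Set G)) := by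
    have h27 : 27 ∣ Nat.card ↥(Subgroup.normalizer ((Q : Subgroup G) : Set G)) :=
      hS3 Q ▸ Subgroup.card_dvd_of_le Subgroup.le_normalizer
    have h5 : 5 ∣ Nat.card ↥(Subgroup.normalizer ((Q : Subgroup G) : Set G)) :=
      hP5 ▸ Subgroup.card_dvd_of_le hPN
    exact Nat.Coprime.mul_dvd_of_dvd_of_dvd (by norm_num : Nat.Coprime 27 5) h27 h5
  have hn3 : Nat.card (Sylow 3 G) = 16 := by
    obtain ⟨m, hm⟩ := h135
    rw [hm] at hn3N
    have h32 : m * Nat.card (Sylow 3 G) = 32 := by nlinarith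
    have hle : Nat.card (Sylow 3 G) ≤ 32 := Nat.le_of_dvd (by norm_num) (Dvd.intro_left m h32)
    have hdvd : Nat.card (Sylow 3 G) ∣ 32 := Dvd.intro_left m h32
    have h4 : Nat.card (Sylow 3 G) ≠ 4 := by
      intro h4
      have hidx4 : Nat.card (Sylow 3 G) =
          (Subgroup.normalizer ((Q : Subgroup G) : Set G)).index :=
        Sylow.card_eq_index_normalizer Q
      rw [h4] at hidx4
      have hne : Subgroup.normalizer ((Q : Subgroup G) : Set G) ≠ ⊤ := by
        intro htop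
        rw [htop, Subgroup.index_top] at hidx4
        omega
      have h9 := hidx _ hne
      omega
    interval_cases hh : Nat.card (Sylow 3 G) <;> omega
  -- two Sylow 3-subgroups meeting in a subgroup of order 9
  have hnot : ¬ Nat.card (Sylow 3 G) ≡ 1 [MOD 3 ^ 2] := by
    rw [hn3]; decide
  obtain ⟨Q1, Q2, hne, hidx3⟩ := Cfsg.Agent.S0985.result 3 2 hnot
  have hD1 : (Q1 : Subgroup G) ⊓ (Q2 : Subgroup G) ≤ (Q1 : Subgroup G) := inf_le_left
  have hD2 : (Q1 : Subgroup G) ⊓ (Q2 : Subgroup G) ≤ (Q2 : Subgroup G) := inf_le_right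
  have hD9 : Nat.card ↥((Q1 : Subgroup G) ⊓ (Q2 : Subgroup G)) = 9 := by
    have hrel : ((Q1 : Subgroup G) ⊓ (Q2 : Subgroup G)).relIndex (Q1 : Subgroup G) ≤ 3 := by
      rw [inf_comm, Subgroup.inf_relIndex_right]
      exact hidx3
    have hmul := Subgroup.relIndex_mul_relIndex ⊥ ((Q1 : Subgroup G) ⊓ (Q2 : Subgroup G))
      (Q1 : Subgroup G) bot_le hD1
    rw [Subgroup.relIndex_bot_left, Subgroup.relIndex_bot_left, hS3 Q1] at hmul
    have hdvd : Nat.card ↥((Q1 : Subgroup G) ⊓ (Q2 : Subgroup G)) ∣ 27 := Dvd.intro _ hmul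
    have h27 : Nat.card ↥((Q1 : Subgroup G) ⊓ (Q2 : Subgroup G)) ≠ 27 := by
      intro h
      have heq : (Q1 : Subgroup G) ⊓ (Q2 : Subgroup G) = (Q1 : Subgroup G) :=
        Subgroup.eq_of_le_of_card_ge hD1 (by rw [h, hS3 Q1])
      have hle : (Q1 : Subgroup G) ≤ (Q2 : Subgroup G) := by rw [← heq]; exact hD2
      exact hne (Sylow.ext (Q1.3 Q2.2 hle)).symm
    rcases o27_dvd hdvd with h | h | h | h
    · rw [h] at hmul; omega
    · rw [h] at hmul; omega
    · exact h
    · exact absurd h h27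
  -- the normaliser `X` of `D`
  have hQ1X : (Q1 : Subgroup G) ≤
      Subgroup.normalizer (((Q1 : Subgroup G) ⊓ (Q2 : Subgroup G) : Subgroup G) : Set G) :=
    o4320_le_normalizer_of_card hD1 hD9 (hS3 Q1)
  have hQ2X : (Q2 : Subgroup G) ≤
      Subgroup.normalizer (((Q1 : Subgroup G) ⊓ (Q2 : Subgroup G) : Subgroup G) : Set G) :=
    o4320_le_normalizer_of_card hD2 hD9 (hS3 Q2)
  -- an element `g1` of order 5 centralising `Q1`
  obtain ⟨c, hc⟩ := MulAction.exists_smul_eq G Q Q1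
  have hmemQ1 : ∀ x : G, x ∈ (Q1 : Subgroup G) ↔ c⁻¹ * x * c ∈ (Q : Subgroup G) := by
    intro x
    rw [← hc, Sylow.coe_subgroup_smul, Subgroup.mem_pointwise_smul_iff_inv_smul_mem]
    simp [MulAut.smul_def]
  have hg1Q1 : ∀ x ∈ (Q1 : Subgroup G), (c * g * c⁻¹) * x = x * (c * g * c⁻¹) := by
    intro x hx
    have h := hgQ _ ((hmemQ1 x).mp hx)
    calc c * g * c⁻¹ * x = c * (g * (c⁻¹ * x * c)) * c⁻¹ := by group
      _ = c * ((c⁻¹ * x * c) * g) * c⁻¹ := by rw [h]
      _ = x * (c * g * c⁻¹) := by group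
  have hg1_5 : (c * g * c⁻¹) ^ 5 = 1 := by rw [conj_pow, hg5]; group
  have hg1_ne : c * g * c⁻¹ ≠ 1 := by
    intro h
    apply hg1
    have e : g = c⁻¹ * (c * g * c⁻¹) * c := by group
    rw [e, h]; group
  have hg1ord : orderOf (c * g * c⁻¹) = 5 := orderOf_eq_prime hg1_5 hg1_ne
  have hg1X : c * g * c⁻¹ ∈
      Subgroup.normalizer (((Q1 : Subgroup G) ⊓ (Q2 : Subgroup G) : Subgroup G) : Set G) := by
    rw [Subgroup.mem_normalizer_iff]
    intro h
    constructor
    · intro hh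
      have e : c * g * c⁻¹ * h * (c * g * c⁻¹)⁻¹ = h := by
        rw [hg1Q1 h (hD1 hh)]; group
      rw [e]; exact hh
    · intro hh
      have h1 := hg1Q1 _ (hD1 hh)
      have e : h = c * g * c⁻¹ * h * (c * g * c⁻¹)⁻¹ := by
        have e2 : c * g * c⁻¹ * (c * g * c⁻¹ * h * (c * g * c⁻¹)⁻¹) =
            c * g * c⁻¹ * h * (c * g * c⁻¹)⁻¹ * (c * g * c⁻¹) := h1
        have e3 : c * g * c⁻¹ * h * (c * g * c⁻¹)⁻¹ * (c * g * c⁻¹) = c * g * c⁻¹ * h := by group
        rw [e3] at e2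
        exact (mul_left_cancel e2).symm
      rw [e]; exact hh
  -- the order of `X`
  obtain ⟨X, hX⟩ : ∃ X : Subgroup G, X =
      Subgroup.normalizer (((Q1 : Subgroup G) ⊓ (Q2 : Subgroup G) : Subgroup G) : Set G) := ⟨_, rfl⟩
  rw [← hX] at hQ1X hQ2X hg1X
  have hXtop : X ≠ ⊤ := by
    intro htop
    have hnorm : ((Q1 : Subgroup G) ⊓ (Q2 : Subgroup G)).Normal := by
      rw [← Subgroup.normalizer_eq_top_iff, ← hX, htop]
    rcases hnorm.eq_bot_or_eq_top with h | h
    · rw [h, Subgroup.card_bot] at hD9; omega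
    · rw [h, Subgroup.card_top, hG] at hD9; omega
  have hXidx := hidx X hXtop
  have hXmul := X.card_mul_index
  rw [hG] at hXmul
  have hX135 : 135 ∣ Nat.card ↥X := by
    have h27 : 27 ∣ Nat.card ↥X := hS3 Q1 ▸ Subgroup.card_dvd_of_le hQ1X
    have h5 : 5 ∣ Nat.card ↥X := by
      have h := orderOf_dvd_natCard (⟨c * g * c⁻¹, hg1X⟩ : ↥X)
      rwa [Subgroup.orderOf_mk, hg1ord] at h
    exact Nat.Coprime.mul_dvd_of_dvd_of_dvd (by norm_num : Nat.Coprime 27 5) h27 h5
  have hXcard : Nat.card ↥X = 135 ∨ Nat.card ↥X = 270 := by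
    obtain ⟨m, hm⟩ := hX135
    rw [hm] at hXmul ⊢
    have h32 : m * X.index = 32 := by nlinarith
    have hm3 : m ≤ 3 := by nlinarith
    have hm0 : 0 < m := by
      rcases Nat.eq_zero_or_pos m with h | h
      · rw [h] at h32; omega
      · exact h
    have hmdvd : m ∣ 32 := Dvd.intro _ h32
    interval_cases m <;> omega
  -- Sylow 3-subgroups of `X`
  have hfinX : Finite ↥X := inferInstance
  have hmodX := card_sylow_modEq_one 3 ↥X
  have hidxX : Nat.card (Sylow 3 ↥X) =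
      (Subgroup.normalizer ((Q1.subtype hQ1X : Subgroup ↥X) : Set ↥X)).index :=
    Sylow.card_eq_index_normalizer (Q1.subtype hQ1X)
  have hNmul := (Subgroup.normalizer ((Q1.subtype hQ1X : Subgroup ↥X) : Set ↥X)).card_mul_index
  have hN135 : 135 ∣ Nat.card ↥(Subgroup.normalizer ((Q1.subtype hQ1X : Subgroup ↥X) : Set ↥X)) := by
    have h27 : 27 ∣ Nat.card ↥(Subgroup.normalizer ((Q1.subtype hQ1X : Subgroup ↥X) : Set ↥X)) := by
      have h := Subgroup.card_dvd_of_le (Subgroup.le_normalizer (H := (Q1.subtype hQ1X : Subgroup ↥X)))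
      rw [Sylow.coe_subtype, Nat.card_congr (Subgroup.subgroupOfEquivOfLe hQ1X).toEquiv, hS3 Q1] at h
      exact h
    have h5 : 5 ∣ Nat.card ↥(Subgroup.normalizer ((Q1.subtype hQ1X : Subgroup ↥X) : Set ↥X)) := by
      have hmem : (⟨c * g * c⁻¹, hg1X⟩ : ↥X) ∈
          Subgroup.normalizer ((Q1.subtype hQ1X : Subgroup ↥X) : Set ↥X) := by
        rw [Subgroup.mem_normalizer_iff]
        intro h
        rw [Sylow.coe_subtype, Subgroup.mem_subgroupOf, Subgroup.mem_subgroupOf]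
        have hcoe : (((⟨c * g * c⁻¹, hg1X⟩ : ↥X) * h * (⟨c * g * c⁻¹, hg1X⟩ : ↥X)⁻¹ : ↥X) : G) =
            c * g * c⁻¹ * (h : G) * (c * g * c⁻¹)⁻¹ := rfl
        rw [hcoe]
        constructor
        · intro hh
          have e : c * g * c⁻¹ * (h : G) * (c * g * c⁻¹)⁻¹ = (h : G) := by
            rw [hg1Q1 _ hh]; group
          rw [e]; exact hh
        · intro hh
          have h1 := hg1Q1 _ hh
          have e : (h : G) = c * g * c⁻¹ * (h : G) * (c * g * c⁻¹)⁻¹ := by
            have e2 : c * g * c⁻¹ * (c * g * c⁻¹ * (h : G) * (c * g * c⁻¹)⁻¹) =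
                c * g * c⁻¹ * (h : G) * (c * g * c⁻¹)⁻¹ * (c * g * c⁻¹) := h1
            have e3 : c * g * c⁻¹ * (h : G) * (c * g * c⁻¹)⁻¹ * (c * g * c⁻¹) =
                c * g * c⁻¹ * (h : G) := by group
            rw [e3] at e2
            exact (mul_left_cancel e2).symm
          rw [e]; exact hh
      have h := orderOf_dvd_natCard (⟨_, hmem⟩ :
        ↥(Subgroup.normalizer ((Q1.subtype hQ1X : Subgroup ↥X) : Set ↥X)))
      rwa [Subgroup.orderOf_mk, Subgroup.orderOf_mk, hg1ord] at h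
    exact Nat.Coprime.mul_dvd_of_dvd_of_dvd (by norm_num : Nat.Coprime 27 5) h27 h5
  have hone : Nat.card (Sylow 3 ↥X) = 1 := by
    rw [hidxX] at hmodX ⊢
    obtain ⟨m, hm⟩ := hN135
    rw [hm] at hNmul
    unfold Nat.ModEq at hmodX
    rcases hXcard with h | h
    · rw [h] at hNmul
      have h1 : m * (Subgroup.normalizer ((Q1.subtype hQ1X : Subgroup ↥X) : Set ↥X)).index = 1 := by
        nlinarith
      exact Nat.eq_one_of_mul_eq_one_left h1
    · rw [h] at hNmul
      have h2 : m * (Subgroup.normalizer ((Q1.subtype hQ1X : Subgroup ↥X) : Set ↥X)).index = 2 := by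
        nlinarith
      have hdvd : (Subgroup.normalizer ((Q1.subtype hQ1X : Subgroup ↥X) : Set ↥X)).index ∣ 2 :=
        Dvd.intro_left m h2
      rcases (Nat.dvd_prime Nat.prime_two).mp hdvd with h3 | h3
      · exact h3
      · rw [h3] at hmodX; omega
  have hsub : Subsingleton (Sylow 3 ↥X) := (Nat.card_eq_one_iff_unique.mp hone).1
  exact hne (Sylow.subtype_injective (hsub.elim (Q1.subtype hQ1X) (Q2.subtype hQ2X)))

end Cfsg.Agent.Helper53
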