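import Mathlib
import Cfsg.Agent.Helper9.OrdTools

/-!
Helper53: PIECE ST of CALL S0977 (helper52).  In a simple group of order 4320 acting on the 10
cosets of a subgroup `M` of index 10, 2-transitively with two-point stabilisers of order 48 and
without elements fixing exactly 7 points, a two-point stabiliser has no normal subgroup of order 3
(its normaliser would have order `12 * 48 = 576`, which does not divide 4320).
-/

set_option autoImplicit false

namespace Cfsg.Agent.Helper53

variable {G : Type*} [Group G] [Finite G]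

/-- if `g⁻¹ T g ⊆ T` for a finite subgroup `T` then `g` normalises `T` -/
theorem o4320_mem_normalizer_of_conj {T : Subgroup G} {g : G}
    (h : ∀ t ∈ T, g⁻¹ * t * g ∈ T) : g ∈ Subgroup.normalizer (T : Set G) := by
  have hle : T.map (MulAut.conj g⁻¹ : G →* G) ≤ T := by
    rintro x ⟨t, ht, rfl⟩
    have e : (MulAut.conj g⁻¹ : G →* G) t = g⁻¹ * t * g := by simp
    rw [e]; exact h t ht
  have hcard : Nat.card ↥(T.map (MulAut.conj g⁻¹ : G →* G)) = Nat.card T :=
    Subgroup.card_map_of_injective (MulAut.conj g⁻¹).injective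
  have heq : T.map (MulAut.conj g⁻¹ : G →* G) = T :=
    Subgroup.eq_of_le_of_card_ge hle (by rw [hcard])
  have hinv : g⁻¹ ∈ Subgroup.normalizer (T : Set G) :=
    Subgroup.mem_normalizer_iff_map_conj_eq.mpr heq
  simpa using Subgroup.inv_mem _ hinv

/-- PIECE ST -/
theorem o4320_steiner [IsSimpleGroup G] (hG : Nat.card G = 4320)
    (M : Subgroup G) (hM : M.index = 10)
    (hnc : ∀ g : G, Nat.card (MulAction.fixedBy (G ⧸ M) g) ≠ 7)
    (h2t : ∀ a b c d : G ⧸ M, a ≠ b → c ≠ d → ∃ g : G, g • a = c ∧ g • b = d)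
    (h48 : ∀ a b : G ⧸ M, a ≠ b →
      Nat.card ↥(MulAction.stabilizer G a ⊓ MulAction.stabilizer G b) = 48)
    (a b : G ⧸ M) (hab : a ≠ b) (T : Subgroup G)
    (hT : T ≤ MulAction.stabilizer G a ⊓ MulAction.stabilizer G b) (hT3 : Nat.card ↥T = 3)
    (hTn : ∀ g ∈ MulAction.stabilizer G a ⊓ MulAction.stabilizer G b, ∀ t ∈ T,
      g * t * g⁻¹ ∈ T) : False := by
  classical
  have hp3 : Fact (Nat.Prime 3) := ⟨Nat.prime_three⟩
  have hMtop : M ≠ ⊤ := by
    rintro rfl
    rw [Subgroup.index_top] at hM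
    omega
  have hinj := Cfsg.Agent.Helper9.OrdTools.toPermHom_injective M hMtop
  have hfaith : ∀ g : G, (∀ w : G ⧸ M, g • w = w) → g = 1 := by
    intro g hg
    apply hinj
    ext w
    simp [hg w]
  have hΩ : Nat.card (G ⧸ M) = 10 := by rw [← Subgroup.index_eq_card, hM]
  have hTp : IsPGroup 3 ↥T := IsPGroup.of_card (n := 1) (by rw [hT3]; norm_num)
  have hmemGab : ∀ x : G, x ∈ MulAction.stabilizer G a ⊓ MulAction.stabilizer G b ↔
      x • a = a ∧ x • b = b := by
    intro x
    rw [Subgroup.mem_inf, MulAction.mem_stabilizer_iff, MulAction.mem_stabilizer_iff]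
  -- the two-point stabiliser normalises `T`
  have hGabN : MulAction.stabilizer G a ⊓ MulAction.stabilizer G b ≤
      Subgroup.normalizer (T : Set G) := by
    intro x hx
    apply o4320_mem_normalizer_of_conj
    intro t ht
    have h1 := hTn x⁻¹ (Subgroup.inv_mem _ hx) t ht
    rwa [inv_inv] at h1
  -- L1: elements of order dividing 3 of the two-point stabiliser lie in `T`
  have hL1 : ∀ x ∈ MulAction.stabilizer G a ⊓ MulAction.stabilizer G b, x ^ 3 = 1 → x ∈ T := by
    intro x hx hx3
    have hXp : IsPGroup 3 ↥(Subgroup.zpowers x) := by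
      have hdvd : orderOf x ∣ 3 := orderOf_dvd_of_pow_eq_one hx3
      rcases (Nat.dvd_prime Nat.prime_three).mp hdvd with h | h
      · exact IsPGroup.of_card (n := 0) (by rw [Nat.card_zpowers, h]; norm_num)
      · exact IsPGroup.of_card (n := 1) (by rw [Nat.card_zpowers, h]; norm_num)
    have hXN : Subgroup.zpowers x ≤ Subgroup.normalizer (T : Set G) :=
      Subgroup.zpowers_le.mpr (hGabN hx)
    have hsup : IsPGroup 3 ↥(Subgroup.zpowers x ⊔ T) := IsPGroup.to_sup_of_normal_right' hXp hTp hXN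
    have hle : Subgroup.zpowers x ⊔ T ≤ MulAction.stabilizer G a ⊓ MulAction.stabilizer G b :=
      sup_le (Subgroup.zpowers_le.mpr hx) hT
    obtain ⟨n, hn⟩ := IsPGroup.iff_card.mp hsup
    have hdvd : Nat.card ↥(Subgroup.zpowers x ⊔ T) ∣ 48 := h48 a b hab ▸ Subgroup.card_dvd_of_le hle
    have hTle : T ≤ Subgroup.zpowers x ⊔ T := le_sup_right
    have h3dvd : Nat.card ↥T ∣ Nat.card ↥(Subgroup.zpowers x ⊔ T) := Subgroup.card_dvd_of_le hTle
    rw [hT3] at h3dvd
    have hcard : Nat.card ↥(Subgroup.zpowers x ⊔ T) = 3 := by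
      rw [hn] at hdvd h3dvd ⊢
      rcases n with _ | _ | n
      · norm_num at h3dvd
      · norm_num
      · exfalso
        have h9 : 9 ∣ 48 := (Dvd.intro_left (3 ^ n) (by ring) : 9 ∣ 3 ^ (n + 1 + 1)).trans hdvd
        omega
    have heq : T = Subgroup.zpowers x ⊔ T := Subgroup.eq_of_le_of_card_ge hTle (by rw [hcard, hT3])
    rw [heq]
    exact (le_sup_left : Subgroup.zpowers x ≤ Subgroup.zpowers x ⊔ T) (Subgroup.mem_zpowers x)
  -- the fixed points of `T`
  have hmemB : ∀ w : G ⧸ M, w ∈ MulAction.fixedPoints ↥T (G ⧸ M) ↔ ∀ t ∈ T, t • w = w := by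
    intro w
    rw [MulAction.mem_fixedPoints]
    exact ⟨fun h t ht => h ⟨t, ht⟩, fun h t => h t.1 t.2⟩
  have haB : a ∈ MulAction.fixedPoints ↥T (G ⧸ M) :=
    (hmemB a).mpr fun t ht => ((hmemGab t).mp (hT ht)).1
  have hbB : b ∈ MulAction.fixedPoints ↥T (G ⧸ M) :=
    (hmemB b).mpr fun t ht => ((hmemGab t).mp (hT ht)).2
  have hB4 : (MulAction.fixedPoints ↥T (G ⧸ M)).ncard = 4 := by
    have hmod := hTp.card_modEq_card_fixedPoints (G ⧸ M)
    rw [hΩ, Nat.card_coe_set_eq] at hmod
    have hle : (MulAction.fixedPoints ↥T (G ⧸ M)).ncard ≤ 10 := by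
      have h := Set.ncard_le_card (MulAction.fixedPoints ↥T (G ⧸ M))
      rw [hΩ] at h
      exact h
    have h2 : 2 ≤ (MulAction.fixedPoints ↥T (G ⧸ M)).ncard := by
      have hsub : ({a, b} : Set (G ⧸ M)) ⊆ MulAction.fixedPoints ↥T (G ⧸ M) := by
        intro w hw
        rcases hw with rfl | rfl
        · exact haB
        · exact hbB
      have h := Set.ncard_le_ncard hsub (Set.toFinite _)
      rw [Set.ncard_pair hab] at h
      exact h
    -- a generator of `T`
    obtain ⟨t, htT, ht1⟩ : ∃ t ∈ T, t ≠ 1 := by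
      by_contra hcon
      push Not at hcon
      have hbot : T = ⊥ := (Subgroup.eq_bot_iff_forall T).mpr hcon
      rw [hbot, Subgroup.card_bot] at hT3
      omega
    have hgen : ∀ t' ∈ T, t' ∈ Subgroup.zpowers t := by
      intro t' ht'
      have hne : (⟨t, htT⟩ : ↥T) ≠ 1 := fun h => ht1 (congrArg Subtype.val h)
      have h := mem_zpowers_of_prime_card (p := 3) hT3 (g := (⟨t, htT⟩ : ↥T)) (g' := ⟨t', ht'⟩) hne
      obtain ⟨k, hk⟩ := Subgroup.mem_zpowers_iff.mp h
      exact Subgroup.mem_zpowers_iff.mpr ⟨k, by simpa using congrArg Subtype.val hk⟩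
    have hfixeq : MulAction.fixedBy (G ⧸ M) t = MulAction.fixedPoints ↥T (G ⧸ M) := by
      ext w
      rw [MulAction.mem_fixedBy, hmemB]
      constructor
      · intro hw t' ht'
        obtain ⟨k, rfl⟩ := Subgroup.mem_zpowers_iff.mp (hgen t' ht')
        have hst : t ∈ MulAction.stabilizer G w := MulAction.mem_stabilizer_iff.mpr hw
        exact MulAction.mem_stabilizer_iff.mp (Subgroup.zpow_mem _ hst k)
      · intro hw
        exact hw t htT
    have h7 : (MulAction.fixedPoints ↥T (G ⧸ M)).ncard ≠ 7 := by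
      rw [← hfixeq, ← Nat.card_coe_set_eq]
      exact hnc t
    have h10 : (MulAction.fixedPoints ↥T (G ⧸ M)).ncard ≠ 10 := by
      intro h
      apply ht1
      apply hfaith
      intro w
      have huniv : MulAction.fixedPoints ↥T (G ⧸ M) = Set.univ := by
        rw [Set.eq_univ_iff_ncard, h, hΩ]
      have hw : w ∈ MulAction.fixedPoints ↥T (G ⧸ M) := by rw [huniv]; trivial
      exact (hmemB w).mp hw t htT
    unfold Nat.ModEq at hmod
    omega
  -- L3: membership in the normaliser of `T`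
  have hNmem : ∀ g : G, g ∈ Subgroup.normalizer (T : Set G) ↔
      (g • a ∈ MulAction.fixedPoints ↥T (G ⧸ M) ∧ g • b ∈ MulAction.fixedPoints ↥T (G ⧸ M)) := by
    intro g
    constructor
    · intro hg
      have hfix : ∀ w ∈ MulAction.fixedPoints ↥T (G ⧸ M),
          g • w ∈ MulAction.fixedPoints ↥T (G ⧸ M) := by
        intro w hw
        rw [hmemB] at hw ⊢
        intro t ht
        have h1 : g⁻¹ * t * g ∈ T := by
          have h2 := (Subgroup.mem_normalizer_iff.mp (Subgroup.inv_mem _ hg) t).mp ht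
          rwa [inv_inv] at h2
        have h3 := hw _ h1
        calc t • g • w = g • (g⁻¹ * t * g) • w := by simp [mul_smul]
          _ = g • w := by rw [h3]
      exact ⟨hfix a haB, hfix b hbB⟩
    · rintro ⟨hga, hgb⟩
      apply o4320_mem_normalizer_of_conj
      intro t ht
      apply hL1
      · rw [hmemGab]
        rw [hmemB] at hga hgb
        constructor
        · rw [mul_smul, mul_smul, hga t ht, inv_smul_smul]
        · rw [mul_smul, mul_smul, hgb t ht, inv_smul_smul]
      · have ht3 : t ^ 3 = 1 := by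
          have h := pow_card_eq_one' (G := ↥T) (x := ⟨t, ht⟩)
          rw [hT3] at h
          simpa using congrArg Subtype.val h
        have e : (g⁻¹ * t * g) ^ 3 = g⁻¹ * t ^ 3 * g := by
          rw [pow_three, pow_three]; group
        rw [e, ht3]; group
  -- the orbit of `(a, b)` under the normaliser
  obtain ⟨F, hF⟩ : ∃ F : Finset (G ⧸ M), ∀ w, w ∈ F ↔ w ∈ MulAction.fixedPoints ↥T (G ⧸ M) :=
    ⟨(Set.toFinite (MulAction.fixedPoints ↥T (G ⧸ M))).toFinset, fun w => Set.Finite.mem_toFinset _⟩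
  have hFcard : F.card = 4 := by
    rw [← hB4, ← Set.ncard_coe_finset]
    congr 1
    ext w
    exact hF w
  have horbit : MulAction.orbit ↥(Subgroup.normalizer (T : Set G)) ((a, b) : (G ⧸ M) × (G ⧸ M)) =
      ↑(F.offDiag) := by
    ext p
    rw [Finset.mem_coe, Finset.mem_offDiag, hF, hF]
    constructor
    · rintro ⟨n, rfl⟩
      have hn := (hNmem n.1).mp n.2
      refine ⟨hn.1, hn.2, ?_⟩
      intro h
      exact hab (MulAction.injective n.1 h)
    · rintro ⟨h1, h2, h3⟩
      obtain ⟨g, hga, hgb⟩ := h2t a b p.1 p.2 hab h3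
      refine ⟨⟨g, (hNmem g).mpr ⟨by rw [hga]; exact h1, by rw [hgb]; exact h2⟩⟩, ?_⟩
      exact Prod.ext hga hgb
  have hidx : (MulAction.stabilizer ↥(Subgroup.normalizer (T : Set G))
      ((a, b) : (G ⧸ M) × (G ⧸ M))).index =
      (MulAction.orbit ↥(Subgroup.normalizer (T : Set G))
        ((a, b) : (G ⧸ M) × (G ⧸ M))).ncard := MulAction.index_stabilizer _ _
  rw [horbit, Set.ncard_coe_finset, Finset.offDiag_card, hFcard] at hidx
  have hstab : MulAction.stabilizer ↥(Subgroup.normalizer (T : Set G))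
      ((a, b) : (G ⧸ M) × (G ⧸ M)) =
      (MulAction.stabilizer G a ⊓ MulAction.stabilizer G b).subgroupOf
        (Subgroup.normalizer (T : Set G)) := by
    ext n
    rw [MulAction.mem_stabilizer_iff, Subgroup.mem_subgroupOf, hmemGab]
    constructor
    · intro h
      exact ⟨congrArg Prod.fst h, congrArg Prod.snd h⟩
    · rintro ⟨h1, h2⟩
      exact Prod.ext h1 h2
  have hstabcard : Nat.card ↥(MulAction.stabilizer ↥(Subgroup.normalizer (T : Set G))
      ((a, b) : (G ⧸ M) × (G ⧸ M))) = 48 := by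
    rw [hstab, Nat.card_congr (Subgroup.subgroupOfEquivOfLe hGabN).toEquiv]
    exact h48 a b hab
  have hmul := Subgroup.card_mul_index (MulAction.stabilizer ↥(Subgroup.normalizer (T : Set G))
      ((a, b) : (G ⧸ M) × (G ⧸ M)))
  rw [hstabcard, hidx] at hmul
  have hdvd : Nat.card ↥(Subgroup.normalizer (T : Set G)) ∣ Nat.card G :=
    Subgroup.card_subgroup_dvd_card _
  rw [← hmul, hG] at hdvd
  omega

end Cfsg.Agent.Helper53
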