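import Mathlib
import Cfsg.Agent.Helper9.OrdTools

/-!
# CALL S0983 part E (helper82), PIECE ES (helper53): Sylow arithmetic in a simple group.
-/

set_option autoImplicit false

namespace Cfsg.Agent.Helper53

open Cfsg.Agent.Helper9

variable {G : Type*} [Group G] [Finite G] [IsSimpleGroup G]

/-- piece ES -/
theorem eng_syl (hG : ¬ IsMulCommutative G) (p a m : ℕ) (hp : p.Prime)
    (hcard : Nat.card G = p ^ a * m) (hpm : ¬ p ∣ m) (ha : 0 < a) (hm : 1 < m)
    (h24 : 24 < Nat.card G) :
    Nat.card (Sylow p G) ∣ m ∧ Nat.card (Sylow p G) % p = 1 ∧ Nat.card (Sylow p G) ≠ 1 ∧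
      2 * Nat.card G ∣ (Nat.card (Sylow p G)).factorial := by
  have : Fact p.Prime := ⟨hp⟩
  obtain ⟨P⟩ : Nonempty (Sylow p G) := inferInstance
  have hPc : Nat.card (P : Subgroup G) = p ^ a := OrdTools.sylow_card a m hcard hpm P
  have h1 : 1 < Nat.card (P : Subgroup G) := by
    rw [hPc]; exact Nat.one_lt_pow ha.ne' hp.one_lt
  have hpa : 0 < p ^ a := pow_pos hp.pos a
  have h2 : Nat.card (P : Subgroup G) < Nat.card G := by
    rw [hPc, hcard]; nlinarith
  obtain ⟨hd, hmod, hne, -⟩ := OrdTools.sylow_num P h1 h2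
  have hidx : (P : Subgroup G).index = m := by
    have h3 := (P : Subgroup G).card_mul_index
    rw [hPc, hcard] at h3
    exact Nat.eq_of_mul_eq_mul_left hpa h3
  rw [hidx] at hd
  refine ⟨hd, hmod, hne, ?_⟩
  have hNidx : (Subgroup.normalizer ((P : Subgroup G) : Set G)).index = Nat.card (Sylow p G) :=
    (Sylow.card_eq_index_normalizer P).symm
  have hna : ∃ a b : G, a * b ≠ b * a := by
    by_contra hcon
    push Not at hcon
    exact hG ⟨⟨hcon⟩⟩
  have hNtop : Subgroup.normalizer ((P : Subgroup G) : Set G) ≠ ⊤ := by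
    intro h
    rw [h, Subgroup.index_top] at hNidx
    exact hne hNidx.symm
  have hfac : Nat.card G ∣ (Nat.card (Sylow p G)).factorial := by
    have h3 := OrdTools.card_dvd_factorial_index _ hNtop
    rwa [hNidx] at h3
  have h5 : 5 ≤ Nat.card (Sylow p G) := by
    by_contra hlt
    push Not at hlt
    have hle : (Nat.card (Sylow p G)).factorial ≤ Nat.factorial 4 := Nat.factorial_le (by omega)
    have hpos : 0 < (Nat.card (Sylow p G)).factorial := Nat.factorial_pos _
    have h3 := Nat.le_of_dvd hpos hfac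
    have h4 : Nat.factorial 4 = 24 := rfl
    omega
  obtain ⟨k, hk, -⟩ := OrdTools.alt_index hna (Subgroup.normalizer ((P : Subgroup G) : Set G))
    (by rw [hNidx]; exact h5)
  rw [hNidx] at hk
  exact ⟨k, by rw [← hk]; ring⟩

end Cfsg.Agent.Helper53
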