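import Mathlib
import Cfsg.Agent.Helper5.SL2Sylow
import Cfsg.Agent.Helper5.SLCard
import Cfsg.Agent.Helper87.S2788Defs
import Cfsg.Agent.S2904
import Cfsg.Agent.Helper37.S2788O
import Cfsg.Agent.Helper41.S2788K

/-!
# CALL S2788, PIECE MC (helper53): `|M₋| ≥ p^(2n)` for a faithful `SL₂(pⁿ)`-module, `p` odd.
-/

set_option autoImplicit false

namespace Cfsg.Agent.Helper53

open Cfsg.Agent Cfsg.Agent.Helper87

/-- the `(-1)`-eigenspace of the central involution as an additive subgroup -/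
def s2788Minus (F : Type*) [Field F] (M : Type*) [AddCommGroup M]
    [DistribMulAction (Matrix.SpecialLinearGroup (Fin 2) F) M] : AddSubgroup M where
  carrier := {m | negOneSL F • m = -m}
  zero_mem' := by simp
  add_mem' := by
    intro a b ha hb
    have ha' : negOneSL F • a = -a := ha
    have hb' : negOneSL F • b = -b := hb
    show negOneSL F • (a + b) = -(a + b)
    rw [smul_add, ha', hb', neg_add]
  neg_mem' := by
    intro a ha
    have ha' : negOneSL F • a = -a := ha
    show negOneSL F • (-a) = -(-a)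
    rw [smul_neg, ha']

/-- PIECE MC -/
theorem s2788_minus_card {F : Type*} [Field F] [Fintype F] {p : ℕ} [Fact p.Prime] [CharP F p]
    (hp2 : p ≠ 2) (n : ℕ) (hn : 2 ≤ n) (hF : Fintype.card F = p ^ n)
    {M : Type*} [AddCommGroup M] [Finite M]
    [DistribMulAction (Matrix.SpecialLinearGroup (Fin 2) F) M]
    (hp : ∀ m : M, p • m = 0)
    (hfaith : ∀ g : Matrix.SpecialLinearGroup (Fin 2) F, (∀ m : M, g • m = m) → g = 1) :
    p ^ (2 * n) ≤ Nat.card {m : M // negOneSL F • m = -m} := by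
  classical
  have hpp : p.Prime := Fact.out
  have hp3 : 3 ≤ p := by
    have := hpp.two_le
    omega
  have hpodd : Odd p := hpp.odd_of_ne_two hp2
  -- Zsigmondy
  obtain ⟨r, hr, hrd, hrprim⟩ := Cfsg.Agent.S2904.result p (2 * n) hpp.one_lt (by omega)
    (by rintro ⟨h, -⟩; exact hp2 h) (by rintro ⟨h, -⟩; omega)
  have hr2 : r ≠ 2 := by
    rintro rfl
    apply hrprim 1 (by norm_num) (by omega)
    rw [pow_one]
    obtain ⟨j, hj⟩ := hpodd
    exact ⟨j, by omega⟩
  have hrp : r ≠ p := by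
    rintro rfl
    have h1 : r ∣ r ^ (2 * n) := dvd_pow_self r (by omega)
    have hpos : 1 ≤ r ^ (2 * n) := Nat.one_le_pow _ _ hpp.pos
    have h2 : r ∣ 1 := by
      have := Nat.dvd_sub h1 hrd
      rwa [Nat.sub_sub_self hpos] at this
    exact hpp.one_lt.ne' (Nat.dvd_one.mp h2)
  -- an element of order `r`
  have hcard : r ∣ Nat.card (Matrix.SpecialLinearGroup (Fin 2) F) := by
    rw [Cfsg.Agent.Helper5.card_SL2, hF]
    have : (p ^ n) ^ 2 = p ^ (2 * n) := by rw [← pow_mul, mul_comm]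
    rw [this]
    exact Dvd.dvd.mul_left hrd _
  have : Fact r.Prime := ⟨hr⟩
  obtain ⟨g, hg⟩ := exists_prime_orderOf_dvd_card' r hcard
  have hgr : g ^ r = 1 := by rw [← hg]; exact pow_orderOf_eq_one g
  -- `g` is not central
  have hgc : g ∉ Subgroup.center (Matrix.SpecialLinearGroup (Fin 2) F) := by
    intro hc
    rw [Matrix.SpecialLinearGroup.mem_center_iff] at hc
    obtain ⟨c, hc2, hcg⟩ := hc
    have hc2' : c ^ 2 = 1 := by simpa using hc2
    have hg2 : g ^ 2 = 1 := by
      apply Subtype.ext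
      rw [Matrix.SpecialLinearGroup.coe_pow, ← hcg, Matrix.SpecialLinearGroup.coe_one,
        ← map_pow, hc2', map_one]
    have h2 : r ∣ 2 := by rw [← hg]; exact orderOf_dvd_of_pow_eq_one hg2
    exact hr2 ((Nat.prime_dvd_prime_iff_eq hr Nat.prime_two).mp h2)
  -- `-1 ≠ 1` in `SL₂(F)`
  have h11 : negOneSL F ≠ 1 := by
    intro h
    have h00 : ((negOneSL F : Matrix.SpecialLinearGroup (Fin 2) F) :
        Matrix (Fin 2) (Fin 2) F) 0 0 =
        ((1 : Matrix.SpecialLinearGroup (Fin 2) F) : Matrix (Fin 2) (Fin 2) F) 0 0 := by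
      rw [h]
    rw [negOneSL_coe, Matrix.SpecialLinearGroup.coe_one] at h00
    simp at h00
    have h2F : ((2 : ℕ) : F) = 0 := by
      push_cast
      have : (1 : F) + 1 = 0 := by
        nth_rewrite 1 [← h00]
        ring
      rw [← this]; norm_num
    have hd : p ∣ 2 := (CharP.cast_eq_zero_iff F p 2).mp h2F
    exact hp2 ((Nat.prime_dvd_prime_iff_eq hpp Nat.prime_two).mp hd)
  -- no 2-torsion
  have h2tor : ∀ m : M, m + m = 0 → m = 0 := by
    intro m hm
    obtain ⟨j, hj⟩ := hpodd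
    have h := hp m
    rw [hj, add_smul, one_smul, mul_comm, mul_smul, two_smul, hm, smul_zero, zero_add] at h
    exact h
  have hF4 : 4 ≤ Fintype.card F := by
    rw [hF]
    calc 4 ≤ 3 ^ 2 := by norm_num
      _ ≤ 3 ^ n := Nat.pow_le_pow_right (by norm_num) hn
      _ ≤ p ^ n := Nat.pow_le_pow_left hp3 n
  obtain ⟨m0, hm0z, hm0g⟩ := Cfsg.Agent.Helper41.s2788_faithful_minus hF4 h2tor hfaith h11 g hgc
  -- orbit counting on `M₋`
  have hN : ∀ m ∈ s2788Minus F M, g • m ∈ s2788Minus F M := by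
    intro m hm
    have hm' : negOneSL F • m = -m := hm
    show negOneSL F • (g • m) = -(g • m)
    rw [← mul_smul, negOneSL_comm, mul_smul, hm', smul_neg]
  obtain ⟨j, hjcard, hjdvd⟩ := Cfsg.Agent.Helper37.s2788_orbit p hp (s2788Minus F M) g hN r 1 hr hrp one_pos
    (by rw [pow_one]; exact hgr)
  simp only [Nat.sub_self, pow_zero, pow_one] at hjcard hjdvd
  -- `j ≠ 0`
  have hj0 : j ≠ 0 := by
    rintro rfl
    rw [pow_zero, one_mul] at hjcard
    let f : {m : M // m ∈ s2788Minus F M ∧ g • m = m} → ↥(s2788Minus F M) :=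
      fun x => ⟨x.1, x.2.1⟩
    have hf : Function.Injective f := by
      intro x y hxy
      apply Subtype.ext
      exact congrArg (fun z : ↥(s2788Minus F M) => (z : M)) hxy
    have hbij := hf.bijective_of_nat_card_le (le_of_eq hjcard)
    obtain ⟨x, hx⟩ := hbij.2 ⟨m0, hm0z⟩
    have hx1 : x.1 = m0 := congrArg (fun z : ↥(s2788Minus F M) => (z : M)) hx
    exact hm0g (hx1 ▸ x.2.2)
  have hj2n : 2 * n ≤ j := by
    by_contra hlt
    exact hrprim j (Nat.pos_of_ne_zero hj0) (by omega) hjdvd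
  have hfix : 1 ≤ Nat.card {m : M // m ∈ s2788Minus F M ∧ g • m = m} := by
    have : Nonempty {m : M // m ∈ s2788Minus F M ∧ g • m = m} :=
      ⟨⟨0, (s2788Minus F M).zero_mem, smul_zero g⟩⟩
    exact Nat.card_pos
  have hcardN : Nat.card ↥(s2788Minus F M) = Nat.card {m : M // negOneSL F • m = -m} := rfl
  rw [← hcardN, hjcard]
  calc p ^ (2 * n) ≤ p ^ j := Nat.pow_le_pow_right hpp.pos hj2n
    _ = p ^ j * 1 := (mul_one _).symm
    _ ≤ p ^ j * Nat.card {m : M // m ∈ s2788Minus F M ∧ g • m = m} :=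
      Nat.mul_le_mul_left _ hfix

end Cfsg.Agent.Helper53
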