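import Cfsg.Agent.Helper39.SL2Odd

set_option autoImplicit false

/-!
Involutions and square roots of the central involution in `SL₂(F)`, `F` a finite field of odd order,
and subgroups isomorphic to such an `SL₂(F)`.
-/

namespace Cfsg.Agent.Helper53

open Matrix Cfsg.Agent.Helper39

/-- Elements of the join of two elementwise commuting subgroups are products. -/
theorem exists_mul_of_mem_sup_of_commute {G : Type*} [Group G] (L₁ L₂ : Subgroup G)
    (hc : ∀ x ∈ L₁, ∀ y ∈ L₂, x * y = y * x) {y : G} (hy : y ∈ L₁ ⊔ L₂) :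
    ∃ a ∈ L₁, ∃ b ∈ L₂, y = a * b := by
  rw [Subgroup.sup_eq_closure] at hy
  induction hy using Subgroup.closure_induction with
  | mem x hx =>
    rcases hx with h | h
    · exact ⟨x, h, 1, L₂.one_mem, (mul_one x).symm⟩
    · exact ⟨1, L₁.one_mem, x, h, (one_mul x).symm⟩
  | one => exact ⟨1, L₁.one_mem, 1, L₂.one_mem, (mul_one 1).symm⟩
  | mul x y _ _ ihx ihy =>
    obtain ⟨a, ha, b, hb, rfl⟩ := ihx
    obtain ⟨a', ha', b', hb', rfl⟩ := ihy
    refine ⟨a * a', L₁.mul_mem ha ha', b * b', L₂.mul_mem hb hb', ?_⟩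
    have h := hc a' ha' b hb
    calc a * b * (a' * b') = a * (b * a') * b' := by group
      _ = a * (a' * b) * b' := by rw [h]
      _ = a * a' * (b * b') := by group
  | inv x _ ih =>
    obtain ⟨a, ha, b, hb, rfl⟩ := ih
    refine ⟨a⁻¹, L₁.inv_mem ha, b⁻¹, L₂.inv_mem hb, ?_⟩
    rw [_root_.mul_inv_rev, hc a⁻¹ (L₁.inv_mem ha) b⁻¹ (L₂.inv_mem hb)]

variable {F : Type*} [Field F]

theorem two_ne_zero_of_odd_card [Fintype F] (hF : Odd (Fintype.card F)) : (2 : F) ≠ 0 := by
  have hF' : ringChar F ≠ 2 := by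
    intro h
    have := FiniteField.even_card_iff_char_two.mp h
    rcases hF with ⟨k, hk⟩
    omega
  exact Ring.two_ne_zero hF'

theorem sl2_invol_entries (h2 : (2 : F) ≠ 0) (p q r s : F) (e00 : p * p + q * r = 1)
    (e01 : p * q + q * s = 0) (e10 : r * p + s * r = 0) (e11 : r * q + s * s = 1)
    (hdet : p * s - q * r = 1) :
    (p = 1 ∧ q = 0 ∧ r = 0 ∧ s = 1) ∨ (p = -1 ∧ q = 0 ∧ r = 0 ∧ s = -1) := by
  have hps : p + s ≠ 0 := by
    intro h
    have hs : s = -p := by linear_combination h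
    subst hs
    apply h2
    linear_combination -e00 - hdet
  have hq : q = 0 := by
    have : q * (p + s) = 0 := by linear_combination e01
    exact (mul_eq_zero.mp this).resolve_right hps
  have hr : r = 0 := by
    have : r * (p + s) = 0 := by linear_combination e10
    exact (mul_eq_zero.mp this).resolve_right hps
  subst hq hr
  have hpe : p = s := by
    have h1 : (p - s) * (p + s) = 0 := by linear_combination e00 - e11
    have h3 := (mul_eq_zero.mp h1).resolve_right hps
    linear_combination h3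
  have h4 : (p - 1) * (p + 1) = 0 := by linear_combination e00
  rcases mul_eq_zero.mp h4 with h | h
  · have hp : p = 1 := by linear_combination h
    left; exact ⟨hp, rfl, rfl, by rw [← hpe, hp]⟩
  · have hp : p = -1 := by linear_combination h
    right; exact ⟨hp, rfl, rfl, by rw [← hpe, hp]⟩

theorem sl2_sqrt_entries (h2 : (2 : F) ≠ 0) (p q r s : F) (e00 : p * p + q * r = -1)
    (e01 : p * q + q * s = 0) (e10 : r * p + s * r = 0) (_e11 : r * q + s * s = -1)
    (hdet : p * s - q * r = 1) : p + s = 0 ∧ (q ≠ 0 ∨ r ≠ 0 ∨ p ≠ s) := by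
  have hps : p + s = 0 := by
    by_contra hps
    have hq : q = 0 := by
      have : q * (p + s) = 0 := by linear_combination e01
      exact (mul_eq_zero.mp this).resolve_right hps
    have hr : r = 0 := by
      have : r * (p + s) = 0 := by linear_combination e10
      exact (mul_eq_zero.mp this).resolve_right hps
    have hp : p = 0 := by
      have : p * (p + s) = 0 := by linear_combination e00 + hdet
      exact (mul_eq_zero.mp this).resolve_right hps
    rw [hp, hq] at hdet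
    simp at hdet
  refine ⟨hps, ?_⟩
  by_contra hcon
  push Not at hcon
  obtain ⟨hq, hr, hpe⟩ := hcon
  have hp : p = 0 := by
    have : 2 * p = 0 := by linear_combination hps + hpe
    exact (mul_eq_zero.mp this).resolve_left h2
  rw [hp, hq] at hdet
  simp at hdet

/-- An involution of `SL₂(F)` (`2 ≠ 0`) is `-1`. -/
theorem sl2_coe_eq_neg_one_of_invol (h2 : (2 : F) ≠ 0) (A : Matrix.SpecialLinearGroup (Fin 2) F)
    (hA : A * A = 1) (hne : A ≠ 1) : (A : Matrix (Fin 2) (Fin 2) F) = -1 := by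
  have hM : (A : Matrix (Fin 2) (Fin 2) F) * (A : Matrix (Fin 2) (Fin 2) F) = 1 := by
    have := congrArg (fun x : Matrix.SpecialLinearGroup (Fin 2) F => (x : Matrix (Fin 2) (Fin 2) F)) hA
    simpa using this
  have hdet : (A : Matrix (Fin 2) (Fin 2) F) 0 0 * (A : Matrix (Fin 2) (Fin 2) F) 1 1 -
      (A : Matrix (Fin 2) (Fin 2) F) 0 1 * (A : Matrix (Fin 2) (Fin 2) F) 1 0 = 1 := by
    rw [← Matrix.det_fin_two]; exact A.2
  have e00 : (A : Matrix (Fin 2) (Fin 2) F) 0 0 * (A : Matrix (Fin 2) (Fin 2) F) 0 0 +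
      (A : Matrix (Fin 2) (Fin 2) F) 0 1 * (A : Matrix (Fin 2) (Fin 2) F) 1 0 = 1 := by
    have := congrFun (congrFun hM 0) 0
    simpa [Matrix.mul_apply, Fin.sum_univ_two] using this
  have e01 : (A : Matrix (Fin 2) (Fin 2) F) 0 0 * (A : Matrix (Fin 2) (Fin 2) F) 0 1 +
      (A : Matrix (Fin 2) (Fin 2) F) 0 1 * (A : Matrix (Fin 2) (Fin 2) F) 1 1 = 0 := by
    have := congrFun (congrFun hM 0) 1
    simpa [Matrix.mul_apply, Fin.sum_univ_two] using this
  have e10 : (A : Matrix (Fin 2) (Fin 2) F) 1 0 * (A : Matrix (Fin 2) (Fin 2) F) 0 0 +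
      (A : Matrix (Fin 2) (Fin 2) F) 1 1 * (A : Matrix (Fin 2) (Fin 2) F) 1 0 = 0 := by
    have := congrFun (congrFun hM 1) 0
    simpa [Matrix.mul_apply, Fin.sum_univ_two] using this
  have e11 : (A : Matrix (Fin 2) (Fin 2) F) 1 0 * (A : Matrix (Fin 2) (Fin 2) F) 0 1 +
      (A : Matrix (Fin 2) (Fin 2) F) 1 1 * (A : Matrix (Fin 2) (Fin 2) F) 1 1 = 1 := by
    have := congrFun (congrFun hM 1) 1
    simpa [Matrix.mul_apply, Fin.sum_univ_two] using this
  rcases sl2_invol_entries h2 _ _ _ _ e00 e01 e10 e11 hdet with ⟨hp, hq, hr, hs⟩ | ⟨hp, hq, hr, hs⟩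
  · exfalso; apply hne
    apply Subtype.ext
    ext i j
    fin_cases i <;> fin_cases j <;> simp [hp, hq, hr, hs]
  · ext i j
    fin_cases i <;> fin_cases j <;> simp [hp, hq, hr, hs]

/-- `SL₂(F)` (`2 ≠ 0`) has at most one involution. -/
theorem sl2_invol_unique (h2 : (2 : F) ≠ 0) (A B : Matrix.SpecialLinearGroup (Fin 2) F)
    (hA : A * A = 1) (hAne : A ≠ 1) (hB : B * B = 1) (hBne : B ≠ 1) : A = B := by
  apply Subtype.ext
  rw [sl2_coe_eq_neg_one_of_invol h2 A hA hAne, sl2_coe_eq_neg_one_of_invol h2 B hB hBne]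

theorem compSL_zero_sq_ne_one (h2 : (2 : F) ≠ 0) : compSL (0 : F) * compSL (0 : F) ≠ 1 := by
  intro h
  have := congrArg (fun x : Matrix.SpecialLinearGroup (Fin 2) F =>
    (x : Matrix (Fin 2) (Fin 2) F) 0 0) h
  simp [compSL_coe, comp2, Matrix.mul_apply, Fin.sum_univ_two] at this
  apply h2
  linear_combination -this

theorem compSL_zero_pow_four :
    (compSL (0 : F) * compSL (0 : F)) * (compSL (0 : F) * compSL (0 : F)) = 1 := by
  apply Subtype.ext
  ext i j
  fin_cases i <;> fin_cases j <;> simp [compSL_coe, comp2, Matrix.mul_apply, Fin.sum_univ_two]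

/-- In `SL₂(F)`, `F` finite of odd order, every square root of the central involution is conjugate to
`compSL 0`. -/
theorem sl2_isConj_compSL_zero_of_sq [Fintype F] (hF : Odd (Fintype.card F))
    (A : Matrix.SpecialLinearGroup (Fin 2) F) (hA1 : A * A ≠ 1) (hA2 : (A * A) * (A * A) = 1) :
    IsConj A (compSL (0 : F)) := by
  have h2 := two_ne_zero_of_odd_card hF
  have hneg := sl2_coe_eq_neg_one_of_invol h2 (A * A) hA2 hA1
  have hM : (A : Matrix (Fin 2) (Fin 2) F) * (A : Matrix (Fin 2) (Fin 2) F) = -1 := by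
    rw [← hneg]; rfl
  have hdet : (A : Matrix (Fin 2) (Fin 2) F) 0 0 * (A : Matrix (Fin 2) (Fin 2) F) 1 1 -
      (A : Matrix (Fin 2) (Fin 2) F) 0 1 * (A : Matrix (Fin 2) (Fin 2) F) 1 0 = 1 := by
    rw [← Matrix.det_fin_two]; exact A.2
  have e00 : (A : Matrix (Fin 2) (Fin 2) F) 0 0 * (A : Matrix (Fin 2) (Fin 2) F) 0 0 +
      (A : Matrix (Fin 2) (Fin 2) F) 0 1 * (A : Matrix (Fin 2) (Fin 2) F) 1 0 = -1 := by
    have := congrFun (congrFun hM 0) 0
    simpa [Matrix.mul_apply, Fin.sum_univ_two] using this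
  have e01 : (A : Matrix (Fin 2) (Fin 2) F) 0 0 * (A : Matrix (Fin 2) (Fin 2) F) 0 1 +
      (A : Matrix (Fin 2) (Fin 2) F) 0 1 * (A : Matrix (Fin 2) (Fin 2) F) 1 1 = 0 := by
    have := congrFun (congrFun hM 0) 1
    simpa [Matrix.mul_apply, Fin.sum_univ_two] using this
  have e10 : (A : Matrix (Fin 2) (Fin 2) F) 1 0 * (A : Matrix (Fin 2) (Fin 2) F) 0 0 +
      (A : Matrix (Fin 2) (Fin 2) F) 1 1 * (A : Matrix (Fin 2) (Fin 2) F) 1 0 = 0 := by
    have := congrFun (congrFun hM 1) 0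
    simpa [Matrix.mul_apply, Fin.sum_univ_two] using this
  have e11 : (A : Matrix (Fin 2) (Fin 2) F) 1 0 * (A : Matrix (Fin 2) (Fin 2) F) 0 1 +
      (A : Matrix (Fin 2) (Fin 2) F) 1 1 * (A : Matrix (Fin 2) (Fin 2) F) 1 1 = -1 := by
    have := congrFun (congrFun hM 1) 1
    simpa [Matrix.mul_apply, Fin.sum_univ_two] using this
  obtain ⟨htr, hns⟩ := sl2_sqrt_entries h2 _ _ _ _ e00 e01 e10 e11 hdet
  have hodd : Fintype.card F % 2 = 1 := Nat.odd_iff.mp hF
  have htrace : (A : Matrix (Fin 2) (Fin 2) F).trace = 0 := by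
    rw [Matrix.trace_fin_two]; exact htr
  have hconj := sl2_isConj_compSL hodd A hns (by
    rw [htrace]
    intro h
    apply h2
    have h4 : (2 : F) * 2 = 0 := by linear_combination -h
    exact mul_self_eq_zero.mp h4)
  rw [htrace] at hconj
  exact hconj

/-- A subgroup `L ≅ SL₂(F)` (`F` finite of odd order) containing the involution `j`: `j` is its only
involution, and the square roots of `j` in `L` form a single `L`-conjugacy class (nonempty). -/
theorem sl2_subgroup_invol {G : Type*} [Group G] [Fintype F]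
    (hF : Odd (Fintype.card F)) (L : Subgroup G) (e : ↥L ≃* Matrix.SpecialLinearGroup (Fin 2) F)
    (j : G) (hjL : j ∈ L) (hj : orderOf j = 2) :
    (∀ a ∈ L, a ^ 2 = 1 → a = 1 ∨ a = j) ∧
    ∃ a₀ ∈ L, a₀ ^ 2 = j ∧ ∀ a ∈ L, a ^ 2 = j → ∃ g ∈ L, g * a₀ * g⁻¹ = a := by
  have h2 := two_ne_zero_of_odd_card hF
  have hj1 : j ≠ 1 := by
    intro h; rw [h, orderOf_one] at hj; omega
  have hjj : j * j = 1 := by rw [← pow_two, ← hj, pow_orderOf_eq_one]
  have hJ : e ⟨j, hjL⟩ * e ⟨j, hjL⟩ = 1 := by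
    rw [← map_mul]
    have : (⟨j, hjL⟩ : ↥L) * ⟨j, hjL⟩ = 1 := Subtype.ext hjj
    rw [this, map_one]
  have hJ1 : e ⟨j, hjL⟩ ≠ 1 := by
    intro h
    have h1 : (⟨j, hjL⟩ : ↥L) = 1 := e.injective (by rw [h, map_one])
    exact hj1 (congrArg Subtype.val h1)
  have hinvol : ∀ a : ↥L, a * a = 1 → a ≠ 1 → a = ⟨j, hjL⟩ := by
    intro a ha hne
    apply e.injective
    apply sl2_invol_unique h2 _ _ _ _ hJ hJ1
    · rw [← map_mul, ha, map_one]
    · intro h
      exact hne (e.injective (by rw [h, map_one]))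
  refine ⟨?_, ?_⟩
  · intro a ha ha2
    by_cases h1 : a = 1
    · exact Or.inl h1
    · right
      have h3 := hinvol ⟨a, ha⟩ (Subtype.ext (by rw [← pow_two]; exact ha2))
        (fun h => h1 (congrArg Subtype.val h))
      exact congrArg Subtype.val h3
  · have hW : e.symm (compSL (0 : F)) * e.symm (compSL (0 : F)) = ⟨j, hjL⟩ := by
      apply hinvol
      · apply e.injective
        simp only [map_mul, MulEquiv.apply_symm_apply, map_one]
        exact compSL_zero_pow_four
      · intro h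
        have h3 := congrArg e h
        rw [map_mul, e.apply_symm_apply, map_one] at h3
        exact compSL_zero_sq_ne_one h2 h3
    refine ⟨(e.symm (compSL (0 : F)) : G), (e.symm (compSL (0 : F))).2, ?_, ?_⟩
    · rw [pow_two]
      exact congrArg Subtype.val hW
    · intro a ha ha2
      have hA : e ⟨a, ha⟩ * e ⟨a, ha⟩ = e ⟨j, hjL⟩ := by
        rw [← map_mul]
        congr 1
        exact Subtype.ext (by rw [← pow_two]; exact ha2)
      have hconj := sl2_isConj_compSL_zero_of_sq hF (e ⟨a, ha⟩) (by rw [hA]; exact hJ1)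
        (by rw [hA]; exact hJ)
      obtain ⟨c, hc⟩ := isConj_iff.mp hconj
      refine ⟨(e.symm c⁻¹ : G), (e.symm c⁻¹).2, ?_⟩
      have h3 : e.symm c⁻¹ * e.symm (compSL (0 : F)) * (e.symm c⁻¹)⁻¹ = ⟨a, ha⟩ := by
        apply e.injective
        simp only [map_mul, map_inv, MulEquiv.apply_symm_apply, inv_inv]
        rw [← hc]
        group
      exact congrArg Subtype.val h3

end Cfsg.Agent.Helper53
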