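import Mathlib
import Cfsg.Prelude.Def_CaseTheorems
import Cfsg.Agent.Helper53.NPC
import Cfsg.Agent.Helper53.Transfer
import Cfsg.Agent.Helper53.PGroup
import Cfsg.Agent.S3183

set_option autoImplicit false

namespace Cfsg.Agent.Helper53

/-- In a group whose distinct Sylow 2-subgroups meet inside the centre of a Sylow 2-subgroup, the
involution of a cyclic characteristic subgroup of a Sylow 2-subgroup `S` is isolated in `S`. -/
theorem ci_isolated {G : Type*} [Group G] [Finite G]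
    (hCI : ∀ S T : Sylow 2 G, S ≠ T → ∃ U : Sylow 2 G,
      (S : Subgroup G) ⊓ (T : Subgroup G) ≤ (Subgroup.center ↥(U : Subgroup G)).map (U : Subgroup G).subtype)
    (S : Sylow 2 G) (C : Subgroup ↥(S : Subgroup G)) (hCc : IsCyclic ↥C) (hCh : C.Characteristic)
    (c : ↥(S : Subgroup G)) (hc : c ∈ C) (hc2 : orderOf c = 2) :
    ∀ g : G, g * (c : G) * g⁻¹ ∈ (S : Subgroup G) → g * (c : G) * g⁻¹ = c := by
  classical
  have : Fact (Nat.Prime 2) := ⟨Nat.prime_two⟩
  have huniq : ∀ c' : ↥(S : Subgroup G), c' ∈ C → orderOf c' = 2 → c' = c := by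
    intro c' hc' hc'2
    obtain ⟨g, hg⟩ := hCc.exists_generator
    have hCp : IsPGroup 2 ↥C := S.isPGroup'.to_subgroup C
    obtain ⟨k, hk⟩ := (IsPGroup.iff_orderOf.mp hCp) g
    have h1 : orderOf (⟨c, hc⟩ : C) = 2 := by rw [Subgroup.orderOf_mk]; exact hc2
    have h2 : orderOf (⟨c', hc'⟩ : C) = 2 := by rw [Subgroup.orderOf_mk]; exact hc'2
    have h3 := mem_zpowers_of_orderOf_eq g ⟨c, hc⟩ ⟨c', hc'⟩ k hk (hg _) (hg _) (by rw [h1, h2])
    rw [mem_zpowers_iff_mem_range_orderOf, h1] at h3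
    simp only [Finset.mem_image, Finset.mem_range] at h3
    obtain ⟨i, hi, hit⟩ := h3
    interval_cases i
    · exfalso
      rw [pow_zero] at hit
      rw [← hit, orderOf_one] at h2
      omega
    · rw [pow_one] at hit
      exact (congrArg Subtype.val hit).symm
  have hnorm : ∀ n ∈ Subgroup.normalizer ((S : Subgroup G) : Set G), n * (c : G) * n⁻¹ = c := by
    intro n hn
    have hK : (C.map (S : Subgroup G).subtype) ≤ S := by
      intro x hx
      obtain ⟨y, -, rfl⟩ := Subgroup.mem_map.mp hx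
      exact y.2
    have hchar : ((C.map (S : Subgroup G).subtype).subgroupOf S).Characteristic := by
      have h : (C.map (S : Subgroup G).subtype).subgroupOf S = C :=
        Subgroup.comap_map_eq_self_of_injective (Subgroup.subtype_injective _) C
      rw [h]; exact hCh
    have hcK : (c : G) ∈ C.map (S : Subgroup G).subtype := Subgroup.mem_map.mpr ⟨c, hc, rfl⟩
    have h1 := conj_mem_of_characteristic hK hchar hn hcK
    obtain ⟨c', hc', hc'eq⟩ := Subgroup.mem_map.mp h1
    have hc'eq' : (c' : G) = n * (c : G) * n⁻¹ := hc'eq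
    have hc'2 : orderOf c' = 2 := by
      rw [← Subgroup.orderOf_coe, hc'eq', orderOf_conj_eq, Subgroup.orderOf_coe]; exact hc2
    have h2 := huniq c' hc' hc'2
    rw [← hc'eq', h2]
  have hcZ : (c : G) ∈ Subgroup.centralizer ((S : Subgroup G) : Set G) := by
    rw [Subgroup.mem_centralizer_iff]
    intro s hs
    have h := hnorm s (Subgroup.le_normalizer hs)
    calc s * (c : G) = s * c * s⁻¹ * s := by group
      _ = c * s := by rw [h]
  obtain ⟨-, hS2⟩ := Cfsg.Agent.S3183.result hCI S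
  intro g hg
  by_cases hgn : g ∈ Subgroup.normalizer ((S : Subgroup G) : Set G)
  · exact hnorm g hgn
  · have hTS : g • S ≠ S := fun h => hgn (Sylow.smul_eq_iff_mem_normalizer.mp h)
    have hyT : g * (c : G) * g⁻¹ ∈ ((g • S : Sylow 2 G) : Subgroup G) := by
      rw [sylow_smul_eq_map]
      exact conj_mem_map_conj c.2
    have h1 := hS2 (g • S) hTS (Subgroup.mem_inf.mpr ⟨hg, hyT⟩)
    obtain ⟨h2, -⟩ := Subgroup.mem_inf.mp h1
    obtain ⟨z, hz, hzy⟩ := Subgroup.mem_map.mp h2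
    have hzy' : (z : G) = g * (c : G) * g⁻¹ := hzy
    have hyZ : g⁻¹⁻¹ * (c : G) * g⁻¹ ∈ Subgroup.centralizer ((S : Subgroup G) : Set G) := by
      rw [inv_inv, ← hzy', Subgroup.mem_centralizer_iff]
      intro s hs
      have h3 := Subgroup.mem_center_iff.mp hz ⟨s, hs⟩
      exact congrArg Subtype.val h3
    obtain ⟨n, hn, hneq⟩ := Sylow.conj_eq_normalizer_conj_of_mem_centralizer S (c : G) g⁻¹ hcZ hyZ
    have h4 := hnorm n⁻¹ (Subgroup.inv_mem _ hn)
    rw [inv_inv] at h4 hneq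
    rw [hneq, h4]

/-- `S3184` from the conclusion of the `Z*`-theorem (`S0215`) for the involution `c`. -/
theorem ci_zstar {G : Type*} [Group G] [Finite G] (c : G)
    (hZ : ∃ N : Subgroup G, N.Normal ∧ Odd (Nat.card N) ∧ ∀ g : G, (c * g * c⁻¹ * g⁻¹) ∈ N) :
    ∀ g : G, (QuotientGroup.mk (s := Cfsg.oddCore G) (g * c * g⁻¹)) =
      QuotientGroup.mk (s := Cfsg.oddCore G) c := by
  obtain ⟨N, hN, hodd, hcomm⟩ := hZ
  have hle : N ≤ Cfsg.oddCore G := le_sSup ⟨hN, hodd.coprime_two_right⟩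
  intro g
  apply QuotientGroup.eq.mpr
  apply hle
  have h1 := hN.conj_mem _ (hcomm g) c⁻¹
  have h2 : c⁻¹ * (c * g * c⁻¹ * g⁻¹) * c⁻¹⁻¹ = (g * c * g⁻¹)⁻¹ * c := by group
  rw [h2] at h1
  exact h1

end Cfsg.Agent.Helper53
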